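import Cfsg.Agent.Helper40.DZDefs
import Cfsg.Prelude.Def_Solvable

set_option autoImplicit false

/-!
Piece D1 of CALL S4538 (helper40): the entries of `ṡ_j = x_j(1) y_j(-1) x_j(1)`.
-/

namespace Cfsg.Agent.Helper91.DZ

open Cfsg.Agent.Helper40.DZ Cfsg.Agent.Helper44.PSLn Matrix

universe u

section Mat

variable {n : ℕ} {F : Type u} [Field F]

local notation "SLn" => Matrix.SpecialLinearGroup (Fin n) F

/-- the matrix of `ṡ_j` as a combination of matrix units -/
theorem sdot_coe_eq (j : ℕ) (hj : j + 1 < n) :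
    ((sdot j hj : SLn) : Matrix (Fin n) (Fin n) F) =
      1 + Matrix.single (ia j hj) (ib j hj) (1 : F) - Matrix.single (ib j hj) (ia j hj) (1 : F)
        - Matrix.single (ia j hj) (ia j hj) (1 : F) - Matrix.single (ib j hj) (ib j hj) (1 : F) := by
  have hne : ia j hj ≠ ib j hj := ia_ne_ib j hj
  have hne' : ib j hj ≠ ia j hj := hne.symm
  unfold sdot xel yel
  rw [Matrix.SpecialLinearGroup.coe_mul, Matrix.SpecialLinearGroup.coe_mul,
    Matrix.SpecialLinearGroup.transvection_coe, Matrix.SpecialLinearGroup.transvection_coe]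
  have hy : (1 : Matrix (Fin n) (Fin n) F) + Matrix.single (ib j hj) (ia j hj) (-1 : F) =
      1 - Matrix.single (ib j hj) (ia j hj) (1 : F) := by
    rw [← Matrix.single_neg, sub_eq_add_neg]
  rw [hy]
  have hAA : Matrix.single (ia j hj) (ib j hj) (1 : F) * Matrix.single (ia j hj) (ib j hj) (1 : F) = 0 :=
    Matrix.single_mul_single_of_ne _ _ _ _ hne' _
  have hAB : Matrix.single (ia j hj) (ib j hj) (1 : F) * Matrix.single (ib j hj) (ia j hj) (1 : F) =
      Matrix.single (ia j hj) (ia j hj) (1 : F) := by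
    rw [Matrix.single_mul_single_same, one_mul]
  have hBA : Matrix.single (ib j hj) (ia j hj) (1 : F) * Matrix.single (ia j hj) (ib j hj) (1 : F) =
      Matrix.single (ib j hj) (ib j hj) (1 : F) := by
    rw [Matrix.single_mul_single_same, one_mul]
  have hEA : Matrix.single (ia j hj) (ia j hj) (1 : F) * Matrix.single (ia j hj) (ib j hj) (1 : F) =
      Matrix.single (ia j hj) (ib j hj) (1 : F) := by
    rw [Matrix.single_mul_single_same, one_mul]
  obtain ⟨A, hA⟩ : ∃ A : Matrix (Fin n) (Fin n) F, A = Matrix.single (ia j hj) (ib j hj) (1 : F) :=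
    ⟨_, rfl⟩
  obtain ⟨B, hB⟩ : ∃ B : Matrix (Fin n) (Fin n) F, B = Matrix.single (ib j hj) (ia j hj) (1 : F) :=
    ⟨_, rfl⟩
  rw [← hA, ← hB] at hAB hBA ⊢
  rw [← hA] at hAA hEA
  have e : (1 + A) * (1 - B) * (1 + A) = 1 + A - B - A * B + A + A * A - B * A - A * B * A := by
    noncomm_ring
  rw [e, hAA, hAB, hBA, hEA]
  abel

/-- D1: the entries of `ṡ_j`. -/
theorem sdot_apply (j : ℕ) (hj : j + 1 < n) (a b : Fin n) :
    ((sdot j hj : SLn) : Matrix (Fin n) (Fin n) F) a b =
      if a = ia j hj ∧ b = ib j hj then 1 else if a = ib j hj ∧ b = ia j hj then -1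
      else if a = b ∧ a ≠ ia j hj ∧ a ≠ ib j hj then 1 else 0 := by
  have hne : ia j hj ≠ ib j hj := ia_ne_ib j hj
  have hne' : ib j hj ≠ ia j hj := hne.symm
  rw [sdot_coe_eq]
  simp only [Matrix.sub_apply, Matrix.add_apply, Matrix.one_apply, Matrix.single_apply]
  by_cases ha : a = ia j hj
  · subst ha
    by_cases hb : b = ib j hj
    · subst hb
      simp [hne, hne']
    · by_cases hb' : b = ia j hj
      · subst hb'
        simp [hne, hne']
      · simp [hne, hne', hb, hb', Ne.symm hb, Ne.symm hb']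
  · by_cases ha' : a = ib j hj
    · subst ha'
      by_cases hb : b = ia j hj
      · subst hb
        simp [hne, hne']
      · by_cases hb' : b = ib j hj
        · subst hb'
          simp [hne, hne']
        · simp [hne, hne', hb, hb', Ne.symm hb, Ne.symm hb']
    · by_cases hab : a = b
      · subst hab
        simp [ha, ha', Ne.symm ha, Ne.symm ha']
      · simp [ha, ha', Ne.symm ha, Ne.symm ha', hab]

end Mat

end Cfsg.Agent.Helper91.DZ
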