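import Cfsg.Agent.Helper40.DZDefs
import Cfsg.Prelude.Def_Solvable
import Cfsg.Agent.Helper91.DZD1

set_option autoImplicit false

/-!
Piece C1 of CALL S4538 (helper40): `U ∩ ṡ_j U ṡ_j⁻¹` consists of the unitriangular matrices
with zero `(j, j+1)` entry.
-/

namespace Cfsg.Agent.Helper91.DZ

open Cfsg.Agent.Helper40.DZ Cfsg.Agent.Helper44.PSLn Matrix

universe u

section Mat

variable {n : ℕ} {F : Type u} [Field F]

local notation "SLn" => Matrix.SpecialLinearGroup (Fin n) F

theorem dzc1_mul_single (M : Matrix (Fin n) (Fin n) F) (x y i k : Fin n) :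
    (M * Matrix.single x y (1 : F)) i k = if k = y then M i x else 0 := by
  by_cases h : k = y
  · subst h
    rw [Matrix.mul_single_apply_same, mul_one, if_pos rfl]
  · rw [Matrix.mul_single_apply_of_ne _ _ _ _ _ h, if_neg h]

theorem dzc1_single_mul (M : Matrix (Fin n) (Fin n) F) (x y i k : Fin n) :
    (Matrix.single x y (1 : F) * M) i k = if i = x then M y k else 0 := by
  by_cases h : i = x
  · subst h
    rw [Matrix.single_mul_apply_same, one_mul, if_pos rfl]
  · rw [Matrix.single_mul_apply_of_ne _ _ _ _ _ h, if_neg h]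

/-- right multiplication by `ṡ_j` -/
theorem mul_sdot_apply (j : ℕ) (hj : j + 1 < n) (M : Matrix (Fin n) (Fin n) F) (i k : Fin n) :
    (M * ((sdot j hj : SLn) : Matrix (Fin n) (Fin n) F)) i k =
      if k = ia j hj then - M i (ib j hj) else if k = ib j hj then M i (ia j hj) else M i k := by
  have hne : ia j hj ≠ ib j hj := ia_ne_ib j hj
  have hne' : ib j hj ≠ ia j hj := hne.symm
  rw [sdot_coe_eq]
  simp only [mul_sub, mul_add, mul_one, Matrix.sub_apply, Matrix.add_apply, dzc1_mul_single]
  by_cases h1 : k = ia j hj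
  · subst h1
    simp [hne]
  · by_cases h2 : k = ib j hj
    · subst h2
      simp [hne']
    · simp [h1, h2]

/-- the inverse of `ṡ_j` as a product of transvections -/
theorem sdot_inv_eq (j : ℕ) (hj : j + 1 < n) :
    (sdot j hj : SLn)⁻¹ = xel j hj (-1) * yel j hj 1 * xel j hj (-1) := by
  have hx : (xel j hj (1 : F) : SLn) * xel j hj (-1) = 1 := by
    apply Subtype.ext
    unfold xel
    rw [Matrix.SpecialLinearGroup.coe_mul]
    change Matrix.transvection _ _ _ * Matrix.transvection _ _ _ = 1
    rw [Matrix.transvection_mul_transvection_same _ _ (ia_ne_ib j hj), add_neg_cancel,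
      Matrix.transvection_zero]
  have hy : (yel j hj (-1 : F) : SLn) * yel j hj 1 = 1 := by
    apply Subtype.ext
    unfold yel
    rw [Matrix.SpecialLinearGroup.coe_mul]
    change Matrix.transvection _ _ _ * Matrix.transvection _ _ _ = 1
    rw [Matrix.transvection_mul_transvection_same _ _ (ia_ne_ib j hj).symm, neg_add_cancel,
      Matrix.transvection_zero]
  apply inv_eq_of_mul_eq_one_right
  unfold sdot
  calc xel j hj (1 : F) * yel j hj (-1) * xel j hj 1 * (xel j hj (-1) * yel j hj 1 * xel j hj (-1))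
      = xel j hj (1 : F) * (yel j hj (-1) * (xel j hj 1 * xel j hj (-1)) * yel j hj 1) *
          xel j hj (-1) := by group
    _ = 1 := by rw [hx, mul_one, hy, mul_one, hx]

/-- the matrix of `ṡ_j⁻¹` as a combination of matrix units -/
theorem sdot_inv_coe_eq (j : ℕ) (hj : j + 1 < n) :
    (((sdot j hj : SLn)⁻¹ : SLn) : Matrix (Fin n) (Fin n) F) =
      1 - Matrix.single (ia j hj) (ib j hj) (1 : F) + Matrix.single (ib j hj) (ia j hj) (1 : F)
        - Matrix.single (ia j hj) (ia j hj) (1 : F) - Matrix.single (ib j hj) (ib j hj) (1 : F) := by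
  have hne : ia j hj ≠ ib j hj := ia_ne_ib j hj
  have hne' : ib j hj ≠ ia j hj := hne.symm
  rw [sdot_inv_eq]
  unfold xel yel
  rw [Matrix.SpecialLinearGroup.coe_mul, Matrix.SpecialLinearGroup.coe_mul,
    Matrix.SpecialLinearGroup.transvection_coe, Matrix.SpecialLinearGroup.transvection_coe]
  have hy : (1 : Matrix (Fin n) (Fin n) F) + Matrix.single (ia j hj) (ib j hj) (-1 : F) =
      1 - Matrix.single (ia j hj) (ib j hj) (1 : F) := by
    rw [← Matrix.single_neg, sub_eq_add_neg]
  rw [hy]
  have hAA : Matrix.single (ia j hj) (ib j hj) (1 : F) * Matrix.single (ia j hj) (ib j hj) (1 : F) = 0 :=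
    Matrix.single_mul_single_of_ne _ _ _ _ hne' _
  have hAB : Matrix.single (ia j hj) (ib j hj) (1 : F) * Matrix.single (ib j hj) (ia j hj) (1 : F) =
      Matrix.single (ia j hj) (ia j hj) (1 : F) := by
    rw [Matrix.single_mul_single_same, one_mul]
  have hBA : Matrix.single (ib j hj) (ia j hj) (1 : F) * Matrix.single (ia j hj) (ib j hj) (1 : F) =
      Matrix.single (ib j hj) (ib j hj) (1 : F) := by
    rw [Matrix.single_mul_single_same, one_mul]
  have hEA : Matrix.single (ia j hj) (ia j hj) (1 : F) * Matrix.single (ia j hj) (ib j hj) (1 : F) =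
      Matrix.single (ia j hj) (ib j hj) (1 : F) := by
    rw [Matrix.single_mul_single_same, one_mul]
  obtain ⟨A, hA⟩ : ∃ A : Matrix (Fin n) (Fin n) F, A = Matrix.single (ia j hj) (ib j hj) (1 : F) :=
    ⟨_, rfl⟩
  obtain ⟨B, hB⟩ : ∃ B : Matrix (Fin n) (Fin n) F, B = Matrix.single (ib j hj) (ia j hj) (1 : F) :=
    ⟨_, rfl⟩
  rw [← hA, ← hB] at hAB hBA ⊢
  rw [← hA] at hAA hEA
  have e : (1 - A) * (1 + B) * (1 - A) = 1 - A + B - A * B - A + A * A - B * A + A * B * A := by
    noncomm_ring
  rw [e, hAA, hAB, hBA, hEA]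
  abel

/-- left multiplication by `ṡ_j⁻¹` -/
theorem sdot_inv_mul_apply (j : ℕ) (hj : j + 1 < n) (M : Matrix (Fin n) (Fin n) F) (i k : Fin n) :
    ((((sdot j hj : SLn)⁻¹ : SLn) : Matrix (Fin n) (Fin n) F) * M) i k =
      if i = ia j hj then - M (ib j hj) k else if i = ib j hj then M (ia j hj) k else M i k := by
  have hne : ia j hj ≠ ib j hj := ia_ne_ib j hj
  have hne' : ib j hj ≠ ia j hj := hne.symm
  rw [sdot_inv_coe_eq]
  simp only [sub_mul, add_mul, one_mul, Matrix.sub_apply, Matrix.add_apply, dzc1_single_mul]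
  by_cases h1 : i = ia j hj
  · subst h1
    simp [hne]
  · by_cases h2 : i = ib j hj
    · subst h2
      simp [hne']
    · simp [h1, h2]

/-- the entries of `ṡ_j⁻¹ g ṡ_j` -/
theorem sdot_conj_apply (j : ℕ) (hj : j + 1 < n) (g : SLn) (i k : Fin n) :
    (((sdot j hj : SLn)⁻¹ * g * sdot j hj : SLn) : Matrix (Fin n) (Fin n) F) i k =
      if i = ia j hj then
        - (if k = ia j hj then - (g : Matrix (Fin n) (Fin n) F) (ib j hj) (ib j hj)
          else if k = ib j hj then (g : Matrix (Fin n) (Fin n) F) (ib j hj) (ia j hj)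
          else (g : Matrix (Fin n) (Fin n) F) (ib j hj) k)
      else if i = ib j hj then
        (if k = ia j hj then - (g : Matrix (Fin n) (Fin n) F) (ia j hj) (ib j hj)
          else if k = ib j hj then (g : Matrix (Fin n) (Fin n) F) (ia j hj) (ia j hj)
          else (g : Matrix (Fin n) (Fin n) F) (ia j hj) k)
      else
        (if k = ia j hj then - (g : Matrix (Fin n) (Fin n) F) i (ib j hj)
          else if k = ib j hj then (g : Matrix (Fin n) (Fin n) F) i (ia j hj)
          else (g : Matrix (Fin n) (Fin n) F) i k) := by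
  rw [mul_assoc, Matrix.SpecialLinearGroup.coe_mul, Matrix.SpecialLinearGroup.coe_mul,
    sdot_inv_mul_apply]
  simp only [mul_sdot_apply]

variable [Fintype F]

/-- membership in the conjugate `ṡ U ṡ⁻¹` -/
theorem mem_map_conj_sdot_iff (j : ℕ) (hj : j + 1 < n) (g : SLn) :
    g ∈ (UniS n F).map (MulAut.conj (sdot j hj)).toMonoidHom ↔
      (sdot j hj)⁻¹ * g * sdot j hj ∈ UniS n F := by
  constructor
  · rintro ⟨u, hu, rfl⟩
    have : (sdot j hj)⁻¹ * ((MulAut.conj (sdot j hj)).toMonoidHom u) * sdot j hj = u := by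
      simp [MulAut.conj_apply]
      group
    rw [this]
    exact hu
  · intro h
    refine ⟨(sdot j hj)⁻¹ * g * sdot j hj, h, ?_⟩
    simp [MulAut.conj_apply]
    group

/-- C1: `U ∩ ṡ U ṡ⁻¹` consists of the unitriangular matrices with zero `(j, j+1)` entry. -/
theorem mem_uRad_iff (j : ℕ) (hj : j + 1 < n) (g : SLn) :
    g ∈ uRad n F j hj ↔
      g ∈ UniS n F ∧ (g : Matrix (Fin n) (Fin n) F) (ia j hj) (ib j hj) = 0 := by
  have hne : ia j hj ≠ ib j hj := ia_ne_ib j hj
  have hne' : ib j hj ≠ ia j hj := hne.symm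
  have hva : (ia j hj).val = j := rfl
  have hvb : (ib j hj).val = j + 1 := rfl
  unfold uRad
  rw [Subgroup.mem_inf, mem_map_conj_sdot_iff]
  refine and_congr_right (fun hg => ?_)
  rw [mem_UniS] at hg ⊢
  obtain ⟨hlow, hdiag⟩ := hg
  constructor
  · intro h
    have h1 := h.1 (ib j hj) (ia j hj) (by rw [Fin.lt_def, hva, hvb]; omega)
    rw [sdot_conj_apply, if_neg hne', if_pos rfl, if_pos rfl] at h1
    exact neg_eq_zero.mp h1
  · intro h0
    constructor
    · intro i k hki
      rw [Fin.lt_def] at hki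
      rw [sdot_conj_apply]
      by_cases hi1 : i = ia j hj
      · subst hi1
        have hk1 : k ≠ ia j hj := fun h => by rw [h] at hki; omega
        have hk2 : k ≠ ib j hj := fun h => by rw [h, hva, hvb] at hki; omega
        rw [if_pos rfl, if_neg hk1, if_neg hk2, neg_eq_zero]
        exact hlow _ _ (by rw [Fin.lt_def, hvb]; rw [hva] at hki; omega)
      · by_cases hi2 : i = ib j hj
        · subst hi2
          rw [if_neg hne', if_pos rfl]
          by_cases hk1 : k = ia j hj
          · rw [if_pos hk1, h0, neg_zero]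
          · have hk2 : k ≠ ib j hj := fun h => by rw [h] at hki; omega
            rw [if_neg hk1, if_neg hk2]
            have hk1' : k.val ≠ j := fun h => hk1 (Fin.ext h)
            exact hlow _ _ (by rw [Fin.lt_def, hva]; rw [hvb] at hki; omega)
        · rw [if_neg hi1, if_neg hi2]
          have hi1' : i.val ≠ j := fun h => hi1 (Fin.ext h)
          have hi2' : i.val ≠ j + 1 := fun h => hi2 (Fin.ext h)
          by_cases hk1 : k = ia j hj
          · rw [if_pos hk1, neg_eq_zero]
            rw [hk1, hva] at hki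
            exact hlow _ _ (by rw [Fin.lt_def, hvb]; omega)
          · by_cases hk2 : k = ib j hj
            · rw [if_neg hk1, if_pos hk2]
              rw [hk2, hvb] at hki
              exact hlow _ _ (by rw [Fin.lt_def, hva]; omega)
            · rw [if_neg hk1, if_neg hk2]
              exact hlow _ _ (by rw [Fin.lt_def]; exact hki)
    · intro i
      rw [sdot_conj_apply]
      by_cases hi1 : i = ia j hj
      · subst hi1
        rw [if_pos rfl, if_pos rfl, neg_neg]
        exact hdiag _
      · by_cases hi2 : i = ib j hj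
        · subst hi2
          rw [if_neg hne', if_pos rfl, if_neg hne', if_pos rfl]
          exact hdiag _
        · rw [if_neg hi1, if_neg hi2, if_neg hi1, if_neg hi2]
          exact hdiag _

end Mat

end Cfsg.Agent.Helper91.DZ
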