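import Mathlib
import Cfsg.Agent.Helper90.MDDefs

set_option autoImplicit false

namespace Cfsg.Agent.Helper91

open Cfsg.Agent.Helper90.MD

section
variable {G : Type*} [Group G] {V : Type*} [AddCommGroup V] [Module ℂ V]

/-! ## PIECE AVG (S2332) -/

theorem ptr_id (ρ : Representation ℂ G V) (g : G) : ptr ρ LinearMap.id g = ρ.character g := by
  unfold ptr
  rw [LinearMap.comp_id]
  rfl

theorem isProjFor_id (ρ : Representation ℂ G V) (N : Subgroup G) : IsProjFor ρ N LinearMap.id :=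
  ⟨LinearMap.id_comp _, fun n _ => by rw [LinearMap.comp_id, LinearMap.id_comp]⟩

/-- the unnormalised sum over `A`. -/
noncomputable def mdSum (ρ : Representation ℂ G V) (A : Subgroup G) [Fintype A] : V →ₗ[ℂ] V :=
  ∑ x : A, ρ (x : G)

theorem avg_eq_mdSum (ρ : Representation ℂ G V) (A : Subgroup G) [Fintype A] :
    avg ρ A = (Fintype.card A : ℂ)⁻¹ • mdSum ρ A := by
  unfold avg mdSum
  rw [finsum_eq_sum_of_fintype, Nat.card_eq_fintype_card]

theorem mdSum_mul_left (ρ : Representation ℂ G V) (A : Subgroup G) [Fintype A] (y : G)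
    (hy : y ∈ A) : ρ y * mdSum ρ A = mdSum ρ A := by
  unfold mdSum
  rw [Finset.mul_sum]
  rw [← Equiv.sum_comp (Equiv.mulLeft (⟨y, hy⟩ : A)) (fun x : A => ρ (x : G))]
  apply Finset.sum_congr rfl
  intro x _
  rw [← map_mul]
  rfl

theorem mdSum_mul_self (ρ : Representation ℂ G V) (A : Subgroup G) [Fintype A] :
    mdSum ρ A * mdSum ρ A = (Fintype.card A : ℂ) • mdSum ρ A := by
  have h : mdSum ρ A * mdSum ρ A = ∑ y : A, ρ (y : G) * mdSum ρ A := by
    conv_lhs => rw [mdSum]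
    rw [Finset.sum_mul]
    rfl
  rw [h, Finset.sum_congr rfl (fun y _ => mdSum_mul_left ρ A y.1 y.2), Finset.sum_const,
    Finset.card_univ, Nat.cast_smul_eq_nsmul]

theorem mdSum_comm_of (ρ : Representation ℂ G V) (A : Subgroup G) [Fintype A] (P : V →ₗ[ℂ] V)
    (hP : ∀ x ∈ A, ρ x * P = P * ρ x) : P * mdSum ρ A = mdSum ρ A * P := by
  unfold mdSum
  rw [Finset.mul_sum, Finset.sum_mul]
  apply Finset.sum_congr rfl
  intro x _
  exact (hP x.1 x.2).symm

theorem mdSum_comm_norm (ρ : Representation ℂ G V) (A : Subgroup G) [Fintype A] (n : G)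
    (hn : NormBy n A) : ρ n * mdSum ρ A = mdSum ρ A * ρ n := by
  unfold mdSum
  rw [Finset.mul_sum, Finset.sum_mul]
  let σ : A ≃ A :=
    { toFun := fun x => ⟨n⁻¹ * x.1 * n, hn.2 x.1 x.2⟩
      invFun := fun x => ⟨n * x.1 * n⁻¹, hn.1 x.1 x.2⟩
      left_inv := fun x => by
        apply Subtype.ext
        simp [mul_assoc]
      right_inv := fun x => by
        apply Subtype.ext
        simp [mul_assoc] }
  rw [← Equiv.sum_comp σ (fun x : A => ρ n * ρ (x : G))]
  apply Finset.sum_congr rfl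
  intro x _
  rw [← map_mul, ← map_mul]
  congr 1
  show n * (n⁻¹ * x.1 * n) = x.1 * n
  simp [mul_assoc]

theorem avg_isProjFor [Finite G] (ρ : Representation ℂ G V) (N A N' : Subgroup G)
    (P : V →ₗ[ℂ] V) (hP : IsProjFor ρ N P) (hAN : A ≤ N) (hN' : N' ≤ N)
    (hN'A : ∀ n ∈ N', NormBy n A) : IsProjFor ρ N' (P ∘ₗ avg ρ A) := by
  classical
  haveI : Fintype A := Fintype.ofFinite A
  obtain ⟨hPP, hPN⟩ := hP
  have hPP' : P * P = P := hPP
  have hPN' : ∀ n ∈ N, ρ n * P = P * ρ n := hPN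
  have hc : (Fintype.card A : ℂ) ≠ 0 := by
    have : 0 < Fintype.card A := Fintype.card_pos
    exact_mod_cast this.ne'
  have hPS : P * mdSum ρ A = mdSum ρ A * P :=
    mdSum_comm_of ρ A P (fun x hx => hPN' x (hAN hx))
  rw [avg_eq_mdSum]
  refine ⟨?_, ?_⟩
  · show (P * ((Fintype.card A : ℂ)⁻¹ • mdSum ρ A)) * (P * ((Fintype.card A : ℂ)⁻¹ • mdSum ρ A)) =
      P * ((Fintype.card A : ℂ)⁻¹ • mdSum ρ A)
    rw [mul_smul_comm, smul_mul_smul_comm]
    have : P * mdSum ρ A * (P * mdSum ρ A) = (Fintype.card A : ℂ) • (P * mdSum ρ A) := by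
      calc P * mdSum ρ A * (P * mdSum ρ A) = P * (mdSum ρ A * P) * mdSum ρ A := by
            simp only [mul_assoc]
        _ = P * (P * mdSum ρ A) * mdSum ρ A := by rw [hPS]
        _ = (P * P) * (mdSum ρ A * mdSum ρ A) := by simp only [mul_assoc]
        _ = (Fintype.card A : ℂ) • (P * mdSum ρ A) := by
            rw [hPP', mdSum_mul_self, mul_smul_comm]
    rw [this, smul_smul]
    congr 1
    field_simp
  · intro n hn
    show ρ n * (P * ((Fintype.card A : ℂ)⁻¹ • mdSum ρ A)) =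
      (P * ((Fintype.card A : ℂ)⁻¹ • mdSum ρ A)) * ρ n
    rw [mul_smul_comm, mul_smul_comm, smul_mul_assoc]
    congr 1
    calc ρ n * (P * mdSum ρ A) = (ρ n * P) * mdSum ρ A := by rw [mul_assoc]
      _ = P * (ρ n * mdSum ρ A) := by rw [hPN' n (hN' hn), mul_assoc]
      _ = P * mdSum ρ A * ρ n := by rw [mdSum_comm_norm ρ A n (hN'A n hn), mul_assoc]

theorem ptr_avg [Finite G] [FiniteDimensional ℂ V] (ρ : Representation ℂ G V) (N A : Subgroup G)
    (P : V →ₗ[ℂ] V) (hP : IsProjFor ρ N P) (hAN : A ≤ N) (g : G) :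
    ptr ρ (P ∘ₗ avg ρ A) g * (Nat.card A : ℂ) = ∑ᶠ x : A, ptr ρ P (g * (x : G)) := by
  classical
  haveI : Fintype A := Fintype.ofFinite A
  obtain ⟨hPP, hPN⟩ := hP
  have hPN' : ∀ n ∈ N, ρ n * P = P * ρ n := hPN
  have hc : (Fintype.card A : ℂ) ≠ 0 := by
    have : 0 < Fintype.card A := Fintype.card_pos
    exact_mod_cast this.ne'
  rw [finsum_eq_sum_of_fintype, Nat.card_eq_fintype_card, avg_eq_mdSum]
  unfold ptr
  have h1 : ρ g ∘ₗ (P ∘ₗ ((Fintype.card A : ℂ)⁻¹ • mdSum ρ A)) =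
      (Fintype.card A : ℂ)⁻¹ • ∑ x : A, ρ (g * (x : G)) ∘ₗ P := by
    show ρ g * (P * ((Fintype.card A : ℂ)⁻¹ • mdSum ρ A)) =
      (Fintype.card A : ℂ)⁻¹ • ∑ x : A, ρ (g * (x : G)) * P
    rw [mul_smul_comm, mul_smul_comm]
    congr 1
    unfold mdSum
    rw [Finset.mul_sum, Finset.mul_sum]
    apply Finset.sum_congr rfl
    intro x _
    rw [← hPN' x.1 (hAN x.2), ← mul_assoc, map_mul]
  rw [h1, map_smul, map_sum, smul_eq_mul]
  field_simp

theorem ptr_one_nat [FiniteDimensional ℂ V] (ρ : Representation ℂ G V) (N : Subgroup G)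
    (P : V →ₗ[ℂ] V) (hP : IsProjFor ρ N P) :
    ptr ρ P 1 = (Module.finrank ℂ (LinearMap.range P) : ℂ) := by
  unfold ptr
  have h1 : ρ 1 ∘ₗ P = P := by
    rw [map_one]
    rfl
  rw [h1]
  have hid : IsIdempotentElem P := hP.1
  exact (LinearMap.IsIdempotentElem.isProj_range P hid).trace

theorem ptr_avg_one [Finite G] [FiniteDimensional ℂ V] (ρ : Representation ℂ G V)
    (N A : Subgroup G) (P : V →ₗ[ℂ] V) (hP : IsProjFor ρ N P) (hAN : A ≤ N) (τ : ℂ)
    (hτ : ∀ x ∈ A, x ≠ 1 → ptr ρ P x = τ) :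
    ptr ρ (P ∘ₗ avg ρ A) 1 * (Nat.card A : ℂ) = ptr ρ P 1 + ((Nat.card A : ℂ) - 1) * τ := by
  classical
  haveI : Fintype A := Fintype.ofFinite A
  rw [ptr_avg ρ N A P hP hAN 1, finsum_eq_sum_of_fintype, Nat.card_eq_fintype_card]
  rw [← Finset.add_sum_erase Finset.univ _ (Finset.mem_univ (1 : A))]
  congr 1
  · rw [one_mul]
    rfl
  · have : ∀ x ∈ (Finset.univ : Finset A).erase 1, ptr ρ P (1 * (x : G)) = τ := by
      intro x hx
      rw [one_mul]
      apply hτ x.1 x.2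
      intro e
      exact (Finset.ne_of_mem_erase hx) (Subtype.ext e)
    rw [Finset.sum_congr rfl this, Finset.sum_const, Finset.card_erase_of_mem (Finset.mem_univ _),
      Finset.card_univ, nsmul_eq_mul]
    have hpos : 1 ≤ Fintype.card A := Fintype.card_pos
    rw [Nat.cast_sub hpos, Nat.cast_one]

end

end Cfsg.Agent.Helper91
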