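import Mathlib
import Cfsg.Agent.Helper13.SuBlk
import Cfsg.Agent.Helper13.SpRU3a
import Cfsg.Agent.Helper91.Su5R

set_option autoImplicit false

namespace Cfsg.Agent.Helper91

open Matrix
open Cfsg.Agent.Helper5 (frobQ frobQ_apply frobQ_frobQ)
open Cfsg.Agent.Helper99 (suH suG suAct suEl)
open Cfsg.Agent.Helper13 (bVec suBlk suLv BlkU rix ruU ruUi ruVb ruB)

variable {K : Type*} [Field K] [Fintype K] {q : ℕ}

theorem su5h_ruUi_map (hK : Fintype.card K = q ^ 2) (N : ℕ) :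
    (ruUi N K).map (frobQ hK) = ruUi N K := by
  ext i j
  rw [Matrix.map_apply, Cfsg.Agent.Helper13.ruUi_apply]
  split_ifs <;> simp

theorem su5h_ruU_map (hK : Fintype.card K = q ^ 2) (N : ℕ) :
    (ruU N K).map (frobQ hK) = ruU N K := by
  ext i j
  rw [Matrix.map_apply, Cfsg.Agent.Helper13.ruU_apply]
  split_ifs <;> simp

theorem su5h_ruUi_mul_ruU (N : ℕ) : ruUi N K * ruU N K = 1 :=
  mul_eq_one_comm.1 Cfsg.Agent.Helper13.ruU_mul_ruUi

/-- PIECE H (S2282). -/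
theorem su_conj_exists (hK : Fintype.card K = q ^ 2) (p : ℕ) [Fact p.Prime] [CharP K p] (N : ℕ)
    (hN : 2 ≤ N) (γ : K) (hγ : γ ≠ 0)
    (a z v : Matrix.SpecialLinearGroup (Fin (N + 1)) K) (ha : a.1 = ruU N K)
    (hz : z.1 = Matrix.transvection (rix N N) (rix N 0) (-1 : K)) (hv : v.1 = ruVb N γ)
    (a₀ c : K) (ha₀ : a₀ ≠ 0) (hc : c + frobQ hK c + a₀ * frobQ hK a₀ = 0) :
    ∃ (h : ↥(suG hK (2 * (N + 1) + 1))) (a₁ : K), a₁ ≠ 0 ∧
      c + frobQ hK c + a₁ * frobQ hK a₁ = 0 ∧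
      h * (suLv hK (N + 1) a * suEl hK (bVec (Pi.single (rix N N) 1) 0 0) (bVec 0 0 a₀) c) * h⁻¹ =
        suLv hK (N + 1) (z * v) *
          suEl hK (bVec 0 (Pi.single (rix N 1) 1) 0) (bVec 0 0 a₁) c := by
  have hγη : γ * γ⁻¹ = 1 := mul_inv_cancel₀ hγ
  have B1 : ruB N γ⁻¹ * (ruB N γ)ᵀ = 1 :=
    Cfsg.Agent.Helper13.ruB_mul_ruBT (by omega) γ γ⁻¹ hγη
  have B2 : (ruB N γ)ᵀ * ruB N γ⁻¹ = 1 := mul_eq_one_comm.1 B1
  have B3 : ruB N γ * (ruB N γ⁻¹)ᵀ = 1 := by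
    have := congrArg Matrix.transpose B1
    rwa [Matrix.transpose_mul, Matrix.transpose_transpose, Matrix.transpose_one] at this
  have B4 : (ruB N γ⁻¹)ᵀ * ruB N γ = 1 := mul_eq_one_comm.1 B3
  have h11 : ((ruB N γ).map (frobQ hK))ᵀ * (0 : Matrix (Fin (N + 1)) (Fin (N + 1)) K).map (frobQ hK) +
      (0 : Matrix (Fin (N + 1)) (Fin (N + 1)) K)ᵀ * ((ruB N γ).map (frobQ hK)).map (frobQ hK) = 0 := by
    rw [Matrix.transpose_zero, Matrix.zero_mul, add_zero]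
    have : (0 : Matrix (Fin (N + 1)) (Fin (N + 1)) K).map (frobQ hK) = 0 := by
      ext i j; simp
    rw [this, Matrix.mul_zero]
  have h12 : ((ruB N γ).map (frobQ hK))ᵀ * (ruB N γ⁻¹).map (frobQ hK) +
      (0 : Matrix (Fin (N + 1)) (Fin (N + 1)) K)ᵀ *
        (0 : Matrix (Fin (N + 1)) (Fin (N + 1)) K).map (frobQ hK) = 1 := by
    rw [Matrix.transpose_zero, Matrix.zero_mul, add_zero, ← Matrix.transpose_map,
      ← Matrix.map_mul, B2]
    exact Matrix.map_one _ (map_zero _) (map_one _)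
  have h21 : (0 : Matrix (Fin (N + 1)) (Fin (N + 1)) K)ᵀ *
        (0 : Matrix (Fin (N + 1)) (Fin (N + 1)) K).map (frobQ hK) +
      (ruB N γ⁻¹)ᵀ * ((ruB N γ).map (frobQ hK)).map (frobQ hK) = 1 := by
    rw [Matrix.transpose_zero, Matrix.zero_mul, zero_add, Cfsg.Agent.Helper13.frob_map_map, B4]
  have h22 : (0 : Matrix (Fin (N + 1)) (Fin (N + 1)) K)ᵀ * (ruB N γ⁻¹).map (frobQ hK) +
      (ruB N γ⁻¹)ᵀ * (0 : Matrix (Fin (N + 1)) (Fin (N + 1)) K).map (frobQ hK) = 0 := by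
    rw [Matrix.transpose_zero, Matrix.zero_mul, zero_add]
    have : (0 : Matrix (Fin (N + 1)) (Fin (N + 1)) K).map (frobQ hK) = 0 := by
      ext i j; simp
    rw [this, Matrix.mul_zero]
  have hU := Cfsg.Agent.Helper13.blkU_of_unitary hK h11 h12 h21 h22
  obtain ⟨δ, hδdef⟩ : ∃ δ : K, δ = frobQ hK (fromBlocks (0 : Matrix (Fin (N + 1)) (Fin (N + 1)) K)
      (ruB N γ⁻¹) ((ruB N γ).map (frobQ hK)) 0).det := ⟨_, rfl⟩
  rw [← hδdef] at hU
  have hδ : δ * frobQ hK δ = 1 := hU.hs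
  have hδ0 : δ ≠ 0 := by
    intro e
    rw [e, zero_mul] at hδ
    exact zero_ne_one hδ
  -- the conjugating element and its action
  obtain ⟨h, hh⟩ : ∃ h : ↥(suG hK (2 * (N + 1) + 1)), h = suBlk hK 0 (ruB N γ⁻¹)
      ((ruB N γ).map (frobQ hK)) 0 δ hU := ⟨_, rfl⟩
  have hact : ∀ (x y : Fin (N + 1) → K) (l : K), suAct h (bVec x y l) =
      bVec (ruB N γ⁻¹ *ᵥ y) ((ruB N γ).map (frobQ hK) *ᵥ x) (δ * l) := by
    intro x y l
    rw [hh, Cfsg.Agent.Helper13.suAct_suBlk]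
    simp only [Matrix.zero_mulVec, add_zero, zero_add]
  -- the two matrix identities
  have hI : ruB N γ⁻¹ * (((a⁻¹ : Matrix.SpecialLinearGroup (Fin (N + 1)) K).1).map (frobQ hK))ᵀ =
      (z * v).1 * ruB N γ⁻¹ := by
    rw [su5r_inv N a ha, su5h_ruUi_map, Cfsg.Agent.Helper13.ruB_i1 hN γ γ⁻¹ hγη,
      Matrix.SpecialLinearGroup.coe_mul, hz, hv, Matrix.mul_assoc]
  have hI' : ruB N γ⁻¹ * (ruUi N K)ᵀ = (z * v).1 * ruB N γ⁻¹ := by
    rw [← hI, su5r_inv N a ha, su5h_ruUi_map]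
  have hZ1 : ((z * v)⁻¹ : Matrix.SpecialLinearGroup (Fin (N + 1)) K).1ᵀ * (z * v).1ᵀ = 1 := by
    rw [← Matrix.transpose_mul]
    have := congrArg Subtype.val (mul_inv_cancel (z * v))
    rw [Matrix.SpecialLinearGroup.coe_mul] at this
    rw [this]
    exact Matrix.transpose_one
  have hII0 : (z * v).1ᵀ * ruB N γ = ruB N γ * ruUi N K := by
    have e1 := congrArg Matrix.transpose hI'
    rw [Matrix.transpose_mul, Matrix.transpose_transpose, Matrix.transpose_mul] at e1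
    -- e1 : ruUi * (ruB η)ᵀ = (ruB η)ᵀ * Zᵀ
    calc (z * v).1ᵀ * ruB N γ
        = (ruB N γ * (ruB N γ⁻¹)ᵀ) * ((z * v).1ᵀ * ruB N γ) := by rw [B3, Matrix.one_mul]
      _ = ruB N γ * ((ruB N γ⁻¹)ᵀ * (z * v).1ᵀ) * ruB N γ := by
          simp only [Matrix.mul_assoc]
      _ = ruB N γ * (ruUi N K * (ruB N γ⁻¹)ᵀ) * ruB N γ := by rw [e1]
      _ = ruB N γ * ruUi N K * ((ruB N γ⁻¹)ᵀ * ruB N γ) := by
          simp only [Matrix.mul_assoc]
      _ = ruB N γ * ruUi N K := by rw [B4, Matrix.mul_one]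
  have hII1 : ((z * v)⁻¹ : Matrix.SpecialLinearGroup (Fin (N + 1)) K).1ᵀ * ruB N γ =
      ruB N γ * ruU N K := by
    calc ((z * v)⁻¹ : Matrix.SpecialLinearGroup (Fin (N + 1)) K).1ᵀ * ruB N γ
        = ((z * v)⁻¹ : Matrix.SpecialLinearGroup (Fin (N + 1)) K).1ᵀ *
            (ruB N γ * (ruUi N K * ruU N K)) := by rw [su5h_ruUi_mul_ruU, Matrix.mul_one]
      _ = ((z * v)⁻¹ : Matrix.SpecialLinearGroup (Fin (N + 1)) K).1ᵀ *
            ((ruB N γ * ruUi N K) * ruU N K) := by rw [Matrix.mul_assoc]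
      _ = ((z * v)⁻¹ : Matrix.SpecialLinearGroup (Fin (N + 1)) K).1ᵀ *
            (((z * v).1ᵀ * ruB N γ) * ruU N K) := by rw [hII0]
      _ = (((z * v)⁻¹ : Matrix.SpecialLinearGroup (Fin (N + 1)) K).1ᵀ * (z * v).1ᵀ) *
            (ruB N γ * ruU N K) := by simp only [Matrix.mul_assoc]
      _ = ruB N γ * ruU N K := by rw [hZ1, Matrix.one_mul]
  have hII : (ruB N γ).map (frobQ hK) * a.1 =
      ((((z * v)⁻¹ : Matrix.SpecialLinearGroup (Fin (N + 1)) K).1).map (frobQ hK))ᵀ *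
        (ruB N γ).map (frobQ hK) := by
    have e := congrArg (fun M : Matrix (Fin (N + 1)) (Fin (N + 1)) K => M.map (frobQ hK)) hII1
    simp only [Matrix.map_mul, su5h_ruU_map] at e
    rw [ha, ← Matrix.transpose_map]
    exact e.symm
  -- `h` conjugates the Levi part
  have hLv : h * suLv hK (N + 1) a = suLv hK (N + 1) (z * v) * h := by
    apply Cfsg.Agent.Helper99.su_ext
    intro x
    obtain ⟨x', y', l, rfl⟩ := Cfsg.Agent.Helper13.bVec_surj x
    rw [Cfsg.Agent.Helper99.suAct_mul, Cfsg.Agent.Helper99.suAct_mul,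
      Cfsg.Agent.Helper13.suAct_suLv, hact, hact, Cfsg.Agent.Helper13.suAct_suLv,
      Matrix.mulVec_mulVec, Matrix.mulVec_mulVec, Matrix.mulVec_mulVec, Matrix.mulVec_mulVec,
      hI, hII]
  -- `h` conjugates the root element
  have hcol : (ruB N γ).map (frobQ hK) *ᵥ (Pi.single (rix N N) 1 : Fin (N + 1) → K) =
      Pi.single (rix N 1) 1 := by
    ext i
    have hi := i.2
    have eN : (rix N N).val = N := by rw [Cfsg.Agent.Helper13.rix_val]; omega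
    have e1 : (rix N 1).val = 1 := by rw [Cfsg.Agent.Helper13.rix_val]; omega
    rw [Cfsg.Agent.Helper99.su_col, Matrix.map_apply, Cfsg.Agent.Helper13.ruB_apply, eN,
      Pi.single_apply]
    by_cases hi1 : i.val = 1
    · have : i = rix N 1 := Fin.ext (by rw [e1]; exact hi1)
      rw [if_pos this, if_neg (by omega), if_pos (by omega), if_pos hi1, map_one]
    · have : i ≠ rix N 1 := fun e => hi1 (by rw [e, e1])
      rw [if_neg this]
      by_cases hi0 : i.val = 0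
      · rw [if_pos hi0, if_neg (by omega), map_zero]
      · rw [if_neg hi0, if_neg (by omega), map_zero]
  have hEl : h * suEl hK (bVec (Pi.single (rix N N) 1) 0 0) (bVec 0 0 a₀) c * h⁻¹ =
      suEl hK (bVec 0 (Pi.single (rix N 1) 1) 0) (bVec 0 0 (δ * a₀)) c := by
    rw [Cfsg.Agent.Helper99.suEl_conj hK p h (su5r_hE hK N a₀ c hc), hact, hact, hcol]
    simp only [Matrix.mulVec_zero, mul_zero]
  refine ⟨h, δ * a₀, mul_ne_zero hδ0 ha₀, ?_, ?_⟩
  · rw [map_mul]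
    linear_combination hc + (a₀ * frobQ hK a₀) * hδ
  · calc h * (suLv hK (N + 1) a * suEl hK (bVec (Pi.single (rix N N) 1) 0 0) (bVec 0 0 a₀) c) * h⁻¹
        = (h * suLv hK (N + 1) a) * suEl hK (bVec (Pi.single (rix N N) 1) 0 0) (bVec 0 0 a₀) c *
            h⁻¹ := by simp only [mul_assoc]
      _ = suLv hK (N + 1) (z * v) *
            (h * suEl hK (bVec (Pi.single (rix N N) 1) 0 0) (bVec 0 0 a₀) c * h⁻¹) := by
          rw [hLv]
          simp only [mul_assoc]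
      _ = _ := by rw [hEl]

end Cfsg.Agent.Helper91
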