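import Mathlib
import Cfsg.Agent.Helper50.HigDefs

set_option autoImplicit false

namespace Cfsg.Agent.Helper91.HigR0

open Cfsg.Agent.Helper5 Cfsg.Agent.Helper50.Hig

theorem nSL_coe {K : Type*} [Field K] [CharP K 2] (t : K) (ht : t ≠ 0) :
    ((nSL t : SL2 K) : Matrix (Fin 2) (Fin 2) K) = !![0, t; t⁻¹, 0] := by
  unfold nSL
  rw [Matrix.SpecialLinearGroup.coe_mul, Matrix.SpecialLinearGroup.coe_mul, uSL_coe, lSL_coe]
  have h2 : (1 : K) + 1 = 0 := CharTwo.add_self_eq_zero 1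
  ext i j
  fin_cases i <;> fin_cases j <;> simp [Matrix.mul_fin_two, ht, h2]

theorem hSL_coe {K : Type*} [Field K] [CharP K 2] (t : K) (ht : t ≠ 0) :
    ((hSL t : SL2 K) : Matrix (Fin 2) (Fin 2) K) = !![t, 0; 0, t⁻¹] := by
  unfold hSL
  rw [Matrix.SpecialLinearGroup.coe_mul, nSL_coe t ht, nSL_coe 1 one_ne_zero]
  ext i j
  fin_cases i <;> fin_cases j <;> simp [Matrix.mul_fin_two]

/-- PIECE R0 (S3050) -/
theorem sl2_rel {K : Type*} [Field K] [CharP K 2] :
    (∀ s t : K, lSL s * lSL t = lSL (s + t)) ∧ (∀ t : K, uSL t * uSL t = 1) ∧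
    (∀ t : K, lSL t * lSL t = 1) ∧ nSL (1 : K) * nSL 1 = 1 ∧
    (∀ s : K, lSL s = nSL 1 * uSL s * nSL 1) ∧
    (∀ t s : K, t ≠ 0 → hSL t * uSL s = uSL (t ^ 2 * s) * hSL t) ∧
    (∀ t s : K, t ≠ 0 → hSL t * lSL s = lSL ((t ^ 2)⁻¹ * s) * hSL t) ∧
    (∀ t s : K, t ≠ 0 → s ≠ 0 → hSL t * hSL s = hSL (t * s)) ∧ hSL (1 : K) = 1 := by
  have hll : ∀ s t : K, lSL s * lSL t = lSL (s + t) := by
    intro s t
    apply Subtype.ext
    rw [Matrix.SpecialLinearGroup.coe_mul, lSL_coe, lSL_coe, lSL_coe]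
    ext i j
    fin_cases i <;> fin_cases j <;> simp [Matrix.mul_fin_two, add_comm]
  have hl0 : lSL (0 : K) = 1 := by
    apply Subtype.ext
    rw [lSL_coe, Matrix.SpecialLinearGroup.coe_one]
    ext i j
    fin_cases i <;> fin_cases j <;> simp
  refine ⟨hll, ?_, ?_, ?_, ?_, ?_, ?_, ?_, ?_⟩
  · intro t
    rw [uSL_mul, CharTwo.add_self_eq_zero, uSL_zero]
  · intro t
    rw [hll, CharTwo.add_self_eq_zero, hl0]
  · apply Subtype.ext
    rw [Matrix.SpecialLinearGroup.coe_mul, nSL_coe 1 one_ne_zero,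
      Matrix.SpecialLinearGroup.coe_one]
    ext i j
    fin_cases i <;> fin_cases j <;> simp [Matrix.mul_fin_two]
  · intro s
    apply Subtype.ext
    rw [Matrix.SpecialLinearGroup.coe_mul, Matrix.SpecialLinearGroup.coe_mul,
      nSL_coe 1 one_ne_zero, lSL_coe, uSL_coe]
    ext i j
    fin_cases i <;> fin_cases j <;> simp [Matrix.mul_fin_two]
  · intro t s ht
    apply Subtype.ext
    rw [Matrix.SpecialLinearGroup.coe_mul, Matrix.SpecialLinearGroup.coe_mul,
      hSL_coe t ht, uSL_coe, uSL_coe]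
    ext i j
    fin_cases i <;> fin_cases j <;> simp [Matrix.mul_fin_two]
    field_simp
  · intro t s ht
    apply Subtype.ext
    rw [Matrix.SpecialLinearGroup.coe_mul, Matrix.SpecialLinearGroup.coe_mul,
      hSL_coe t ht, lSL_coe, lSL_coe]
    ext i j
    fin_cases i <;> fin_cases j <;> simp [Matrix.mul_fin_two]
    field_simp
  · intro t s ht hs
    apply Subtype.ext
    rw [Matrix.SpecialLinearGroup.coe_mul, hSL_coe t ht, hSL_coe s hs,
      hSL_coe (t * s) (mul_ne_zero ht hs)]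
    ext i j
    fin_cases i <;> fin_cases j <;> simp [Matrix.mul_fin_two, mul_comm]
  · apply Subtype.ext
    rw [hSL_coe 1 one_ne_zero, Matrix.SpecialLinearGroup.coe_one]
    ext i j
    fin_cases i <;> fin_cases j <;> simp

end Cfsg.Agent.Helper91.HigR0
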