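import Mathlib
import Cfsg.Agent.Helper50.HigDefs
import Cfsg.Agent.Helper91.HigR0

set_option autoImplicit false

namespace Cfsg.Agent.Helper91.HigREL2

open Cfsg.Agent.Helper5 Cfsg.Agent.Helper50.Hig

theorem m2_ent {E : Type*} {a b c d a' b' c' d' : E}
    (h : (!![a, b; c, d] : Matrix (Fin 2) (Fin 2) E) = !![a', b'; c', d']) :
    a = a' ∧ b = b' ∧ c = c' ∧ d = d' :=
  ⟨congrFun (congrFun h 0) 0, congrFun (congrFun h 0) 1, congrFun (congrFun h 1) 0,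
    congrFun (congrFun h 1) 1⟩

theorem m2_sub {E : Type*} [Ring E] (a b c d a' b' c' d' : E) :
    (!![a, b; c, d] : Matrix (Fin 2) (Fin 2) E) - !![a', b'; c', d'] =
      !![a - a', b - b'; c - c', d - d'] := by
  ext i j
  fin_cases i <;> fin_cases j <;> rfl

theorem m2_add {E : Type*} [Ring E] (a b c d a' b' c' d' : E) :
    (!![a, b; c, d] : Matrix (Fin 2) (Fin 2) E) + !![a', b'; c', d'] =
      !![a + a', b + b'; c + c', d + d'] := by
  ext i j
  fin_cases i <;> fin_cases j <;> rfl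

/-- PIECE REL2 (S3050) -/
theorem rel_of_matrix {K : Type*} [Field K] [Fintype K] [CharP K 2] {E : Type*} [Ring E]
    (h2 : ∀ r : E, r + r = 0) (Ψ : SL2 K →* Matrix (Fin 2) (Fin 2) E) (N Q : K → E)
    (hN1 : N 1 = 0) (hQ1 : Q 1 = 1) (hU : ∀ s, Ψ (uSL s) = Umat N Q s)
    (hL : ∀ s, Ψ (lSL s) = Lmat N Q s)
    (hfp : ∀ t : K, t ≠ 0 → Ψ (uSL t) * Ψ (lSL t⁻¹) + Ψ (lSL t⁻¹) * Ψ (uSL t) = 1) :
    CatHyp N Q := by
  obtain ⟨hll, huu, hlinv, hnn, hln, hhu, hhl, hhh, hh1⟩ :=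
    Cfsg.Agent.Helper91.HigR0.sl2_rel (K := K)
  have hneg : ∀ r : E, -r = r := fun r => neg_eq_of_add_eq_zero_left (h2 r)
  -- `N 0 = 0`, `Q 0 = 0`
  have hU0 : (!![1 + N 0, Q 0; 0, 1 + N 0] : Matrix (Fin 2) (Fin 2) E) = !![1, 0; 0, 1] := by
    have h := hU 0
    rw [uSL_zero, map_one, Matrix.one_fin_two] at h
    exact h.symm
  have hN0 : N 0 = 0 := by
    have h := (m2_ent hU0).1
    have h' : 1 + N 0 = 1 + 0 := by rw [add_zero]; exact h
    exact add_left_cancel h'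
  have hQ0 : Q 0 = 0 := (m2_ent hU0).2.1
  -- additivity
  have hUU : ∀ s t : K,
      (!![(1 + N s) * (1 + N t) + Q s * 0, (1 + N s) * Q t + Q s * (1 + N t);
          0 * (1 + N t) + (1 + N s) * 0, 0 * Q t + (1 + N s) * (1 + N t)] :
          Matrix (Fin 2) (Fin 2) E) =
        !![1 + N (s + t), Q (s + t); 0, 1 + N (s + t)] := by
    intro s t
    have h := hU (s + t)
    rw [← uSL_mul, map_mul, hU, hU] at h
    unfold Umat at h
    rw [Matrix.mul_fin_two] at h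
    exact h
  have hNadd : ∀ s t : K, N (s + t) = N s + N t + N s * N t := by
    intro s t
    have h := (m2_ent (hUU s t)).1
    have e : (1 + N s) * (1 + N t) + Q s * 0 = 1 + (N s + N t + N s * N t) := by noncomm_ring
    rw [e] at h
    exact (add_left_cancel h).symm
  have hQadd : ∀ s t : K, Q (s + t) = Q s + Q t + N s * Q t + Q s * N t := by
    intro s t
    have h := (m2_ent (hUU s t)).2.1
    rw [← h]
    noncomm_ring
  have hNN : ∀ s t : K, N s * N t = N t * N s := by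
    intro s t
    have h1 := hNadd s t
    have h2' := hNadd t s
    rw [add_comm t s, h1, add_comm (N t) (N s)] at h2'
    exact add_left_cancel h2'
  have hNsq : ∀ s : K, N s * N s = 0 := by
    intro s
    have h := hNadd s s
    rw [CharTwo.add_self_eq_zero, hN0, h2 (N s), zero_add] at h
    exact h.symm
  -- the relation `hfp`
  have hF : ∀ t : K, t ≠ 0 →
      (!![(1 + N t) * (1 + N t⁻¹) + Q t * Q t⁻¹ + ((1 + N t⁻¹) * (1 + N t) + 0 * 0),
          (1 + N t) * 0 + Q t * (1 + N t⁻¹) + ((1 + N t⁻¹) * Q t + 0 * (1 + N t));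
          0 * (1 + N t⁻¹) + (1 + N t) * Q t⁻¹ + (Q t⁻¹ * (1 + N t) + (1 + N t⁻¹) * 0),
          0 * 0 + (1 + N t) * (1 + N t⁻¹) + (Q t⁻¹ * Q t + (1 + N t⁻¹) * (1 + N t))] :
          Matrix (Fin 2) (Fin 2) E) = !![1, 0; 0, 1] := by
    intro t ht
    have h := hfp t ht
    rw [hU, hL, Matrix.one_fin_two] at h
    unfold Umat Lmat at h
    rw [Matrix.mul_fin_two, Matrix.mul_fin_two, m2_add] at h
    exact h
  have hQinv : ∀ t : K, t ≠ 0 → Q t * Q t⁻¹ = 1 := by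
    intro t ht
    have h := (m2_ent (hF t ht)).1
    have hY : (1 + N t⁻¹) * (1 + N t) = (1 + N t) * (1 + N t⁻¹) := by
      simp only [mul_add, add_mul, one_mul, mul_one, hNN t⁻¹ t]
      abel
    rw [hY] at h
    have e : (1 + N t) * (1 + N t⁻¹) + Q t * Q t⁻¹ + ((1 + N t) * (1 + N t⁻¹) + 0 * 0) =
        Q t * Q t⁻¹ + ((1 + N t) * (1 + N t⁻¹) + (1 + N t) * (1 + N t⁻¹)) := by
      rw [mul_zero]
      abel
    rw [e, h2, add_zero] at h
    exact h
  have hNQinv : ∀ t : K, t ≠ 0 → N t * Q t⁻¹ = Q t⁻¹ * N t := by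
    intro t ht
    have h := (m2_ent (hF t ht)).2.2.1
    have e : 0 * (1 + N t⁻¹) + (1 + N t) * Q t⁻¹ + (Q t⁻¹ * (1 + N t) + (1 + N t⁻¹) * 0) =
        (Q t⁻¹ + Q t⁻¹) + (N t * Q t⁻¹ + Q t⁻¹ * N t) := by noncomm_ring
    rw [e, h2, zero_add] at h
    rw [eq_neg_of_add_eq_zero_left h, hneg]
  -- the images of `nSL t` and `hSL t`
  have hn : ∀ t : K, t ≠ 0 →
      Ψ (nSL t) = !![N t + N t⁻¹, Q t; Q t⁻¹, N t + N t⁻¹] := by
    intro t ht
    have hUU1 : Ψ (uSL t) * Ψ (uSL t) = 1 := by rw [← map_mul, huu, map_one]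
    have key : Ψ (uSL t) * Ψ (lSL t⁻¹) * Ψ (uSL t) = Ψ (uSL t) - Ψ (lSL t⁻¹) := by
      calc Ψ (uSL t) * Ψ (lSL t⁻¹) * Ψ (uSL t)
          = (Ψ (uSL t) * Ψ (lSL t⁻¹) + Ψ (lSL t⁻¹) * Ψ (uSL t)) * Ψ (uSL t) -
              Ψ (lSL t⁻¹) * (Ψ (uSL t) * Ψ (uSL t)) := by noncomm_ring
        _ = Ψ (uSL t) - Ψ (lSL t⁻¹) := by rw [hfp t ht, hUU1, one_mul, mul_one]
    unfold nSL
    rw [map_mul, map_mul, key, hU, hL]
    unfold Umat Lmat
    rw [m2_sub]
    have e1 : 1 + N t - (1 + N t⁻¹) = N t + N t⁻¹ := by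
      have : 1 + N t - (1 + N t⁻¹) = N t + -N t⁻¹ := by abel
      rw [this, hneg]
    rw [e1, sub_zero, zero_sub, hneg]
  have hn1 : Ψ (nSL 1) = !![0, 1; 1, 0] := by
    rw [hn 1 one_ne_zero, inv_one, hN1, hQ1, add_zero]
  have hh : ∀ t : K, t ≠ 0 →
      Ψ (hSL t) = !![Q t, N t + N t⁻¹; N t + N t⁻¹, Q t⁻¹] := by
    intro t ht
    unfold hSL
    rw [map_mul, hn t ht, hn1, Matrix.mul_fin_two]
    simp only [mul_zero, mul_one, zero_add, add_zero]
  have hHU : ∀ t s : K, t ≠ 0 →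
      (!![Q t * (1 + N s) + (N t + N t⁻¹) * 0, Q t * Q s + (N t + N t⁻¹) * (1 + N s);
          (N t + N t⁻¹) * (1 + N s) + Q t⁻¹ * 0, (N t + N t⁻¹) * Q s + Q t⁻¹ * (1 + N s)] :
          Matrix (Fin 2) (Fin 2) E) =
        !![(1 + N (t ^ 2 * s)) * Q t + Q (t ^ 2 * s) * (N t + N t⁻¹),
           (1 + N (t ^ 2 * s)) * (N t + N t⁻¹) + Q (t ^ 2 * s) * Q t⁻¹;
           0 * Q t + (1 + N (t ^ 2 * s)) * (N t + N t⁻¹),
           0 * (N t + N t⁻¹) + (1 + N (t ^ 2 * s)) * Q t⁻¹] := by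
    intro t s ht
    have h := congrArg Ψ (hhu t s ht)
    rw [map_mul, map_mul, hh t ht, hU, hU] at h
    unfold Umat at h
    rw [Matrix.mul_fin_two, Matrix.mul_fin_two] at h
    exact h
  have hQN : ∀ t s : K, t ≠ 0 →
      Q t * N s = N (t ^ 2 * s) * Q t + Q (t ^ 2 * s) * (N t + N t⁻¹) := by
    intro t s ht
    have h := (m2_ent (hHU t s ht)).1
    have e1 : Q t * (1 + N s) + (N t + N t⁻¹) * 0 = Q t + Q t * N s := by noncomm_ring
    have e2 : (1 + N (t ^ 2 * s)) * Q t + Q (t ^ 2 * s) * (N t + N t⁻¹) =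
        Q t + (N (t ^ 2 * s) * Q t + Q (t ^ 2 * s) * (N t + N t⁻¹)) := by noncomm_ring
    rw [e1, e2] at h
    exact add_left_cancel h
  have hQQ : ∀ t s : K, t ≠ 0 → Q t * Q s = Q (t ^ 2 * s) * Q t⁻¹ := by
    intro t s ht
    have h12 := (m2_ent (hHU t s ht)).2.1
    have h21 := (m2_ent (hHU t s ht)).2.2.1
    rw [mul_zero, add_zero, zero_mul, zero_add] at h21
    rw [h21, add_comm] at h12
    exact add_left_cancel h12
  have hHH : ∀ t s : K, t ≠ 0 → s ≠ 0 →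
      (N t + N t⁻¹) * (N s + N s⁻¹) + Q t * Q s = Q (t * s) := by
    intro t s ht hs
    have h := congrArg Ψ (hhh t s ht hs)
    rw [map_mul, hh t ht, hh s hs, hh (t * s) (mul_ne_zero ht hs), Matrix.mul_fin_two] at h
    have h11 := (m2_ent h).1
    rw [add_comm]
    exact h11
  exact
    { N0 := hN0
      N1 := hN1
      Q0 := hQ0
      Q1 := hQ1
      NN := hNN
      Nsq := hNsq
      Nadd := hNadd
      Qadd := hQadd
      Qinv := hQinv
      NQinv := hNQinv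
      QQ := hQQ
      QN := hQN
      HH := hHH }

end Cfsg.Agent.Helper91.HigREL2
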