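import Mathlib
import Cfsg.Agent.Helper50.HigDefs
import Cfsg.Agent.Helper91.HigREL2

set_option autoImplicit false

namespace Cfsg.Agent.Helper91.HigNFCore

open Cfsg.Agent.Helper5 Cfsg.Agent.Helper50.Hig

/-- PIECE NF (S3050), with the statements of R1, AB, REL1, CAT (for the given `ρ`) as hypotheses. -/
theorem normal_form_core {K : Type*} [Field K] [Fintype K] [CharP K 2] {R : Type*} [Ring R]
    (h2 : ∀ r : R, r + r = 0) (ρ : SL2 K →* R)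
    (hR1 : ∀ t : K, t ≠ 0 → ρ (uSL t) * ρ (lSL t⁻¹) + ρ (lSL t⁻¹) * ρ (uSL t) + 1 = 0)
    (hAB : (ρ (uSL 1) + 1) * (ρ (uSL 1) + 1) = 0 ∧ (ρ (lSL 1) + 1) * (ρ (lSL 1) + 1) = 0 ∧
      (ρ (uSL 1) + 1) * (ρ (lSL 1) + 1) + (ρ (lSL 1) + 1) * (ρ (uSL 1) + 1) = 1)
    (hREL1 : ∃ (Φ : R →+* Matrix (Fin 2) (Fin 2)
          (Subring.centralizer ({ρ (uSL 1) + 1, ρ (lSL 1) + 1} : Set R)))
      (N Q : K → Subring.centralizer ({ρ (uSL 1) + 1, ρ (lSL 1) + 1} : Set R)),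
      Function.Injective Φ ∧ Φ (ρ (uSL 1) + 1) = !![0, 1; 0, 0] ∧
      Φ (ρ (lSL 1) + 1) = !![0, 0; 1, 0] ∧
      (∀ z : Subring.centralizer ({ρ (uSL 1) + 1, ρ (lSL 1) + 1} : Set R),
        Φ (z : R) = !![z, 0; 0, z]) ∧
      N 1 = 0 ∧ Q 1 = 1 ∧ (∀ s, Φ (ρ (uSL s)) = Umat N Q s) ∧ (∀ s, Φ (ρ (lSL s)) = Lmat N Q s))
    (hCAT : ∀ N Q : K → Subring.centralizer ({ρ (uSL 1) + 1, ρ (lSL 1) + 1} : Set R),
      CatHyp N Q →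
      (∀ s, N s = 0) ∧ (∀ s t, Q (s + t) = Q s + Q t) ∧ (∀ s t, Q (s * t) = Q s * Q t)) :
    (ρ (uSL 1) + 1) * (ρ (uSL 1) + 1) = 0 ∧ (ρ (lSL 1) + 1) * (ρ (lSL 1) + 1) = 0 ∧
    (ρ (uSL 1) + 1) * (ρ (lSL 1) + 1) + (ρ (lSL 1) + 1) * (ρ (uSL 1) + 1) = 1 ∧
    ∃ Qf : K → R, (∀ s, Qf s * (ρ (uSL 1) + 1) = (ρ (uSL 1) + 1) * Qf s) ∧
      (∀ s, Qf s * (ρ (lSL 1) + 1) = (ρ (lSL 1) + 1) * Qf s) ∧ Qf 1 = 1 ∧
      (∀ s t, Qf (s + t) = Qf s + Qf t) ∧ (∀ s t, Qf (s * t) = Qf s * Qf t) ∧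
      (∀ s, ρ (uSL s) = 1 + Qf s * (ρ (uSL 1) + 1)) ∧
      (∀ s, ρ (lSL s) = 1 + Qf s * (ρ (lSL 1) + 1)) := by
  refine ⟨hAB.1, hAB.2.1, hAB.2.2, ?_⟩
  obtain ⟨Φ, N, Q, hΦinj, hΦa, hΦb, hΦz, hN1, hQ1, hU, hL⟩ := hREL1
  have hneg : ∀ r : R, -r = r := fun r => neg_eq_of_add_eq_zero_left (h2 r)
  have hE2 : ∀ r : Subring.centralizer ({ρ (uSL 1) + 1, ρ (lSL 1) + 1} : Set R), r + r = 0 := by
    intro r
    apply Subtype.ext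
    exact h2 r.1
  have hfp : ∀ t : K, t ≠ 0 →
      (Φ.toMonoidHom.comp ρ) (uSL t) * (Φ.toMonoidHom.comp ρ) (lSL t⁻¹) +
        (Φ.toMonoidHom.comp ρ) (lSL t⁻¹) * (Φ.toMonoidHom.comp ρ) (uSL t) = 1 := by
    intro t ht
    have h := hR1 t ht
    have h' : ρ (uSL t) * ρ (lSL t⁻¹) + ρ (lSL t⁻¹) * ρ (uSL t) = 1 := by
      rw [eq_neg_of_add_eq_zero_left h, hneg]
    have h'' := congrArg Φ h'
    rw [map_add, map_mul, map_mul, map_one] at h''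
    exact h''
  have hcat := Cfsg.Agent.Helper91.HigREL2.rel_of_matrix hE2 (Φ.toMonoidHom.comp ρ) N Q hN1 hQ1
    (fun s => hU s) (fun s => hL s) hfp
  obtain ⟨hN0, hQadd, hQmul⟩ := hCAT N Q hcat
  refine ⟨fun s => ((Q s : Subring.centralizer ({ρ (uSL 1) + 1, ρ (lSL 1) + 1} : Set R)) : R),
    ?_, ?_, ?_, ?_, ?_, ?_, ?_⟩
  · intro s
    have h := (Subring.mem_centralizer_iff.1 (Q s).2) (ρ (uSL 1) + 1) (by simp)
    exact h.symm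
  · intro s
    have h := (Subring.mem_centralizer_iff.1 (Q s).2) (ρ (lSL 1) + 1) (by simp)
    exact h.symm
  · show ((Q 1 : Subring.centralizer ({ρ (uSL 1) + 1, ρ (lSL 1) + 1} : Set R)) : R) = 1
    rw [hQ1]
    rfl
  · intro s t
    show ((Q (s + t) : Subring.centralizer ({ρ (uSL 1) + 1, ρ (lSL 1) + 1} : Set R)) : R) = _
    rw [hQadd]
    rfl
  · intro s t
    show ((Q (s * t) : Subring.centralizer ({ρ (uSL 1) + 1, ρ (lSL 1) + 1} : Set R)) : R) = _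
    rw [hQmul]
    rfl
  · intro s
    apply hΦinj
    rw [hU, map_add, map_mul, map_one, hΦz, hΦa, Matrix.mul_fin_two, Matrix.one_fin_two]
    unfold Umat
    rw [hN0 s, Cfsg.Agent.Helper91.HigREL2.m2_add]
    simp only [mul_zero, mul_one, add_zero, zero_add]
  · intro s
    apply hΦinj
    rw [hL, map_add, map_mul, map_one, hΦz, hΦb, Matrix.mul_fin_two, Matrix.one_fin_two]
    unfold Lmat
    rw [hN0 s, Cfsg.Agent.Helper91.HigREL2.m2_add]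
    simp only [mul_zero, mul_one, add_zero, zero_add]

end Cfsg.Agent.Helper91.HigNFCore
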