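import Mathlib
import Cfsg.Agent.Helper50.HigDefs
import Cfsg.Agent.Helper91.HigNFCore
import Cfsg.Agent.Helper50.HigR1
import Cfsg.Agent.Helper50.HigAB
import Cfsg.Agent.Helper50.HigREL1
import Cfsg.Agent.Helper83.HigCAT

set_option autoImplicit false

namespace Cfsg.Agent.Helper91.HigNF

open Cfsg.Agent.Helper5 Cfsg.Agent.Helper50.Hig

/-- PIECE NF (S3050): the normal form -/
theorem normal_form {K : Type*} [Field K] [Fintype K] [CharP K 2] {R : Type*} [Ring R]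
    (h2 : ∀ r : R, r + r = 0) (ρ : SL2 K →* R)
    (hρ : ρ (cSL K) * ρ (cSL K) + ρ (cSL K) + 1 = 0) :
    (ρ (uSL 1) + 1) * (ρ (uSL 1) + 1) = 0 ∧ (ρ (lSL 1) + 1) * (ρ (lSL 1) + 1) = 0 ∧
    (ρ (uSL 1) + 1) * (ρ (lSL 1) + 1) + (ρ (lSL 1) + 1) * (ρ (uSL 1) + 1) = 1 ∧
    ∃ Qf : K → R, (∀ s, Qf s * (ρ (uSL 1) + 1) = (ρ (uSL 1) + 1) * Qf s) ∧
      (∀ s, Qf s * (ρ (lSL 1) + 1) = (ρ (lSL 1) + 1) * Qf s) ∧ Qf 1 = 1 ∧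
      (∀ s t, Qf (s + t) = Qf s + Qf t) ∧ (∀ s t, Qf (s * t) = Qf s * Qf t) ∧
      (∀ s, ρ (uSL s) = 1 + Qf s * (ρ (uSL 1) + 1)) ∧
      (∀ s, ρ (lSL s) = 1 + Qf s * (ρ (lSL 1) + 1)) :=
  Cfsg.Agent.Helper91.HigNFCore.normal_form_core h2 ρ
    (fun t ht => Cfsg.Agent.Helper50.HigR1.fpf_family ρ hρ t ht)
    (Cfsg.Agent.Helper50.HigAB.ab_rel h2 ρ hρ)
    (Cfsg.Agent.Helper50.HigREL1.exists_NQ h2 ρ hρ)
    (fun N Q h => Cfsg.Agent.Helper83.HigCAT.cat (fun r => Subtype.ext (h2 r.1)) N Q h)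

end Cfsg.Agent.Helper91.HigNF
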