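import Mathlib

set_option autoImplicit false

namespace Cfsg.Agent.Helper91.JorC0

open Equiv

/-- PIECE C0 (S3620). -/
theorem three_cycle_formula {α : Type*} [DecidableEq α] (S : Finset α) (h g : Perm α)
    (hfix : ∀ x, x ∉ S → h x = x) (a b c : α) (ha : a ∈ S) (hab : h a = b) (hne : a ≠ b)
    (hg : ∀ x ∈ S, x ≠ b → g x = x) (hgb : g b = c) (hc : c ∉ S) :
    h⁻¹ * (g * h * g⁻¹) = swap b c * swap a b := by
  -- `h` maps `S` into `S`
  have hS : ∀ x, x ∈ S → h x ∈ S := by
    intro x hx
    by_contra hcon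
    have h1 : h (h x) = h x := hfix _ hcon
    have h2 : h x = x := h.injective h1
    rw [h2] at hcon
    exact hcon hx
  have hb : b ∈ S := hab ▸ hS a ha
  have hac : a ≠ c := fun e => hc (e ▸ ha)
  have hbc : b ≠ c := fun e => hc (e ▸ hb)
  have hginvc : g⁻¹ c = b := by
    rw [Perm.inv_eq_iff_eq]; exact hgb.symm
  have hginvS : ∀ x, x ∈ S → x ≠ b → g⁻¹ x = x := by
    intro x hx hxb
    rw [Perm.inv_eq_iff_eq]; exact (hg x hx hxb).symm
  have hginvN : ∀ x, x ∉ S → x ≠ c → g⁻¹ x ∉ S := by
    intro x hx hxc hcon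
    by_cases hy : g⁻¹ x = b
    · apply hxc
      have : g (g⁻¹ x) = c := by rw [hy]; exact hgb
      simpa using this
    · have : g (g⁻¹ x) = g⁻¹ x := hg _ hcon hy
      have hx' : x = g⁻¹ x := by simpa using this
      rw [← hx'] at hcon
      exact hx hcon
  have hginvb : g⁻¹ b ∉ S := by
    intro hcon
    by_cases hy : g⁻¹ b = b
    · have : g (g⁻¹ b) = c := by rw [hy]; exact hgb
      have : b = c := by simpa using this
      exact hbc this
    · have : g (g⁻¹ b) = g⁻¹ b := hg _ hcon hy
      have hx' : b = g⁻¹ b := by simpa using this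
      exact hy hx'.symm
  ext x
  simp only [Perm.coe_mul, Function.comp_apply]
  rw [Perm.inv_eq_iff_eq]
  by_cases hxa : x = a
  · subst hxa
    rw [swap_apply_left, swap_apply_left, hginvS x ha hne, hab, hgb, hfix c hc]
  by_cases hxb : x = b
  · subst hxb
    rw [swap_apply_right, swap_apply_of_ne_of_ne hne hac, hab, hfix _ hginvb]
    simp
  by_cases hxc : x = c
  · subst hxc
    rw [swap_apply_of_ne_of_ne (Ne.symm hac) (Ne.symm hbc), swap_apply_right, hginvc]
    have h1 : h b ∈ S := hS b hb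
    have h2 : h b ≠ b := by
      intro e
      rw [← hab] at e
      have := h.injective e
      exact hne (hab ▸ this.symm ▸ rfl)
    exact hg _ h1 h2
  by_cases hxS : x ∈ S
  · rw [swap_apply_of_ne_of_ne hxa hxb, swap_apply_of_ne_of_ne hxb hxc, hginvS x hxS hxb]
    have h1 : h x ∈ S := hS x hxS
    have h2 : h x ≠ b := by
      intro e
      rw [← hab] at e
      exact hxa (h.injective e)
    exact hg _ h1 h2
  · rw [swap_apply_of_ne_of_ne hxa hxb, swap_apply_of_ne_of_ne hxb hxc,
      hfix _ (hginvN x hxS hxc), hfix x hxS]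
    simp

end Cfsg.Agent.Helper91.JorC0
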