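import Mathlib
import Cfsg.Agent.Helper32.JorDefs

/-!
Piece A of CALL S3620 (helper32), core form: `exists_max_jordan` with the statements of the pieces S1
(`step1`), S3 (`step3`) and NB (`no_jordan_in_block`) as explicit hypotheses (for the given `G` and `T`).
-/

set_option autoImplicit false
set_option linter.unusedSectionVars false
set_option linter.unusedVariables false

namespace Cfsg.Agent.Helper91.JorACore

open Equiv Cfsg.Agent.Helper32.Jor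

variable {Ω : Type*} [Fintype Ω] [DecidableEq Ω]

/-- PIECE A, core form (the hypothesis `hno3` of the skeleton is not needed) -/
theorem exists_max_jordan_core (G : Subgroup (Perm Ω)) (T : Finset Ω) (h2 : Rel2 G T)
    (hS1 : ∀ (α : Ω), α ∉ T → ∀ (M : Finset Ω), IsJ G M → Disjoint M T → α ∉ M → 2 ≤ M.card →
      (∀ J' : Finset Ω, IsJ G J' → M ⊆ J' → Disjoint J' T → α ∉ J' →
        J' = M ∨ J' = (insert α T)ᶜ) → Fintype.card Ω ≤ 2 * M.card + T.card)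
    (hS3 : ∀ (α : Ω), α ∉ T → ∀ (M : Finset Ω), IsJ G M → Disjoint M T → α ∉ M →
      (∀ J' : Finset Ω, IsJ G J' → M ⊆ J' → Disjoint J' T → α ∉ J' →
        J' = M ∨ J' = (insert α T)ᶜ) → Fintype.card Ω ≤ 2 * M.card + T.card →
      ∀ g : Perm Ω, g ∈ G → (∀ x ∈ T, g x = x) → g α = α →
        mv g (M ∪ insert α T)ᶜ = (M ∪ insert α T)ᶜ ∨
          Disjoint (mv g (M ∪ insert α T)ᶜ) (M ∪ insert α T)ᶜ)
    (hNB : ∀ (α : Ω), α ∉ T → ∀ (R : Finset Ω), Disjoint R T → α ∉ R →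
      (∀ g ∈ G, (∀ x ∈ T, g x = x) → g α = α → mv g R = R ∨ Disjoint (mv g R) R) →
      2 * R.card + T.card + 1 ≤ Fintype.card Ω →
      ∀ J' : Finset Ω, IsJ G J' → J' ⊆ R → 2 ≤ J'.card → False)
    (J0 : Finset Ω) (hJ0 : IsJ G J0) (hJ0T : Disjoint J0 T) (hJ02 : 2 ≤ J0.card)
    (hJ0n : J0.card + T.card + 2 ≤ Fintype.card Ω)
    (α β : Ω) (hαT : α ∉ T) (hβT : β ∉ T) (hαβ : α ≠ β) :
    ∃ U : Finset Ω, IsJ G U ∧ 2 ≤ U.card ∧ Disjoint U (insert α (insert β T)) ∧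
      ∀ J' : Finset Ω, IsJ G J' → 2 ≤ J'.card → Disjoint J' (insert α (insert β T)) → J' ⊆ U := by
  classical
  obtain ⟨α₁, hα₁⟩ : ∃ α₁, α₁ ∉ T ∪ J0 := by
    by_contra hno
    have hall : ∀ x, x ∈ T ∪ J0 := fun x => by_contra fun hx => hno ⟨x, hx⟩
    have h1 : (Finset.univ : Finset Ω).card ≤ (T ∪ J0).card :=
      Finset.card_le_card (fun x _ => hall x)
    have h2' := Finset.card_union_le T J0
    rw [Finset.card_univ] at h1
    omega
  have hα₁T : α₁ ∉ T := fun h => hα₁ (Finset.mem_union_left _ h)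
  have hα₁J0 : α₁ ∉ J0 := fun h => hα₁ (Finset.mem_union_right _ h)
  have hcardc : ((insert α₁ T)ᶜ : Finset Ω).card = Fintype.card Ω - (T.card + 1) := by
    rw [Finset.card_compl, Finset.card_insert_of_notMem hα₁T]
  obtain ⟨𝓕, h𝓕⟩ : ∃ 𝓕 : Finset (Finset Ω), 𝓕 = Finset.univ.filter
      (fun M => IsJ G M ∧ J0 ⊆ M ∧ Disjoint M T ∧ α₁ ∉ M ∧ M ≠ (insert α₁ T)ᶜ) := ⟨_, rfl⟩
  have hmem𝓕 : ∀ M, M ∈ 𝓕 ↔ IsJ G M ∧ J0 ⊆ M ∧ Disjoint M T ∧ α₁ ∉ M ∧ M ≠ (insert α₁ T)ᶜ := by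
    intro M
    rw [h𝓕, Finset.mem_filter]
    exact ⟨fun h => h.2, fun h => ⟨Finset.mem_univ _, h⟩⟩
  have hJ0F : J0 ∈ 𝓕 := by
    refine (hmem𝓕 J0).mpr ⟨hJ0, subset_rfl, hJ0T, hα₁J0, ?_⟩
    intro h
    have h1 := congrArg Finset.card h
    rw [hcardc] at h1
    omega
  obtain ⟨M₁, hM₁F, hM₁max⟩ := Finset.exists_max_image 𝓕 Finset.card ⟨J0, hJ0F⟩
  obtain ⟨hM₁J, hJ0M₁, hM₁T, hα₁M₁, hM₁ne⟩ := (hmem𝓕 M₁).mp hM₁F
  have hM₁2 : 2 ≤ M₁.card := le_trans hJ02 (Finset.card_le_card hJ0M₁)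
  have hmax : ∀ J' : Finset Ω, IsJ G J' → M₁ ⊆ J' → Disjoint J' T → α₁ ∉ J' →
      J' = M₁ ∨ J' = (insert α₁ T)ᶜ := by
    intro J' hJ' hsub hdis hα
    by_cases hne : J' = (insert α₁ T)ᶜ
    · exact Or.inr hne
    · left
      have hJ'F : J' ∈ 𝓕 := (hmem𝓕 J').mpr ⟨hJ', hJ0M₁.trans hsub, hdis, hα, hne⟩
      exact (Finset.eq_of_subset_of_card_le hsub (hM₁max J' hJ'F)).symm
  have hbig := hS1 α₁ hα₁T M₁ hM₁J hM₁T hα₁M₁ hM₁2 hmax
  have hdisj : Disjoint M₁ (insert α₁ T) := by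
    rw [Finset.disjoint_insert_right]
    exact ⟨hα₁M₁, hM₁T⟩
  obtain ⟨R₁, hR₁⟩ : ∃ R₁ : Finset Ω, R₁ = (M₁ ∪ insert α₁ T)ᶜ := ⟨_, rfl⟩
  have hmemR : ∀ x, x ∈ R₁ ↔ x ∉ M₁ ∧ x ≠ α₁ ∧ x ∉ T := by
    intro x
    rw [hR₁, Finset.mem_compl, Finset.mem_union, Finset.mem_insert]
    constructor
    · intro h
      exact ⟨fun h' => h (Or.inl h'), fun h' => h (Or.inr (Or.inl h')), fun h' => h (Or.inr (Or.inr h'))⟩
    · rintro ⟨h1, h2', h3⟩ (h | h | h)
      · exact h1 h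
      · exact h2' h
      · exact h3 h
  have hcardR : R₁.card + (M₁.card + (T.card + 1)) = Fintype.card Ω := by
    have h1 : (M₁ ∪ insert α₁ T).card = M₁.card + (T.card + 1) := by
      rw [Finset.card_union_of_disjoint hdisj, Finset.card_insert_of_notMem hα₁T]
    have h3 : (M₁ ∪ insert α₁ T).card ≤ Fintype.card Ω := Finset.card_le_univ _
    rw [hR₁, Finset.card_compl, h1]
    omega
  obtain ⟨ρ, hρ⟩ : ∃ ρ, ρ ∈ R₁ := by
    by_contra hno
    apply hM₁ne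
    ext x
    rw [Finset.mem_compl, Finset.mem_insert]
    constructor
    · rintro hx (hx' | hx')
      · exact hα₁M₁ (hx' ▸ hx)
      · exact Finset.disjoint_left.mp hM₁T hx hx'
    · intro hx
      by_contra hxM
      exact hno ⟨x, (hmemR x).mpr ⟨hxM, fun h => hx (Or.inl h), fun h => hx (Or.inr h)⟩⟩
  obtain ⟨hρM, hρα, hρT⟩ := (hmemR ρ).mp hρ
  obtain ⟨k, hk, hkT, hkα, hkρ⟩ := h2 α₁ ρ α β hα₁T hρT hαT hβT (Ne.symm hρα) hαβ
  have hkinv : k⁻¹ ∈ G := G.inv_mem hk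
  have hmvT : mv k T = T := mv_eq_self_of_fix hkT
  have himg : mv k (insert α₁ (insert ρ T)) = insert α (insert β T) := by
    rw [mv_insert, mv_insert, hmvT, hkα, hkρ]
  have hM₁dis : Disjoint M₁ (insert α₁ (insert ρ T)) := by
    rw [Finset.disjoint_insert_right, Finset.disjoint_insert_right]
    exact ⟨hα₁M₁, hρM, hM₁T⟩
  refine ⟨mv k M₁, hM₁J.mv hk, by rw [card_mv]; exact hM₁2, ?_, ?_⟩
  · rw [← himg]
    exact disjoint_mv.mpr hM₁dis
  · intro J' hJ' hJ'2 hJ'dis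
    have hJ'' : IsJ G (mv k⁻¹ J') := hJ'.mv hkinv
    have hpull : Disjoint (mv k⁻¹ J') (insert α₁ (insert ρ T)) := by
      have h1 : mv k⁻¹ (insert α (insert β T)) = insert α₁ (insert ρ T) := by
        rw [← himg, mv_inv_mv]
      rw [← h1]
      exact disjoint_mv.mpr hJ'dis
    rw [Finset.disjoint_insert_right, Finset.disjoint_insert_right] at hpull
    obtain ⟨hpα, hpρ, hpT⟩ := hpull
    by_cases hmeet : Disjoint J' (mv k M₁)
    · exfalso
      have hd : Disjoint (mv k⁻¹ J') M₁ := by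
        have h1 := (disjoint_mv (g := k⁻¹)).mpr hmeet
        rwa [mv_inv_mv] at h1
      have hsubR : mv k⁻¹ J' ⊆ R₁ := by
        intro x hx
        refine (hmemR x).mpr ⟨fun h => Finset.disjoint_left.mp hd hx h, fun h => hpα (h ▸ hx),
          fun h => Finset.disjoint_left.mp hpT hx h⟩
      have hRT : Disjoint R₁ T := Finset.disjoint_left.mpr (fun x hx => ((hmemR x).mp hx).2.2)
      have hαR : α₁ ∉ R₁ := fun h => ((hmemR α₁).mp h).2.1 rfl
      have hblk : ∀ g ∈ G, (∀ x ∈ T, g x = x) → g α₁ = α₁ → mv g R₁ = R₁ ∨ Disjoint (mv g R₁) R₁ := by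
        intro g hg hgT hgα
        rw [hR₁]
        exact hS3 α₁ hα₁T M₁ hM₁J hM₁T hα₁M₁ hmax hbig g hg hgT hgα
      have hR : 2 * R₁.card + T.card + 1 ≤ Fintype.card Ω := by omega
      exact hNB α₁ hα₁T R₁ hRT hαR hblk hR (mv k⁻¹ J') hJ'' hsubR (by rw [card_mv]; exact hJ'2)
    · have hun : IsJ G (J' ∪ mv k M₁) := hJ'.union (hM₁J.mv hk) hmeet
      have hun' : IsJ G (mv k⁻¹ (J' ∪ mv k M₁)) := hun.mv hkinv
      rw [mv_union, mv_inv_mv] at hun'
      have h1 := hmax (mv k⁻¹ J' ∪ M₁) hun' Finset.subset_union_right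
        (by rw [Finset.disjoint_union_left]; exact ⟨hpT, hM₁T⟩)
        (by rw [Finset.mem_union]; exact fun h => h.elim hpα hα₁M₁)
      rcases h1 with h1 | h1
      · have hsub : mv k⁻¹ J' ⊆ M₁ := by
          rw [← h1]
          exact Finset.subset_union_left
        have h3 := (mv_subset_mv (g := k)).mpr hsub
        rwa [mv_mv_inv] at h3
      · exfalso
        have hρin : ρ ∈ (insert α₁ T)ᶜ := by
          rw [Finset.mem_compl, Finset.mem_insert]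
          exact fun h => h.elim hρα hρT
        rw [← h1, Finset.mem_union] at hρin
        exact hρin.elim hpρ hρM

end Cfsg.Agent.Helper91.JorACore
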