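import Mathlib
import Cfsg.Agent.Helper32.JorDefs
import Cfsg.Agent.Helper91.JorACore
import Cfsg.Agent.Helper81.JorS1
import Cfsg.Agent.Helper29.JorS3
import Cfsg.Agent.Helper4.JorNB

set_option autoImplicit false
set_option linter.unusedSectionVars false
set_option linter.unusedVariables false

namespace Cfsg.Agent.Helper91.JorA

open Equiv Cfsg.Agent.Helper32.Jor

variable {Ω : Type*} [Fintype Ω] [DecidableEq Ω]

/-- PIECE A (S3620). -/
theorem exists_max_jordan (G : Subgroup (Perm Ω)) (T : Finset Ω) (h2 : Rel2 G T)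
    (hno3 : ∀ a b : Ω, a ∉ T → b ∉ T → a ≠ b → ¬ JC G (insert a (insert b T)))
    (J0 : Finset Ω) (hJ0 : IsJ G J0) (hJ0T : Disjoint J0 T) (hJ02 : 2 ≤ J0.card)
    (hJ0n : J0.card + T.card + 2 ≤ Fintype.card Ω)
    (α β : Ω) (hαT : α ∉ T) (hβT : β ∉ T) (hαβ : α ≠ β) :
    ∃ U : Finset Ω, IsJ G U ∧ 2 ≤ U.card ∧ Disjoint U (insert α (insert β T)) ∧
      ∀ J' : Finset Ω, IsJ G J' → 2 ≤ J'.card → Disjoint J' (insert α (insert β T)) → J' ⊆ U :=
  Cfsg.Agent.Helper91.JorACore.exists_max_jordan_core G T h2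
    (fun α hα M hM hMT hαM hM2 hmax =>
      Cfsg.Agent.Helper81.JorS1.step1 G T h2 α hα M hM hMT hαM hM2 hmax)
    (fun α hα M hM hMT hαM hmax hbig g hg hgT hgα =>
      Cfsg.Agent.Helper29.JorS3.step3 G T α hα M hM hMT hαM hmax hbig g hg hgT hgα)
    (fun α hα R hRT hαR hblk hR J' hJ' hJ'R hJ'2 =>
      Cfsg.Agent.Helper4.JorNB.no_jordan_in_block G T h2 α hα R hRT hαR hblk hR J' hJ' hJ'R hJ'2)
    J0 hJ0 hJ0T hJ02 hJ0n α β hαT hβT hαβ

end Cfsg.Agent.Helper91.JorA
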