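import Cfsg.Agent.Helper40.DZDefs
import Cfsg.Prelude.Def_Solvable

set_option autoImplicit false

/-!
Piece X1 of CALL S4538 (helper40): elementary facts on the root elements `x_j(c)`.
-/

namespace Cfsg.Agent.Helper91.DZ

open Cfsg.Agent.Helper40.DZ Cfsg.Agent.Helper44.PSLn Matrix

universe u

section Mat

variable {n : ℕ} {F : Type u} [Field F]

local notation "SLn" => Matrix.SpecialLinearGroup (Fin n) F

/-- X1a -/
theorem xel_add (j : ℕ) (hj : j + 1 < n) (c d : F) :
    xel j hj (c + d) = xel j hj c * xel j hj d := by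
  apply Subtype.ext
  unfold xel
  rw [Matrix.SpecialLinearGroup.coe_mul]
  change Matrix.transvection _ _ _ = Matrix.transvection _ _ _ * Matrix.transvection _ _ _
  rw [Matrix.transvection_mul_transvection_same _ _ (ia_ne_ib j hj)]

/-- X1b -/
theorem xel_zero (j : ℕ) (hj : j + 1 < n) : xel j hj (0 : F) = 1 := by
  apply Subtype.ext
  unfold xel
  change Matrix.transvection _ _ _ = 1
  rw [Matrix.transvection_zero]

/-- X1c -/
theorem xel_apply (j : ℕ) (hj : j + 1 < n) (c : F) :
    ((xel j hj c : SLn) : Matrix (Fin n) (Fin n) F) (ia j hj) (ib j hj) = c := by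
  unfold xel
  rw [Matrix.SpecialLinearGroup.transvection_coe, Matrix.add_apply, Matrix.one_apply_ne (ia_ne_ib j hj),
    Matrix.single_apply_same, zero_add]

variable [Fintype F]

/-- X1d -/
theorem xel_mem_UniS (j : ℕ) (hj : j + 1 < n) (c : F) : xel j hj c ∈ UniS n F := by
  have hlt : ia j hj < ib j hj := by
    rw [Fin.lt_def]
    change j < j + 1
    omega
  exact transvection_mem_UniS hlt c

end Mat

end Cfsg.Agent.Helper91.DZ
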