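import Cfsg.Agent.Helper40.DZDefs
import Cfsg.Prelude.Def_Solvable
import Cfsg.Agent.Helper91.DZD1
import Cfsg.Agent.Helper91.DZC1
import Cfsg.Agent.Helper91.DZX1

set_option autoImplicit false

/-!
Piece C2 of CALL S4538 (helper40): `x_j(c)` and `ṡ_j` normalize `uRad`.
-/

namespace Cfsg.Agent.Helper91.DZ

open Cfsg.Agent.Helper40.DZ Cfsg.Agent.Helper44.PSLn Matrix

universe u

section Mat

variable {n : ℕ} {F : Type u} [Field F]

local notation "SLn" => Matrix.SpecialLinearGroup (Fin n) F

/-- the inverse of `x_j(c)` -/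
theorem xel_inv (j : ℕ) (hj : j + 1 < n) (c : F) : (xel j hj c : SLn)⁻¹ = xel j hj (-c) :=
  inv_eq_of_mul_eq_one_right (by rw [← xel_add, add_neg_cancel, xel_zero])

/-- left multiplication by `ṡ_j` -/
theorem sdot_mul_apply (j : ℕ) (hj : j + 1 < n) (M : Matrix (Fin n) (Fin n) F) (i k : Fin n) :
    (((sdot j hj : SLn) : Matrix (Fin n) (Fin n) F) * M) i k =
      if i = ia j hj then M (ib j hj) k else if i = ib j hj then - M (ia j hj) k else M i k := by
  have hne : ia j hj ≠ ib j hj := ia_ne_ib j hj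
  have hne' : ib j hj ≠ ia j hj := hne.symm
  rw [sdot_coe_eq]
  simp only [sub_mul, add_mul, one_mul, Matrix.sub_apply, Matrix.add_apply, dzc1_single_mul]
  by_cases h1 : i = ia j hj
  · subst h1
    simp [hne]
  · by_cases h2 : i = ib j hj
    · subst h2
      simp [hne']
    · simp [h1, h2]

/-- right multiplication by `ṡ_j⁻¹` -/
theorem mul_sdot_inv_apply (j : ℕ) (hj : j + 1 < n) (M : Matrix (Fin n) (Fin n) F) (i k : Fin n) :
    (M * (((sdot j hj : SLn)⁻¹ : SLn) : Matrix (Fin n) (Fin n) F)) i k =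
      if k = ia j hj then M i (ib j hj) else if k = ib j hj then - M i (ia j hj) else M i k := by
  have hne : ia j hj ≠ ib j hj := ia_ne_ib j hj
  have hne' : ib j hj ≠ ia j hj := hne.symm
  rw [sdot_inv_coe_eq]
  simp only [mul_sub, mul_add, mul_one, Matrix.sub_apply, Matrix.add_apply, dzc1_mul_single]
  by_cases h1 : k = ia j hj
  · subst h1
    simp [hne]
  · by_cases h2 : k = ib j hj
    · subst h2
      simp [hne']
    · simp [h1, h2]

/-- the entries of `ṡ_j g ṡ_j⁻¹` -/
theorem sdot_conj_apply' (j : ℕ) (hj : j + 1 < n) (g : SLn) (i k : Fin n) :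
    ((sdot j hj * g * (sdot j hj : SLn)⁻¹ : SLn) : Matrix (Fin n) (Fin n) F) i k =
      if i = ia j hj then
        (if k = ia j hj then (g : Matrix (Fin n) (Fin n) F) (ib j hj) (ib j hj)
          else if k = ib j hj then - (g : Matrix (Fin n) (Fin n) F) (ib j hj) (ia j hj)
          else (g : Matrix (Fin n) (Fin n) F) (ib j hj) k)
      else if i = ib j hj then
        - (if k = ia j hj then (g : Matrix (Fin n) (Fin n) F) (ia j hj) (ib j hj)
          else if k = ib j hj then - (g : Matrix (Fin n) (Fin n) F) (ia j hj) (ia j hj)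
          else (g : Matrix (Fin n) (Fin n) F) (ia j hj) k)
      else
        (if k = ia j hj then (g : Matrix (Fin n) (Fin n) F) i (ib j hj)
          else if k = ib j hj then - (g : Matrix (Fin n) (Fin n) F) i (ia j hj)
          else (g : Matrix (Fin n) (Fin n) F) i k) := by
  rw [mul_assoc, Matrix.SpecialLinearGroup.coe_mul, Matrix.SpecialLinearGroup.coe_mul,
    sdot_mul_apply]
  simp only [mul_sdot_inv_apply]

variable [Fintype F]

/-- C2a: `x_j(c)` normalizes `uRad`. -/
theorem uRad_conj_xel (j : ℕ) (hj : j + 1 < n) (c : F) :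
    ∀ u ∈ uRad n F j hj, xel j hj c * u * (xel j hj c)⁻¹ ∈ uRad n F j hj := by
  intro u hu
  have hva : (ia j hj).val = j := rfl
  have hvb : (ib j hj).val = j + 1 := rfl
  rw [mem_uRad_iff] at hu ⊢
  obtain ⟨hU, h0⟩ := hu
  refine ⟨(UniS n F).mul_mem ((UniS n F).mul_mem (xel_mem_UniS j hj c) hU)
    ((UniS n F).inv_mem (xel_mem_UniS j hj c)), ?_⟩
  rw [mem_UniS] at hU
  have hba : (u : Matrix (Fin n) (Fin n) F) (ib j hj) (ia j hj) = 0 :=
    hU.1 _ _ (by rw [Fin.lt_def, hva, hvb]; omega)
  rw [xel_inv, Matrix.SpecialLinearGroup.coe_mul, Matrix.SpecialLinearGroup.coe_mul]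
  unfold xel
  rw [Matrix.SpecialLinearGroup.transvection_coe, Matrix.SpecialLinearGroup.transvection_coe]
  simp only [add_mul, mul_add, one_mul, mul_one, Matrix.add_apply]
  rw [Matrix.single_mul_apply_same, Matrix.mul_single_apply_same, Matrix.single_mul_mul_single,
    Matrix.single_apply_same, h0, hba, hU.2, hU.2]
  ring

/-- C2b: `ṡ_j` normalizes `uRad`. -/
theorem uRad_conj_sdot (j : ℕ) (hj : j + 1 < n) :
    ∀ u ∈ uRad n F j hj, sdot j hj * u * (sdot j hj)⁻¹ ∈ uRad n F j hj := by
  intro g hg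
  have hne : ia j hj ≠ ib j hj := ia_ne_ib j hj
  have hne' : ib j hj ≠ ia j hj := hne.symm
  have hva : (ia j hj).val = j := rfl
  have hvb : (ib j hj).val = j + 1 := rfl
  rw [mem_uRad_iff] at hg ⊢
  obtain ⟨hU, h0⟩ := hg
  rw [mem_UniS] at hU ⊢
  obtain ⟨hlow, hdiag⟩ := hU
  have hba : (g : Matrix (Fin n) (Fin n) F) (ib j hj) (ia j hj) = 0 :=
    hlow _ _ (by rw [Fin.lt_def, hva, hvb]; omega)
  refine ⟨⟨?_, ?_⟩, ?_⟩
  · intro i k hki
    rw [Fin.lt_def] at hki
    rw [sdot_conj_apply']
    by_cases hi1 : i = ia j hj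
    · subst hi1
      have hk1 : k ≠ ia j hj := fun h => by rw [h] at hki; omega
      have hk2 : k ≠ ib j hj := fun h => by rw [h, hva, hvb] at hki; omega
      rw [if_pos rfl, if_neg hk1, if_neg hk2]
      exact hlow _ _ (by rw [Fin.lt_def, hvb]; rw [hva] at hki; omega)
    · by_cases hi2 : i = ib j hj
      · subst hi2
        rw [if_neg hne', if_pos rfl, neg_eq_zero]
        by_cases hk1 : k = ia j hj
        · rw [if_pos hk1, h0]
        · have hk2 : k ≠ ib j hj := fun h => by rw [h] at hki; omega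
          rw [if_neg hk1, if_neg hk2]
          have hk1' : k.val ≠ j := fun h => hk1 (Fin.ext h)
          exact hlow _ _ (by rw [Fin.lt_def, hva]; rw [hvb] at hki; omega)
      · rw [if_neg hi1, if_neg hi2]
        have hi1' : i.val ≠ j := fun h => hi1 (Fin.ext h)
        have hi2' : i.val ≠ j + 1 := fun h => hi2 (Fin.ext h)
        by_cases hk1 : k = ia j hj
        · rw [if_pos hk1]
          rw [hk1, hva] at hki
          exact hlow _ _ (by rw [Fin.lt_def, hvb]; omega)
        · by_cases hk2 : k = ib j hj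
          · rw [if_neg hk1, if_pos hk2, neg_eq_zero]
            rw [hk2, hvb] at hki
            exact hlow _ _ (by rw [Fin.lt_def, hva]; omega)
          · rw [if_neg hk1, if_neg hk2]
            exact hlow _ _ (by rw [Fin.lt_def]; exact hki)
  · intro i
    rw [sdot_conj_apply']
    by_cases hi1 : i = ia j hj
    · subst hi1
      rw [if_pos rfl, if_pos rfl]
      exact hdiag _
    · by_cases hi2 : i = ib j hj
      · subst hi2
        rw [if_neg hne', if_pos rfl, if_neg hne', if_pos rfl, neg_neg]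
        exact hdiag _
      · rw [if_neg hi1, if_neg hi2, if_neg hi1, if_neg hi2]
        exact hdiag _
  · rw [sdot_conj_apply', if_pos rfl, if_neg hne', if_pos rfl, hba, neg_zero]

end Mat

end Cfsg.Agent.Helper91.DZ
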