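import Cfsg.Agent.Helper40.DZDefs
import Cfsg.Prelude.Def_Solvable
import Cfsg.Agent.Helper91.DZD1
import Cfsg.Agent.Helper91.DZC1
import Cfsg.Agent.Helper91.DZX1
import Cfsg.Agent.Helper91.DZC2

set_option autoImplicit false

/-!
Piece D2 of CALL S4538 (helper40): `h_j(c)` is diagonal, `h_j(1) = 1`, `h_j(c)` lies in the
Borel subgroup.
-/

namespace Cfsg.Agent.Helper91.DZ

open Cfsg.Agent.Helper40.DZ Cfsg.Agent.Helper44.PSLn Matrix

universe u

section Mat

variable {n : ℕ} {F : Type u} [Field F]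

local notation "SLn" => Matrix.SpecialLinearGroup (Fin n) F

/-- the matrix of `x_j(c) y_j(d) x_j(c)` as a combination of matrix units -/
theorem xyx_coe_eq (j : ℕ) (hj : j + 1 < n) (c d : F) :
    ((xel j hj c * yel j hj d * xel j hj c : SLn) : Matrix (Fin n) (Fin n) F) =
      1 + Matrix.single (ia j hj) (ib j hj) (2 * c + c * d * c) + Matrix.single (ib j hj) (ia j hj) d
        + Matrix.single (ia j hj) (ia j hj) (c * d) + Matrix.single (ib j hj) (ib j hj) (d * c) := by
  have hne : ia j hj ≠ ib j hj := ia_ne_ib j hj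
  have hne' : ib j hj ≠ ia j hj := hne.symm
  unfold xel yel
  rw [Matrix.SpecialLinearGroup.coe_mul, Matrix.SpecialLinearGroup.coe_mul,
    Matrix.SpecialLinearGroup.transvection_coe, Matrix.SpecialLinearGroup.transvection_coe]
  have hAA : Matrix.single (ia j hj) (ib j hj) c * Matrix.single (ia j hj) (ib j hj) c = 0 :=
    Matrix.single_mul_single_of_ne _ _ _ _ hne' _
  have hAB : Matrix.single (ia j hj) (ib j hj) c * Matrix.single (ib j hj) (ia j hj) d =
      Matrix.single (ia j hj) (ia j hj) (c * d) := by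
    rw [Matrix.single_mul_single_same]
  have hBA : Matrix.single (ib j hj) (ia j hj) d * Matrix.single (ia j hj) (ib j hj) c =
      Matrix.single (ib j hj) (ib j hj) (d * c) := by
    rw [Matrix.single_mul_single_same]
  have hEA : Matrix.single (ia j hj) (ia j hj) (c * d) * Matrix.single (ia j hj) (ib j hj) c =
      Matrix.single (ia j hj) (ib j hj) (c * d * c) := by
    rw [Matrix.single_mul_single_same]
  have h2 : Matrix.single (ia j hj) (ib j hj) (2 * c + c * d * c) =
      Matrix.single (ia j hj) (ib j hj) c + Matrix.single (ia j hj) (ib j hj) c +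
        Matrix.single (ia j hj) (ib j hj) (c * d * c) := by
    rw [← Matrix.single_add, ← Matrix.single_add, two_mul]
  rw [h2]
  obtain ⟨A, hA⟩ : ∃ A : Matrix (Fin n) (Fin n) F, A = Matrix.single (ia j hj) (ib j hj) c :=
    ⟨_, rfl⟩
  obtain ⟨B, hB⟩ : ∃ B : Matrix (Fin n) (Fin n) F, B = Matrix.single (ib j hj) (ia j hj) d :=
    ⟨_, rfl⟩
  rw [← hA, ← hB] at hAB hBA ⊢
  rw [← hA] at hAA hEA
  have e : (1 + A) * (1 + B) * (1 + A) = 1 + A + B + A * B + A + A * A + B * A + A * B * A := by
    noncomm_ring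
  rw [e, hAA, hAB, hBA, hEA]
  abel

/-- D2a: `h_j(c)` is diagonal. -/
theorem hel_coe (j : ℕ) (hj : j + 1 < n) (c : F) (hc : c ≠ 0) :
    ((hel j hj c : SLn) : Matrix (Fin n) (Fin n) F) =
      Matrix.diagonal (fun a => if a = ia j hj then c else if a = ib j hj then c⁻¹ else 1) := by
  have hne : ia j hj ≠ ib j hj := ia_ne_ib j hj
  have hne' : ib j hj ≠ ia j hj := hne.symm
  have e1 : 2 * c + c * (-c⁻¹) * c = c := by
    field_simp
    ring
  have e2 : c * (-c⁻¹) = -1 := by
    field_simp
  have e3 : (-c⁻¹) * c = -1 := by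
    field_simp
  unfold hel
  rw [Matrix.SpecialLinearGroup.coe_mul, xyx_coe_eq, e1, e2, e3]
  ext i k
  rw [mul_sdot_inv_apply]
  simp only [Matrix.add_apply, Matrix.one_apply, Matrix.single_apply, Matrix.diagonal_apply]
  by_cases hi1 : i = ia j hj
  · subst hi1
    by_cases hk1 : k = ia j hj
    · subst hk1
      simp [hne, hne']
    · by_cases hk2 : k = ib j hj
      · subst hk2
        simp [hne, hne']
      · simp [hne, hne', hk1, hk2, Ne.symm hk1, Ne.symm hk2]
  · by_cases hi2 : i = ib j hj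
    · subst hi2
      by_cases hk1 : k = ia j hj
      · subst hk1
        simp [hne, hne']
      · by_cases hk2 : k = ib j hj
        · subst hk2
          simp [hne, hne']
        · simp [hne, hne', hk1, hk2, Ne.symm hk1, Ne.symm hk2]
    · by_cases hk1 : k = ia j hj
      · subst hk1
        simp [hne, hne', hi1, hi2, Ne.symm hi1, Ne.symm hi2]
      · by_cases hk2 : k = ib j hj
        · subst hk2
          simp [hne, hne', hi1, hi2, Ne.symm hi1, Ne.symm hi2]
        · simp [hne, hne', hk1, hk2, Ne.symm hk1, Ne.symm hk2, hi1, hi2, Ne.symm hi1, Ne.symm hi2]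

/-- D2b -/
theorem hel_one (j : ℕ) (hj : j + 1 < n) : hel j hj (1 : F) = 1 := by
  unfold hel
  rw [inv_one]
  exact mul_inv_cancel (sdot j hj)

/-- D2c -/
theorem hel_mem_borel (j : ℕ) (hj : j + 1 < n) (c : F) (hc : c ≠ 0) :
    hel j hj c ∈ borelSL n F := by
  unfold borelSL
  rw [Subgroup.mem_comap]
  change ((Matrix.SpecialLinearGroup.toGL (hel j hj c) : GL (Fin n) F) :
    Matrix (Fin n) (Fin n) F).BlockTriangular id
  rw [Matrix.SpecialLinearGroup.coe_GL_coe_matrix, hel_coe j hj c hc]
  exact Matrix.blockTriangular_diagonal _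

end Mat

end Cfsg.Agent.Helper91.DZ
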