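import Mathlib
import Cfsg.Agent.Helper40.KGLDefs
import Cfsg.Agent.Helper40.KSLDefs

set_option autoImplicit false

namespace Cfsg.Agent.Helper91

open Polynomial Cfsg.Agent.Helper40.KGL Cfsg.Agent.Helper40.KSL
open scoped DirectSum
open Classical

universe u v

/-- PIECE B1 (S2479) -/
theorem sl_fiber_le {F : Type u} [Field F] [Fintype F] {n : ℕ} (hn : 1 ≤ n)
    (g : Matrix.SpecialLinearGroup (Fin n) F) (D : Subgroup Fˣ)
    (hD : ∀ d ∈ D, ∃ c : GL (Fin n) F,
      c * Matrix.SpecialLinearGroup.toGL g = Matrix.SpecialLinearGroup.toGL g * c ∧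
      Matrix.GeneralLinearGroup.det c = d) :
    Nat.card {c : ConjClasses (Matrix.SpecialLinearGroup (Fin n) F) //
      ConjClasses.map Matrix.SpecialLinearGroup.toGL c =
        ConjClasses.mk (Matrix.SpecialLinearGroup.toGL g)} ≤ D.index := by
  -- representatives
  have hrep : ∀ c : {c : ConjClasses (Matrix.SpecialLinearGroup (Fin n) F) //
      ConjClasses.map Matrix.SpecialLinearGroup.toGL c =
        ConjClasses.mk (Matrix.SpecialLinearGroup.toGL g)},
      ∃ (s : Matrix.SpecialLinearGroup (Fin n) F) (x : GL (Fin n) F),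
        c.1 = ConjClasses.mk s ∧
        x * Matrix.SpecialLinearGroup.toGL g * x⁻¹ = Matrix.SpecialLinearGroup.toGL s := by
    rintro ⟨c, hc⟩
    obtain ⟨s, rfl⟩ := ConjClasses.mk_surjective c
    have h1 : ConjClasses.mk (Matrix.SpecialLinearGroup.toGL s) =
        ConjClasses.mk (Matrix.SpecialLinearGroup.toGL g) := hc
    have h2 : IsConj (Matrix.SpecialLinearGroup.toGL g) (Matrix.SpecialLinearGroup.toGL s) :=
      (ConjClasses.mk_eq_mk_iff_isConj.1 h1).symm
    obtain ⟨x, hx⟩ := isConj_iff.1 h2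
    exact ⟨s, x, rfl, hx⟩
  choose s x hs hx using hrep
  have hinj : Function.Injective (fun c : {c : ConjClasses (Matrix.SpecialLinearGroup (Fin n) F) //
      ConjClasses.map Matrix.SpecialLinearGroup.toGL c =
        ConjClasses.mk (Matrix.SpecialLinearGroup.toGL g)} =>
      (QuotientGroup.mk (Matrix.GeneralLinearGroup.det (x c)) : Fˣ ⧸ D)) := by
    intro c₁ c₂ h
    have h1 : (Matrix.GeneralLinearGroup.det (x c₁))⁻¹ * Matrix.GeneralLinearGroup.det (x c₂) ∈ D :=
      QuotientGroup.eq.1 h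
    obtain ⟨c, hc, hdet⟩ := hD _ h1
    -- the conjugating element of determinant one
    have hcg : c⁻¹ * Matrix.SpecialLinearGroup.toGL g * c = Matrix.SpecialLinearGroup.toGL g := by
      rw [mul_assoc, ← hc, ← mul_assoc, inv_mul_cancel, one_mul]
    have ht : x c₂ * c⁻¹ * (x c₁)⁻¹ * Matrix.SpecialLinearGroup.toGL (s c₁) *
        (x c₂ * c⁻¹ * (x c₁)⁻¹)⁻¹ = Matrix.SpecialLinearGroup.toGL (s c₂) := by
      rw [← hx c₁, ← hx c₂]
      calc x c₂ * c⁻¹ * (x c₁)⁻¹ * (x c₁ * Matrix.SpecialLinearGroup.toGL g * (x c₁)⁻¹) *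
            (x c₂ * c⁻¹ * (x c₁)⁻¹)⁻¹
          = x c₂ * (c⁻¹ * Matrix.SpecialLinearGroup.toGL g * c) * (x c₂)⁻¹ := by group
        _ = x c₂ * Matrix.SpecialLinearGroup.toGL g * (x c₂)⁻¹ := by rw [hcg]
    have hdet1 : Matrix.GeneralLinearGroup.det (x c₂ * c⁻¹ * (x c₁)⁻¹) = 1 := by
      rw [map_mul, map_mul, map_inv, map_inv, hdet]
      rw [mul_inv_rev, inv_inv]
      have : ∀ a b : Fˣ, b * (b⁻¹ * a) * a⁻¹ = 1 := by
        intro a b
        group
      exact this _ _
    have hdet2 : ((x c₂ * c⁻¹ * (x c₁)⁻¹ : GL (Fin n) F) : Matrix (Fin n) (Fin n) F).det = 1 := by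
      have := congrArg (fun u : Fˣ => (u : F)) hdet1
      simpa using this
    obtain ⟨t, ht'⟩ : ∃ t : Matrix.SpecialLinearGroup (Fin n) F,
        Matrix.SpecialLinearGroup.toGL t = x c₂ * c⁻¹ * (x c₁)⁻¹ :=
      ⟨⟨_, hdet2⟩, Units.ext rfl⟩
    have hconj : t * s c₁ * t⁻¹ = s c₂ := by
      apply Matrix.SpecialLinearGroup.toGL_injective
      rw [map_mul, map_mul, map_inv, ht']
      exact ht
    apply Subtype.ext
    rw [hs c₁, hs c₂]
    exact ConjClasses.mk_eq_mk_iff_isConj.2 (isConj_iff.2 ⟨t, hconj⟩)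
  have hle := Nat.card_le_card_of_injective _ hinj
  exact hle

end Cfsg.Agent.Helper91
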