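import Mathlib
import Cfsg.Agent.Helper40.KGLDefs
import Cfsg.Agent.Helper40.KSLDefs

set_option autoImplicit false

namespace Cfsg.Agent.Helper91

open Polynomial Cfsg.Agent.Helper40.KGL Cfsg.Agent.Helper40.KSL
open scoped DirectSum
open Classical

universe u v

theorem scl_natDegree {F : Type u} [Field F] (l : F) (g : F[X]) :
    (scl l g).natDegree = g.natDegree := by
  unfold scl
  split_ifs with h
  · rfl
  · exact natDegree_add_C

theorem scl_monic {F : Type u} [Field F] (l : F) (g : F[X]) (hg : g.Monic) :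
    (scl l g).Monic := by
  unfold scl
  split_ifs with h
  · exact hg
  · apply hg.add_of_left
    have h1 : 0 < g.natDegree := Nat.pos_of_ne_zero h
    have h2 : 0 < g.degree := natDegree_pos_iff_degree_pos.1 h1
    exact lt_of_le_of_lt degree_C_le h2

theorem scl_coeff_zero {F : Type u} [Field F] (l : F) (g : F[X]) (hg : g.natDegree ≠ 0) :
    (scl l g).coeff 0 = l * g.coeff 0 := by
  unfold scl
  rw [if_neg hg, coeff_add, coeff_C_zero]
  ring

theorem scl_of_natDegree_eq_zero {F : Type u} [Field F] (l : F) (g : F[X])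
    (hg : g.natDegree = 0) : scl l g = g := by
  unfold scl
  rw [if_pos hg]

theorem scl_eq_one_iff {F : Type u} [Field F] (l : F) (g : F[X]) (hg : g.Monic) :
    scl l g = 1 ↔ g = 1 := by
  by_cases h : g.natDegree = 0
  · rw [scl_of_natDegree_eq_zero l g h]
  · constructor
    · intro e
      exfalso
      apply h
      rw [← scl_natDegree l g, e, natDegree_one]
    · intro e
      exfalso
      apply h
      rw [e, natDegree_one]

theorem nu_scl {F : Type u} [Field F] (l : F) (g : F[X]) (hg : g.Monic) :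
    nu (scl l g) = (if g = 1 then 1 else l) * nu g := by
  by_cases h : g.natDegree = 0
  · have h1 : g = 1 := (Polynomial.Monic.natDegree_eq_zero hg).1 h
    rw [scl_of_natDegree_eq_zero l g h, if_pos h1, one_mul]
  · have h1 : g ≠ 1 := by
      intro e
      apply h
      rw [e, natDegree_one]
    unfold nu
    rw [scl_natDegree, scl_coeff_zero l g h, if_neg h1]
    ring

theorem scl_inv_scl {F : Type u} [Field F] (l : F) (hl : l ≠ 0) (g : F[X]) :
    scl l⁻¹ (scl l g) = g := by
  by_cases h : g.natDegree = 0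
  · rw [scl_of_natDegree_eq_zero l g h, scl_of_natDegree_eq_zero l⁻¹ g h]
  · have h' : (scl l g).natDegree ≠ 0 := by rw [scl_natDegree]; exact h
    have e1 : scl l⁻¹ (scl l g) = scl l g + C ((l⁻¹ - 1) * (scl l g).coeff 0) := by
      show (if (scl l g).natDegree = 0 then scl l g
        else scl l g + C ((l⁻¹ - 1) * (scl l g).coeff 0)) = _
      rw [if_neg h']
    rw [e1, scl_coeff_zero l g h]
    unfold scl
    rw [if_neg h, add_assoc, ← C_add]
    have : (l - 1) * g.coeff 0 + (l⁻¹ - 1) * (l * g.coeff 0) = 0 := by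
      field_simp
      ring
    rw [this, C_0, add_zero]

/-- PIECE B11a (S2479) -/
theorem act_props {F : Type u} [Field F] (q n : ℕ) (l : Fin n → Fˣ) (G : Fin n → F[X])
    (hG : IsSeq n n G) :
    IsSeq n n (act l G) ∧ gamSeq q (act l G) = gamSeq q G ∧
      detSeq (act l G) = detSeq G *
        ∏ j : Fin n, (if G j = 1 then 1 else ((l j : Fˣ) : F) ^ (j.val + 1)) ∧
      act l⁻¹ (act l G) = G := by
  obtain ⟨hG1, hG2⟩ := hG
  refine ⟨⟨?_, ?_⟩, ?_, ?_, ?_⟩
  · intro j
    refine ⟨scl_monic _ _ (hG1 j).1, ?_⟩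
    show (scl (l j : F) (G j)).coeff 0 ≠ 0
    by_cases h : (G j).natDegree = 0
    · rw [scl_of_natDegree_eq_zero _ _ h]
      exact (hG1 j).2
    · rw [scl_coeff_zero _ _ h]
      exact mul_ne_zero (l j).ne_zero (hG1 j).2
  · refine Eq.trans ?_ hG2
    apply Finset.sum_congr rfl
    intro j _
    show (j.val + 1) * (scl (l j : F) (G j)).natDegree = _
    rw [scl_natDegree]
  · have hpred : (fun j : Fin n => act l G j ≠ 1) = (fun j : Fin n => G j ≠ 1) := by
      funext j
      apply propext
      show scl (l j : F) (G j) ≠ 1 ↔ G j ≠ 1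
      rw [Ne, Ne, scl_eq_one_iff _ _ (hG1 j).1]
    unfold gamSeq
    simp only [hpred]
  · unfold detSeq
    rw [← Finset.prod_mul_distrib]
    apply Finset.prod_congr rfl
    intro j _
    show nu (scl (l j : F) (G j)) ^ (j.val + 1) = _
    rw [nu_scl _ _ (hG1 j).1, mul_pow, mul_comm]
    congr 1
    split_ifs
    · rw [one_pow]
    · rfl
  · funext j
    show scl ((l⁻¹ j : Fˣ) : F) (scl (l j : F) (G j)) = G j
    rw [Pi.inv_apply, Units.val_inv_eq_inv_val]
    exact scl_inv_scl _ (l j).ne_zero _

end Cfsg.Agent.Helper91
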