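import Mathlib
import Cfsg.Agent.Helper40.KGLDefs
import Cfsg.Agent.Helper40.KSLDefs

set_option autoImplicit false

namespace Cfsg.Agent.Helper91

open Polynomial Cfsg.Agent.Helper40.KGL Cfsg.Agent.Helper40.KSL
open scoped DirectSum
open Classical

universe u v

/-- PIECE B11b (S2479) with the statement of B2 as a hypothesis. -/
theorem card_fiber_le_core {F : Type u} [Field F] [Fintype F]
    (hB2 : ∀ (s : Multiset ℕ) (D : Subgroup Fˣ), (∀ e ∈ s, ∀ z : Fˣ, z ^ e ∈ D) →
      D.index ≤ Nat.gcd (Fintype.card F - 1) s.gcd)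
    (n : ℕ) (S : Finset (Fin n))
    (hS : S.Nonempty) (δ : Fˣ) :
    (Fintype.card F - 1) *
        (Finset.univ.filter fun l : Fin n → Fˣ => ∏ j ∈ S, l j ^ (j.val + 1) = δ).card ≤
      (Fintype.card F - 1) ^ n * Nat.gcd (Fintype.card F - 1) (S.gcd fun j => j.val + 1) := by
  let φ : (Fin n → Fˣ) →* Fˣ :=
    { toFun := fun l => ∏ j ∈ S, l j ^ (j.val + 1)
      map_one' := by simp
      map_mul' := fun a b => by simp [mul_pow, Finset.prod_mul_distrib] }
  have hφ : ∀ l, φ l = ∏ j ∈ S, l j ^ (j.val + 1) := fun l => rfl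
  have hidx : φ.range.index ≤ Nat.gcd (Fintype.card F - 1) (S.gcd fun j => j.val + 1) := by
    have h := hB2 (S.1.map fun j => j.val + 1) φ.range (by
      intro e he z
      obtain ⟨j, hj, rfl⟩ := Multiset.mem_map.1 he
      refine ⟨Pi.mulSingle j z, ?_⟩
      rw [hφ, Finset.prod_eq_single j]
      · rw [Pi.mulSingle_eq_same]
      · intro b _ hb
        rw [Pi.mulSingle_eq_of_ne hb, one_pow]
      · intro h
        exact absurd hj h)
    exact h
  have hT : Nat.card (Fin n → Fˣ) = (Fintype.card F - 1) ^ n := by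
    rw [Nat.card_eq_fintype_card, Fintype.card_fun, Fintype.card_units, Fintype.card_fin]
  have hU : Nat.card Fˣ = Fintype.card F - 1 := by
    rw [Nat.card_eq_fintype_card, Fintype.card_units]
  have h1 : Nat.card φ.ker * Nat.card φ.range = (Fintype.card F - 1) ^ n := by
    rw [← hT, ← Subgroup.card_mul_index φ.ker, Subgroup.index_ker]
  have h2 : φ.range.index * Nat.card φ.range = Fintype.card F - 1 := by
    rw [← hU, mul_comm, Subgroup.card_mul_index]
  have h3 : (Finset.univ.filter fun l : Fin n → Fˣ => ∏ j ∈ S, l j ^ (j.val + 1) = δ).card ≤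
      Nat.card φ.ker := by
    by_cases hne : (Finset.univ.filter fun l : Fin n → Fˣ =>
        ∏ j ∈ S, l j ^ (j.val + 1) = δ).Nonempty
    · obtain ⟨l₀, hl₀⟩ := hne
      rw [Finset.mem_filter] at hl₀
      have hle : Nat.card {l : Fin n → Fˣ // ∏ j ∈ S, l j ^ (j.val + 1) = δ} ≤ Nat.card φ.ker := by
        apply Nat.card_le_card_of_injective
          (fun l : {l : Fin n → Fˣ // ∏ j ∈ S, l j ^ (j.val + 1) = δ} =>
            (⟨l₀⁻¹ * l.1, by
              rw [MonoidHom.mem_ker, map_mul, map_inv, hφ, hφ, hl₀.2, l.2, inv_mul_cancel]⟩ :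
              φ.ker))
        intro a b hab
        have h := congrArg Subtype.val hab
        exact Subtype.ext (mul_left_cancel h)
      rw [Nat.card_eq_fintype_card, Fintype.card_subtype] at hle
      exact hle
    · rw [Finset.not_nonempty_iff_eq_empty.1 hne, Finset.card_empty]
      exact Nat.zero_le _
  calc (Fintype.card F - 1) *
        (Finset.univ.filter fun l : Fin n → Fˣ => ∏ j ∈ S, l j ^ (j.val + 1) = δ).card
      ≤ (Fintype.card F - 1) * Nat.card φ.ker := Nat.mul_le_mul_left _ h3
    _ = φ.range.index * Nat.card φ.range * Nat.card φ.ker := by rw [h2]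
    _ ≤ Nat.gcd (Fintype.card F - 1) (S.gcd fun j => j.val + 1) * Nat.card φ.range *
          Nat.card φ.ker :=
        Nat.mul_le_mul_right _ (Nat.mul_le_mul_right _ hidx)
    _ = (Fintype.card F - 1) ^ n * Nat.gcd (Fintype.card F - 1) (S.gcd fun j => j.val + 1) := by
        rw [← h1]
        ring

end Cfsg.Agent.Helper91
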