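import Mathlib
import Cfsg.Agent.Helper40.KGLDefs
import Cfsg.Agent.Helper40.KSLDefs
import Cfsg.Agent.Helper91.KSLB11bCore
import Cfsg.Agent.Helper92.KSLB2

set_option autoImplicit false

namespace Cfsg.Agent.Helper91

open Polynomial Cfsg.Agent.Helper40.KGL Cfsg.Agent.Helper40.KSL
open scoped DirectSum
open Classical

universe u v

/-- PIECE B11b (S2479) -/
theorem card_fiber_le {F : Type u} [Field F] [Fintype F] (n : ℕ) (S : Finset (Fin n))
    (hS : S.Nonempty) (δ : Fˣ) :
    (Fintype.card F - 1) *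
        (Finset.univ.filter fun l : Fin n → Fˣ => ∏ j ∈ S, l j ^ (j.val + 1) = δ).card ≤
      (Fintype.card F - 1) ^ n * Nat.gcd (Fintype.card F - 1) (S.gcd fun j => j.val + 1) :=
  card_fiber_le_core (fun s D h => Cfsg.Agent.Helper92.index_le_gcd s D h) n S hS δ

end Cfsg.Agent.Helper91
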