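import Mathlib
import Cfsg.Agent.Helper50.HigDefs

set_option autoImplicit false

namespace Cfsg.Agent.Helper91.HigZKCore

open Cfsg.Agent.Helper5 Cfsg.Agent.Helper50.Hig

universe u

/-- the two-sided ideal `{r | c * r = 0}` for a central element `c`. -/
def annIdeal {R : Type u} [Ring R] (c : R) (hc : ∀ r : R, c * r = r * c) : Ideal R where
  carrier := {r | c * r = 0}
  add_mem' := by
    intro a b ha hb
    show c * (a + b) = 0
    rw [mul_add, show c * a = 0 from ha, show c * b = 0 from hb, add_zero]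
  zero_mem' := mul_zero c
  smul_mem' := by
    intro x a ha
    show c * (x * a) = 0
    rw [← mul_assoc, hc x, mul_assoc, show c * a = 0 from ha, mul_zero]

theorem mem_annIdeal {R : Type u} [Ring R] (c : R) (hc : ∀ r : R, c * r = r * c) (r : R) :
    r ∈ annIdeal c hc ↔ c * r = 0 := Iff.rfl

instance annIdeal_twoSided {R : Type u} [Ring R] (c : R) (hc : ∀ r : R, c * r = r * c) :
    (annIdeal c hc).IsTwoSided :=
  ⟨fun {a} b ha => by
    show c * (a * b) = 0
    rw [← mul_assoc, show c * a = 0 from ha, zero_mul]⟩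

/-- PIECE ZK (S3050), with the statement of ZK4 (for rings in the universe of `R`) as a
hypothesis. -/
theorem two_eq_zero_core {K : Type*} [Field K] [Fintype K] [CharP K 2]
    (hK : 2 < Fintype.card K) {R : Type u} [Ring R]
    (hZK4 : ∀ (R' : Type u) [Ring R'], (4 : R') = 0 → ∀ ρ' : SL2 K →* R',
      ρ' (cSL K) * ρ' (cSL K) + ρ' (cSL K) + 1 = 0 → (2 : R') = 0)
    (k : ℕ) (hk : (2 : R) ^ k = 0)
    (ρ : SL2 K →* R) (hρ : ρ (cSL K) * ρ (cSL K) + ρ (cSL K) + 1 = 0) : (2 : R) = 0 := by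
  induction k with
  | zero =>
    rw [pow_zero] at hk
    calc (2 : R) = 2 * 1 := (mul_one _).symm
      _ = 0 := by rw [hk, mul_zero]
  | succ k ih =>
    rcases Nat.eq_zero_or_pos k with hk0 | hkpos
    · subst hk0
      rw [zero_add, pow_one] at hk
      exact hk
    · obtain ⟨j, rfl⟩ : ∃ j, k = j + 1 := ⟨k - 1, by omega⟩
      apply ih
      have hc : ∀ r : R, (2 : R) ^ j * r = r * (2 : R) ^ j := by
        intro r
        have h := Nat.cast_commute (2 ^ j) r
        have e : ((2 ^ j : ℕ) : R) = (2 : R) ^ j := by push_cast; rfl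
        rw [e] at h
        exact h.eq
      have h4 : (4 : R ⧸ annIdeal ((2 : R) ^ j) hc) = 0 := by
        have e : (4 : R ⧸ annIdeal ((2 : R) ^ j) hc) =
            Ideal.Quotient.mk (annIdeal ((2 : R) ^ j) hc) (4 : R) :=
          (map_ofNat (Ideal.Quotient.mk (annIdeal ((2 : R) ^ j) hc)) 4).symm
        rw [e, Ideal.Quotient.eq_zero_iff_mem, mem_annIdeal]
        have e4 : (4 : R) = 2 * 2 := by norm_num
        rw [e4, ← mul_assoc, ← pow_succ, ← pow_succ]
        exact hk
      have hρ' : ((Ideal.Quotient.mk (annIdeal ((2 : R) ^ j) hc)).toMonoidHom.comp ρ) (cSL K) *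
          ((Ideal.Quotient.mk (annIdeal ((2 : R) ^ j) hc)).toMonoidHom.comp ρ) (cSL K) +
          ((Ideal.Quotient.mk (annIdeal ((2 : R) ^ j) hc)).toMonoidHom.comp ρ) (cSL K) + 1 = 0 := by
        have h := congrArg (Ideal.Quotient.mk (annIdeal ((2 : R) ^ j) hc)) hρ
        rw [map_add, map_add, map_mul, map_one, map_zero] at h
        exact h
      have h2 := hZK4 (R ⧸ annIdeal ((2 : R) ^ j) hc) h4 _ hρ'
      have e2 : (2 : R ⧸ annIdeal ((2 : R) ^ j) hc) =
          Ideal.Quotient.mk (annIdeal ((2 : R) ^ j) hc) (2 : R) :=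
        (map_ofNat (Ideal.Quotient.mk (annIdeal ((2 : R) ^ j) hc)) 2).symm
      rw [e2, Ideal.Quotient.eq_zero_iff_mem, mem_annIdeal] at h2
      rw [pow_succ]
      exact h2

end Cfsg.Agent.Helper91.HigZKCore
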