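import Mathlib
import Cfsg.Agent.Helper9.BRDefs
import Cfsg.Agent.Helper82.A7Defs
import Cfsg.Agent.Helper73.A7MULT9
import Cfsg.Agent.Helper81.CharBasic

/-!
# CALL S0984 (helper82), piece CHP: the sum of `χ` over the Sylow 3-subgroup is 18.
-/

set_option autoImplicit false
set_option linter.style.haveILetI false
open Cfsg
open scoped ComplexConjugate

universe u

namespace Cfsg.Agent.Helper91

/-- a subgroup properly containing `H` has at least twice its order -/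
theorem a7chp_card_two_mul {Γ : Type*} [Group Γ] [Finite Γ] (H K : Subgroup Γ) (hle : H ≤ K)
    (g : Γ) (hg : g ∈ K) (hgn : g ∉ H) : 2 * Nat.card H ≤ Nat.card K := by
  obtain ⟨m, hm⟩ := Subgroup.card_dvd_of_le hle
  have hK : 0 < Nat.card K := Nat.card_pos
  have hH : 0 < Nat.card H := Nat.card_pos
  rcases Nat.lt_or_ge m 2 with h | h
  · exfalso
    have hm1 : m = 1 := by
      rcases Nat.eq_zero_or_pos m with h0 | h0
      · rw [h0, mul_zero] at hm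
        omega
      · omega
    rw [hm1, mul_one] at hm
    have hHK : H = K := Subgroup.eq_of_le_of_card_ge hle (le_of_eq hm)
    exact hgn (hHK ▸ hg)
  · rw [hm]
    nlinarith

set_option maxHeartbeats 1000000 in
/-- PIECE CHP (uses MULT9) -/
theorem a7_chi_sylow {G : Type u} [Group G] [Finite G] (P : Sylow 3 G) (x x2 t : G)
    (K : Subgroup G) (h : Helper82.A7Cfg P x x2 t K) (χ : Cfsg.IrrCharacter G)
    (h6 : (χ : G → ℂ) 1 = 6) (hker : ∀ g : G, (χ : G → ℂ) g = (χ : G → ℂ) 1 → g = 1)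
    (ha : (χ : G → ℂ) x = 3) :
    ∑ᶠ g ∈ ((P : Subgroup G) : Set G), (χ : G → ℂ) g = 18 := by
  classical
  haveI : Fact (Nat.Prime 3) := ⟨by norm_num⟩
  -- `P` is commutative
  have hPc : ∀ a ∈ (P : Subgroup G), ∀ b ∈ (P : Subgroup G), a * b = b * a := by
    intro a ha b hb
    exact congrArg Subtype.val
      ((IsPGroup.isMulCommutative_of_card_eq_prime_sq (p := 3)
        (by rw [h.hP9]; norm_num)).is_comm.comm (⟨a, ha⟩ : (P : Subgroup G)) ⟨b, hb⟩)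
  have hxx2 : x * x2 = x2 * x := hPc x h.hxP x2 h.hx2P
  have hcomm : Commute x x2 := hxx2
  have hx3 : x ^ 3 = 1 := by rw [← h.hx]; exact pow_orderOf_eq_one x
  have hx23 : x2 ^ 3 = 1 := by
    obtain ⟨c, hc⟩ := isConj_iff.1 h.hconj
    rw [← hc, conj_pow, hx3, mul_one, mul_inv_cancel]
  -- the subgroup of the products `x ^ i * x2 ^ j`
  let Hs : Subgroup G :=
    { carrier := {g | ∃ i j : ℕ, i < 3 ∧ j < 3 ∧ g = x ^ i * x2 ^ j}
      one_mem' := ⟨0, 0, by norm_num, by norm_num, by simp⟩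
      mul_mem' := by
        rintro a b ⟨i, j, hi, hj, rfl⟩ ⟨i', j', hi', hj', rfl⟩
        refine ⟨(i + i') % 3, (j + j') % 3, Nat.mod_lt _ (by norm_num), Nat.mod_lt _ (by norm_num), ?_⟩
        rw [← pow_eq_pow_mod _ hx3, ← pow_eq_pow_mod _ hx23, pow_add, pow_add]
        calc x ^ i * x2 ^ j * (x ^ i' * x2 ^ j') = x ^ i * (x2 ^ j * x ^ i') * x2 ^ j' := by group
          _ = x ^ i * (x ^ i' * x2 ^ j) * x2 ^ j' := by rw [(hcomm.pow_pow i' j).eq]
          _ = x ^ i * x ^ i' * (x2 ^ j * x2 ^ j') := by group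
      inv_mem' := by
        rintro a ⟨i, j, hi, hj, rfl⟩
        refine ⟨(3 - i) % 3, (3 - j) % 3, Nat.mod_lt _ (by norm_num), Nat.mod_lt _ (by norm_num), ?_⟩
        rw [← pow_eq_pow_mod _ hx3, ← pow_eq_pow_mod _ hx23]
        have e1 : x ^ (3 - i) = (x ^ i)⁻¹ := by
          apply eq_inv_of_mul_eq_one_left
          rw [← pow_add, Nat.sub_add_cancel (le_of_lt hi), hx3]
        have e2 : x2 ^ (3 - j) = (x2 ^ j)⁻¹ := by
          apply eq_inv_of_mul_eq_one_left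
          rw [← pow_add, Nat.sub_add_cancel (le_of_lt hj), hx23]
        rw [e1, e2, mul_inv_rev]
        exact ((hcomm.pow_pow i j).inv_inv).eq.symm }
  have hHs : ∀ g : G, g ∈ Hs ↔ ∃ i j : ℕ, i < 3 ∧ j < 3 ∧ g = x ^ i * x2 ^ j := fun g => Iff.rfl
  have hHsP : Hs ≤ (P : Subgroup G) := by
    intro g hg
    obtain ⟨i, j, -, -, rfl⟩ := (hHs g).1 hg
    exact Subgroup.mul_mem _ (Subgroup.pow_mem _ h.hxP i) (Subgroup.pow_mem _ h.hx2P j)
  have hHseq : Hs = (P : Subgroup G) := by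
    have hxHs : Subgroup.zpowers x ≤ Hs := by
      rw [Subgroup.zpowers_le, hHs]
      exact ⟨1, 0, by norm_num, by norm_num, by simp⟩
    have hx2Hs : x2 ∈ Hs := by
      rw [hHs]
      exact ⟨0, 1, by norm_num, by norm_num, by simp⟩
    have h6' := a7chp_card_two_mul _ _ hxHs x2 hx2Hs h.hx2
    rw [Nat.card_zpowers, h.hx] at h6'
    have hdvd : Nat.card Hs ∣ 9 := by
      rw [← h.hP9]
      exact Subgroup.card_dvd_of_le hHsP
    have h9 : Nat.card Hs = 9 := by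
      have h1 : Nat.card Hs ∈ Nat.divisors 9 := Nat.mem_divisors.2 ⟨hdvd, by norm_num⟩
      have h2 : Nat.divisors 9 = {1, 3, 9} := by decide
      rw [h2] at h1
      simp only [Finset.mem_insert, Finset.mem_singleton] at h1
      omega
    exact Subgroup.eq_of_le_of_card_ge hHsP (by rw [h9, h.hP9])
  -- the finite set of these products
  obtain ⟨Fs, hFs⟩ : ∃ Fs : Finset G, Fs = (Finset.range 3 ×ˢ Finset.range 3).image
      (fun p : ℕ × ℕ => x ^ p.1 * x2 ^ p.2) := ⟨_, rfl⟩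
  have hFsP : (Fs : Set G) = ((P : Subgroup G) : Set G) := by
    rw [← hHseq]
    ext g
    rw [Finset.mem_coe, hFs, Finset.mem_image, SetLike.mem_coe, hHs]
    constructor
    · rintro ⟨⟨i, j⟩, hp, rfl⟩
      rw [Finset.mem_product, Finset.mem_range, Finset.mem_range] at hp
      exact ⟨i, j, hp.1, hp.2, rfl⟩
    · rintro ⟨i, j, hi, hj, rfl⟩
      exact ⟨(i, j), by rw [Finset.mem_product, Finset.mem_range, Finset.mem_range]; exact ⟨hi, hj⟩,
        rfl⟩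
  have hFscard : Fs.card = 9 := by
    have h1 : (Fs : Set G).ncard = Fs.card := Set.ncard_coe_finset Fs
    rw [← h1, hFsP]
    exact h.hP9
  have hinj : Set.InjOn (fun p : ℕ × ℕ => x ^ p.1 * x2 ^ p.2)
      ((Finset.range 3 ×ˢ Finset.range 3 : Finset (ℕ × ℕ)) : Set (ℕ × ℕ)) := by
    apply Finset.card_image_iff.1
    rw [← hFs, hFscard]
    rfl
  have hsum : ∑ᶠ g ∈ ((P : Subgroup G) : Set G), (χ : G → ℂ) g =
      ∑ i ∈ Finset.range 3, ∑ j ∈ Finset.range 3, (χ : G → ℂ) (x ^ i * x2 ^ j) := by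
    rw [← hFsP, finsum_mem_coe_finset, hFs, Finset.sum_image hinj, Finset.sum_product]
  -- the values of `χ`
  have hcj : ∀ g c : G, (χ : G → ℂ) (c * g * c⁻¹) = (χ : G → ℂ) g :=
    fun g c => Helper81.irr_conj χ g c
  have hinvP : ∀ g ∈ (P : Subgroup G), (χ : G → ℂ) g⁻¹ = (χ : G → ℂ) g := by
    intro g hg
    rw [← h.htinv g hg, hcj]
  have v10 : (χ : G → ℂ) x = 3 := ha
  have v01 : (χ : G → ℂ) x2 = 3 := by
    obtain ⟨c, hc⟩ := isConj_iff.1 h.hconj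
    rw [← hc, hcj, ha]
  have exx : x ^ 2 = x⁻¹ := by
    apply eq_inv_of_mul_eq_one_left
    rw [← pow_succ, hx3]
  have exx2 : x2 ^ 2 = x2⁻¹ := by
    apply eq_inv_of_mul_eq_one_left
    rw [← pow_succ, hx23]
  have v20 : (χ : G → ℂ) (x ^ 2) = 3 := by rw [exx, hinvP x h.hxP, ha]
  have v02 : (χ : G → ℂ) (x2 ^ 2) = 3 := by rw [exx2, hinvP x2 h.hx2P, v01]
  have v22 : (χ : G → ℂ) (x ^ 2 * x2 ^ 2) = (χ : G → ℂ) (x * x2) := by
    have e : x ^ 2 * x2 ^ 2 = (x * x2)⁻¹ := by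
      rw [exx, exx2, mul_inv_rev]
      exact (hcomm.inv_inv).eq
    rw [e, hinvP _ (Subgroup.mul_mem _ h.hxP h.hx2P)]
  have v21 : (χ : G → ℂ) (x ^ 2 * x2) = (χ : G → ℂ) (x * x2 ^ 2) := by
    have e : x ^ 2 * x2 = (x * x2 ^ 2)⁻¹ := by
      rw [exx, exx2, mul_inv_rev, inv_inv]
      exact (hcomm.inv_left).eq
    rw [e, hinvP _ (Subgroup.mul_mem _ h.hxP (Subgroup.pow_mem _ h.hx2P 2))]
  obtain ⟨b1, hb1⟩ : ∃ b1 : ℂ, b1 = (χ : G → ℂ) (x * x2) := ⟨_, rfl⟩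
  obtain ⟨b2, hb2⟩ : ∃ b2 : ℂ, b2 = (χ : G → ℂ) (x * x2 ^ 2) := ⟨_, rfl⟩
  have hS : ∀ w w' : ℂ, ∑ i ∈ Finset.range 3, ∑ j ∈ Finset.range 3,
      (χ : G → ℂ) (x ^ i * x2 ^ j) * (w ^ i * w' ^ j) =
      6 + 3 * w' + 3 * w' ^ 2 + 3 * w + b1 * (w * w') + b2 * (w * w' ^ 2) + 3 * w ^ 2
        + b2 * (w ^ 2 * w') + b1 * (w ^ 2 * w' ^ 2) := by
    intro w w'
    simp only [Finset.sum_range_succ, Finset.sum_range_zero, zero_add, pow_zero, pow_one, one_mul,
      mul_one]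
    rw [h6, v01, v02, v10, v20, v21, v22, ← hb1, ← hb2]
    ring
  -- a primitive cube root of unity
  obtain ⟨ω, hω3, hω⟩ : ∃ ω : ℂ, ω ^ 3 = 1 ∧ 1 + ω + ω ^ 2 = 0 := by
    have hprim := Complex.isPrimitiveRoot_exp 3 (by norm_num)
    refine ⟨_, hprim.pow_eq_one, ?_⟩
    have h1 := hprim.geom_sum_eq_zero (by norm_num)
    simpa [Finset.sum_range_succ] using h1
  obtain ⟨m10, hm10⟩ := Helper73.a7_mult9 χ x x2 hx3 hx23 hxx2 ω 1 hω3 (one_pow 3)
  obtain ⟨m11, hm11⟩ := Helper73.a7_mult9 χ x x2 hx3 hx23 hxx2 ω ω hω3 hω3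
  obtain ⟨m12, hm12⟩ := Helper73.a7_mult9 χ x x2 hx3 hx23 hxx2 ω (ω ^ 2) hω3
    (by rw [← pow_mul, mul_comm, pow_mul, hω3, one_pow])
  rw [hS] at hm10 hm11 hm12
  have E1 : 9 - b1 - b2 = 9 * (m10 : ℂ) := by
    linear_combination hm10 - (3 + b1 + b2) * hω
  have E2 : 2 * b2 - b1 = 9 * (m11 : ℂ) := by
    linear_combination hm11 - (6 + b1) * hω - (b1 * ω + 2 * b2) * hω3
  have E3 : 2 * b1 - b2 = 9 * (m12 : ℂ) := by
    linear_combination hm12 - (6 + b2) * hω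
      - (3 * ω + b1 + b1 * (ω ^ 3 + 1) + b2 * ω ^ 2 + b2 * ω) * hω3
  have hnat : m10 + m11 + m12 = 1 := by
    have hc : ((m10 + m11 + m12 : ℕ) : ℂ) = 1 := by
      push_cast
      linear_combination (-1 / 9 : ℂ) * E1 - (1 / 9 : ℂ) * E2 - (1 / 9 : ℂ) * E3
    exact_mod_cast hc
  have hb12 : b1 + b2 = 0 := by
    have hcases : (m10 = 1 ∧ m11 = 0 ∧ m12 = 0) ∨ (m10 = 0 ∧ m11 = 1 ∧ m12 = 0) ∨
        (m10 = 0 ∧ m11 = 0 ∧ m12 = 1) := by omega
    rcases hcases with ⟨h1, h2, h3⟩ | ⟨h1, h2, h3⟩ | ⟨h1, h2, h3⟩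
    · rw [h2] at E2
      rw [h3] at E3
      push_cast at E2 E3
      linear_combination E2 + E3
    · exfalso
      rw [h2] at E2
      rw [h3] at E3
      push_cast at E2 E3
      have hb2v : b2 = 6 := by linear_combination (2 / 3 : ℂ) * E2 + (1 / 3 : ℂ) * E3
      have e1 : x * x2 ^ 2 = 1 := hker _ (by rw [← hb2, hb2v, h6])
      apply h.hx2
      have e2 : x2 = x := by
        calc x2 = (x * x2 ^ 2) * x2 := by rw [e1, one_mul]
          _ = x * x2 ^ 3 := by rw [mul_assoc, ← pow_succ]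
          _ = x := by rw [hx23, mul_one]
      rw [e2]
      exact Subgroup.mem_zpowers x
    · exfalso
      rw [h2] at E2
      rw [h3] at E3
      push_cast at E2 E3
      have hb1v : b1 = 6 := by linear_combination (1 / 3 : ℂ) * E2 + (2 / 3 : ℂ) * E3
      have e1 : x * x2 = 1 := hker _ (by rw [← hb1, hb1v, h6])
      apply h.hx2
      have e2 : x2 = x⁻¹ := eq_inv_of_mul_eq_one_right e1
      rw [e2]
      exact Subgroup.inv_mem _ (Subgroup.mem_zpowers x)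
  rw [hsum]
  have hfin := hS 1 1
  simp only [one_pow, mul_one] at hfin
  rw [hfin]
  linear_combination 2 * hb12

end Cfsg.Agent.Helper91
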