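import Mathlib
import Cfsg.Agent.Helper9.BRDefs
import Cfsg.Agent.Helper82.A7Defs

/-!
# CALL S0984 (helper82), piece T1A: the dihedral elements `z`, `k` of the four-group `K`.
-/

set_option autoImplicit false
set_option linter.style.haveILetI false
open Cfsg
open scoped ComplexConjugate

universe u

namespace Cfsg.Agent.Helper91

/-- PIECE T1A -/
theorem a7_d8_elts {G : Type u} [Group G] [Finite G] (P : Sylow 3 G) (x x2 t : G)
    (K : Subgroup G) (h : Helper82.A7Cfg P x x2 t K) :
    ∃ z k : G, z ∈ K ∧ k ∈ K ∧ orderOf z = 2 ∧ orderOf k = 2 ∧ k ≠ z ∧ z * k = k * z ∧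
      z * t = t * z ∧ t * k * t⁻¹ = z * k := by
  haveI : Fact (Nat.Prime 3) := ⟨by norm_num⟩
  haveI : Fact (Nat.Prime 2) := ⟨by norm_num⟩
  -- `P` is commutative
  have hPc : ∀ a b : (P : Subgroup G), a * b = b * a :=
    (IsPGroup.isMulCommutative_of_card_eq_prime_sq (p := 3)
      (by rw [h.hP9]; norm_num)).is_comm.comm
  have hx2x : Commute x2 x := congrArg Subtype.val (hPc ⟨x2, h.hx2P⟩ ⟨x, h.hxP⟩)
  have hx2_3 : x2 * x2 * x2 = 1 := by
    obtain ⟨c, hc⟩ := isConj_iff.1 h.hconj
    have h3 : x ^ 3 = 1 := by rw [← h.hx]; exact pow_orderOf_eq_one x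
    have h4 : x2 ^ 3 = 1 := by rw [← hc, conj_pow, h3, mul_one, mul_inv_cancel]
    rw [← h4, pow_succ, pow_two]
  have htx : t * x * t⁻¹ = x⁻¹ := h.htinv x h.hxP
  have htx2 : t * x2 * t⁻¹ = x2⁻¹ := h.htinv x2 h.hx2P
  have hK4pow : ∀ k ∈ K, k ^ 4 = 1 := by
    intro k hk
    have h1 : (⟨k, hk⟩ : K) ^ 4 = 1 := by rw [← h.hK4]; exact pow_card_eq_one'
    have h2 := congrArg Subtype.val h1
    simpa using h2
  -- conjugation by `x2` preserves `K`
  have hσ : ∀ k ∈ K, x2 * k * x2⁻¹ ∈ K := by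
    intro k hk
    apply h.hKall
    · have hkx : Commute k x := h.hKx k hk
      exact ((hx2x.mul_left hkx).mul_left hx2x.inv_left).eq
    · apply orderOf_dvd_of_pow_eq_one
      rw [conj_pow, hK4pow k hk, mul_one, mul_inv_cancel]
  -- conjugation by `t` preserves `K`
  have hπ : ∀ k ∈ K, t * k * t⁻¹ ∈ K := by
    intro k hk
    apply h.hKall
    · have hx' : x = t * x⁻¹ * t⁻¹ := by
        have e : (t * x * t⁻¹)⁻¹ = t * x⁻¹ * t⁻¹ := by group
        rw [← e, htx, inv_inv]
      have hkxi : k * x⁻¹ = x⁻¹ * k := (Commute.inv_right (h.hKx k hk : Commute k x)).eq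
      calc t * k * t⁻¹ * x = t * k * t⁻¹ * (t * x⁻¹ * t⁻¹) := by rw [← hx']
        _ = t * (k * x⁻¹) * t⁻¹ := by group
        _ = t * (x⁻¹ * k) * t⁻¹ := by rw [hkxi]
        _ = (t * x⁻¹ * t⁻¹) * (t * k * t⁻¹) := by group
        _ = x * (t * k * t⁻¹) := by rw [← hx']
    · apply orderOf_dvd_of_pow_eq_one
      rw [conj_pow, hK4pow k hk, mul_one, mul_inv_cancel]
  have hfix : ∀ k ∈ K, x2 * k * x2⁻¹ = k → k = 1 := by
    intro k hk e
    exact h.hKfix x2 h.hx2P h.hx2 k hk (mul_inv_eq_iff_eq_mul.1 e)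
  -- a nonidentity element of `K` and its conjugates
  have hKne : K ≠ ⊥ := by
    intro hb
    have h4 := h.hK4
    rw [hb, Subgroup.card_bot] at h4
    omega
  obtain ⟨⟨a, haK⟩, ha1'⟩ := Subgroup.ne_bot_iff_exists_ne_one.1 hKne
  have ha1 : a ≠ 1 := fun e => ha1' (Subtype.ext e)
  obtain ⟨b, hb⟩ : ∃ b, b = x2 * a * x2⁻¹ := ⟨_, rfl⟩
  obtain ⟨c, hc⟩ : ∃ c, c = x2 * b * x2⁻¹ := ⟨_, rfl⟩
  have hbK : b ∈ K := by rw [hb]; exact hσ a haK
  have hcK : c ∈ K := by rw [hc]; exact hσ b hbK
  have hσc : x2 * c * x2⁻¹ = a := by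
    rw [hc, hb]
    calc x2 * (x2 * (x2 * a * x2⁻¹) * x2⁻¹) * x2⁻¹ = (x2 * x2 * x2) * a * (x2 * x2 * x2)⁻¹ := by
          group
      _ = a := by rw [hx2_3]; group
  have hb1 : b ≠ 1 := by
    intro e
    rw [hb] at e
    apply ha1
    calc a = x2⁻¹ * (x2 * a * x2⁻¹) * x2 := by group
      _ = 1 := by rw [e]; group
  have hc1 : c ≠ 1 := by
    intro e
    rw [hc] at e
    apply hb1
    calc b = x2⁻¹ * (x2 * b * x2⁻¹) * x2 := by group
      _ = 1 := by rw [e]; group
  have hba : b ≠ a := fun e => ha1 (hfix a haK (by rw [← hb]; exact e))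
  have hcb : c ≠ b := fun e => hb1 (hfix b hbK (by rw [← hc]; exact e))
  have hca : c ≠ a := by
    intro e
    rw [e] at hσc
    exact ha1 (hfix a haK hσc)
  -- enumeration of `K`
  have hKenum : ∀ g ∈ K, g = 1 ∨ g = a ∨ g = b ∨ g = c := by
    have hsub : ({1, a, b, c} : Set G) ⊆ (K : Set G) := by
      intro g hg
      simp only [Set.mem_insert_iff, Set.mem_singleton_iff] at hg
      rcases hg with e | e | e | e
      · rw [e]; exact K.one_mem
      · rw [e]; exact haK
      · rw [e]; exact hbK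
      · rw [e]; exact hcK
    have h1 : ({1, a, b, c} : Set G).ncard = ({a, b, c} : Set G).ncard + 1 :=
      Set.ncard_insert_of_notMem (fun hmem => by
        simp only [Set.mem_insert_iff, Set.mem_singleton_iff] at hmem
        rcases hmem with e | e | e
        · exact ha1 e.symm
        · exact hb1 e.symm
        · exact hc1 e.symm)
    have h2 : ({a, b, c} : Set G).ncard = ({b, c} : Set G).ncard + 1 :=
      Set.ncard_insert_of_notMem (fun hmem => by
        simp only [Set.mem_insert_iff, Set.mem_singleton_iff] at hmem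
        rcases hmem with e | e
        · exact hba e.symm
        · exact hca e.symm)
    have h3 : ({b, c} : Set G).ncard = ({c} : Set G).ncard + 1 :=
      Set.ncard_insert_of_notMem (fun hmem => by
        simp only [Set.mem_singleton_iff] at hmem
        exact hcb hmem.symm)
    have h4 : ({c} : Set G).ncard = 1 := Set.ncard_singleton c
    have hKn : (K : Set G).ncard = 4 := by
      rw [← h.hK4]
      rfl
    have heq : ({1, a, b, c} : Set G) = (K : Set G) :=
      Set.eq_of_subset_of_ncard_le hsub (by omega)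
    intro g hg
    have hg' : g ∈ ({1, a, b, c} : Set G) := by rw [heq]; exact hg
    simpa using hg'
  -- squares
  have haa : a * a = 1 := by
    by_contra hne
    have haaK : a * a ∈ K := K.mul_mem haK haK
    have ha4 : (a * a) * (a * a) = 1 := by
      have e4 : a ^ 4 = a * a * (a * a) := by
        rw [show (4 : ℕ) = 2 + 2 from rfl, pow_add, pow_two]
      rw [← e4]
      exact hK4pow a haK
    rcases hKenum _ haaK with e | e | e | e
    · exact hne e
    · exact ha1 (by simpa using e)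
    · have hbb : b * b = 1 := by rw [← e]; exact ha4
      have hbc : b * b = c := by
        calc b * b = x2 * (a * a) * x2⁻¹ := by rw [hb]; group
          _ = c := by rw [e, hc]
      exact hc1 (by rw [← hbc, hbb])
    · have hcc : c * c = 1 := by rw [← e]; exact ha4
      have hcb' : c * c = b := by
        calc c * c = x2 * (x2 * (a * a) * x2⁻¹) * x2⁻¹ := by rw [hc, hb]; group
          _ = x2 * (x2 * c * x2⁻¹) * x2⁻¹ := by rw [e]
          _ = b := by rw [hσc, hb]
      exact hb1 (by rw [← hcb', hcc])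
  have hbb : b * b = 1 := by
    calc b * b = x2 * (a * a) * x2⁻¹ := by rw [hb]; group
      _ = 1 := by rw [haa]; group
  have hcc : c * c = 1 := by
    calc c * c = x2 * (b * b) * x2⁻¹ := by rw [hc]; group
      _ = 1 := by rw [hbb]; group
  -- products
  have hab : a * b = c := by
    rcases hKenum _ (K.mul_mem haK hbK) with e | e | e | e
    · exfalso
      apply hba
      calc b = (a * a) * b := by rw [haa, one_mul]
        _ = a * (a * b) := by rw [mul_assoc]
        _ = a := by rw [e, mul_one]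
    · exact absurd (by simpa using e) hb1
    · exact absurd (by simpa using e) ha1
    · exact e
  have hba' : b * a = c := by
    rcases hKenum _ (K.mul_mem hbK haK) with e | e | e | e
    · exfalso
      apply hba
      calc b = b * (a * a) := by rw [haa, mul_one]
        _ = (b * a) * a := by rw [mul_assoc]
        _ = a := by rw [e, one_mul]
    · exact absurd (by simpa using e) hb1
    · exact absurd (by simpa using e) ha1
    · exact e
  have hcomm_ab : a * b = b * a := hab.trans hba'.symm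
  have hca_prod : c * a = b := by rw [← hba', mul_assoc, haa, mul_one]
  have hac_prod : a * c = b := by rw [← hab, ← mul_assoc, haa, one_mul]
  -- inverse conjugation by `x2`
  have hia : x2⁻¹ * a * x2 = c := by rw [← hσc]; group
  have hib : x2⁻¹ * b * x2 = a := by rw [hb]; group
  have hic : x2⁻¹ * c * x2 = b := by rw [hc]; group
  -- `t` inverts the action of `x2`
  have hR : ∀ g : G, t * (x2 * g * x2⁻¹) * t⁻¹ = x2⁻¹ * (t * g * t⁻¹) * x2 := by
    intro g
    have hti : t * x2⁻¹ * t⁻¹ = x2 := by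
      have e : (t * x2 * t⁻¹)⁻¹ = t * x2⁻¹ * t⁻¹ := by group
      rw [← e, htx2, inv_inv]
    calc t * (x2 * g * x2⁻¹) * t⁻¹ = (t * x2 * t⁻¹) * (t * g * t⁻¹) * (t * x2⁻¹ * t⁻¹) := by
          group
      _ = x2⁻¹ * (t * g * t⁻¹) * x2 := by rw [htx2, hti]
  have hπb_eq : t * b * t⁻¹ = x2⁻¹ * (t * a * t⁻¹) * x2 := by
    calc t * b * t⁻¹ = t * (x2 * a * x2⁻¹) * t⁻¹ := by rw [hb]
      _ = x2⁻¹ * (t * a * t⁻¹) * x2 := hR a
  have hπc_eq : t * c * t⁻¹ = x2⁻¹ * (t * b * t⁻¹) * x2 := by
    calc t * c * t⁻¹ = t * (x2 * b * x2⁻¹) * t⁻¹ := by rw [hc]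
      _ = x2⁻¹ * (t * b * t⁻¹) * x2 := hR b
  have ho : ∀ g : G, g * g = 1 → g ≠ 1 → orderOf g = 2 := fun g hg hg1 =>
    orderOf_eq_prime (by rw [pow_two]; exact hg) hg1
  rcases hKenum _ (hπ a haK) with e | e | e | e
  · exfalso
    apply ha1
    calc a = t⁻¹ * (t * a * t⁻¹) * t := by group
      _ = 1 := by rw [e]; group
  · -- `t` fixes `a`
    refine ⟨a, b, haK, hbK, ho a haa ha1, ho b hbb hb1, hba, hcomm_ab, ?_, ?_⟩
    · calc a * t = (t * a * t⁻¹) * t := by rw [e]
        _ = t * a := by group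
    · rw [hab, hπb_eq, e, hia]
  · -- `t` swaps `a` and `b`, fixes `c`
    have hπb : t * b * t⁻¹ = a := by rw [hπb_eq, e, hib]
    have hπc : t * c * t⁻¹ = c := by rw [hπc_eq, hπb, hia]
    refine ⟨c, a, hcK, haK, ho c hcc hc1, ho a haa ha1, fun e' => hca e'.symm, ?_, ?_, ?_⟩
    · rw [hca_prod, hac_prod]
    · calc c * t = (t * c * t⁻¹) * t := by rw [hπc]
        _ = t * c := by group
    · rw [e, hca_prod]
  · -- `t` swaps `a` and `c`, fixes `b`
    have hπb : t * b * t⁻¹ = b := by rw [hπb_eq, e, hic]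
    refine ⟨b, a, hbK, haK, ho b hbb hb1, ho a haa ha1, fun e' => hba e'.symm,
      hcomm_ab.symm, ?_, ?_⟩
    · calc b * t = (t * b * t⁻¹) * t := by rw [hπb]
        _ = t * b := by group
    · rw [e, hba']

end Cfsg.Agent.Helper91
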