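/-
Helper91: permutation groups generated by two elements of prime order: transitivity and primitivity
(a transitive group containing a cycle of prime length `q` with `n < 2 q` is primitive).
-/
import Mathlib

set_option autoImplicit false

namespace Cfsg.Agent.Helper91.AltGen

open Equiv MulAction
open scoped Pointwise

variable {β : Type*} [Fintype β] [DecidableEq β]

/-- For a permutation of prime order `p`, a point fixed by a power `x ^ k` with `0 < k < p` is fixed
by `x`. -/
theorem apply_eq_of_pow_apply_eq {x : Perm β} {p : ℕ} (hp : p.Prime) (hxo : orderOf x = p) {k : ℕ}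
    (hk0 : 0 < k) (hkp : k < p) {b : β} (h : (x ^ k) b = b) : x b = b := by
  have hcop : Nat.Coprime k p := by
    rw [Nat.coprime_comm, Nat.Prime.coprime_iff_not_dvd hp]
    intro hdvd
    have := Nat.le_of_dvd hk0 hdvd
    omega
  obtain ⟨l, -, hl⟩ := Nat.exists_mul_mod_eq_one_of_coprime hcop hp.one_lt
  have hx : x = (x ^ k) ^ l := by
    rw [← pow_mul, ← pow_mod_orderOf, hxo, hl, pow_one]
  rw [hx]
  exact Equiv.Perm.pow_apply_eq_self_of_apply_eq_self h l

/-- For a permutation `x` of prime order `p` and a set `S` with more than `n - p` points, some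
`x ^ i` maps a given point moved by `x` into `S`. -/
theorem exists_pow_apply_mem {x : Perm β} {p : ℕ} (hp : p.Prime) (hxo : orderOf x = p) {b : β}
    (hb : x b ≠ b) (S : Finset β) (hS : Fintype.card β < p + S.card) : ∃ i : ℕ, (x ^ i) b ∈ S := by
  by_contra hno
  have hno' : ∀ i : ℕ, (x ^ i) b ∈ Sᶜ := fun i => by
    rw [Finset.mem_compl]
    exact fun h => hno ⟨i, h⟩
  have hinj : Set.InjOn (fun i : ℕ => (x ^ i) b) (Finset.range p : Set ℕ) := by
    have key : ∀ i j : ℕ, i < j → j < p → (x ^ i) b = (x ^ j) b → False := by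
      intro i j hij hjp he
      have h1 : (x ^ (j - i)) b = b := by
        have h2 : x ^ j = x ^ i * x ^ (j - i) := by rw [← pow_add]; congr 1; omega
        rw [h2, Equiv.Perm.mul_apply] at he
        exact ((x ^ i).injective he).symm
      exact hb (apply_eq_of_pow_apply_eq hp hxo (by omega) (by omega) h1)
    intro i hi j hj he
    rw [Finset.coe_range, Set.mem_Iio] at hi hj
    rcases Nat.lt_trichotomy i j with h | h | h
    · exact (key i j h hj he).elim
    · exact h
    · exact (key j i h hi he.symm).elim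
  have hle := Finset.card_le_card_of_injOn (s := Finset.range p) (t := Sᶜ)
    (fun i : ℕ => (x ^ i) b) (fun i _ => hno' i) hinj
  rw [Finset.card_range, Finset.card_compl] at hle
  have := Finset.card_le_univ S
  omega

/-- The group generated by a permutation `x` of prime order `p` and a cycle `y` of length `q` that
together move every point is transitive if `n < p + q`. -/
theorem isPretransitive_closure {x y : Perm β} {p q : ℕ} (hp : p.Prime) (hxo : orderOf x = p)
    (hyc : y.IsCycle) (hys : y.support.card = q) (hcov : ∀ b, x b ≠ b ∨ y b ≠ b)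
    (hpq : Fintype.card β < p + q) : IsPretransitive (Subgroup.closure ({x, y} : Set (Perm β))) β := by
  have hxG : x ∈ Subgroup.closure ({x, y} : Set (Perm β)) := Subgroup.subset_closure (by simp)
  have hyG : y ∈ Subgroup.closure ({x, y} : Set (Perm β)) := Subgroup.subset_closure (by simp)
  obtain ⟨a0, ha0, -⟩ := id hyc
  have key : ∀ b : β, ∃ g ∈ Subgroup.closure ({x, y} : Set (Perm β)), g a0 = b := by
    intro b
    by_cases hb : y b = b
    · have hxb : x b ≠ b := (hcov b).resolve_right (fun h => h hb)
      obtain ⟨i, hi⟩ := exists_pow_apply_mem hp hxo hxb y.support (by rw [hys]; exact hpq)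
      rw [Equiv.Perm.mem_support] at hi
      obtain ⟨j, hj⟩ := hyc.exists_pow_eq ha0 hi
      refine ⟨(x ^ i)⁻¹ * y ^ j, mul_mem (inv_mem (pow_mem hxG i)) (pow_mem hyG j), ?_⟩
      rw [Equiv.Perm.mul_apply, hj]
      exact Equiv.Perm.inv_eq_iff_eq.2 rfl
    · obtain ⟨j, hj⟩ := hyc.exists_pow_eq ha0 hb
      exact ⟨y ^ j, pow_mem hyG j, hj⟩
  constructor
  intro a b
  obtain ⟨g, hg, hga⟩ := key a
  obtain ⟨h, hh, hhb⟩ := key b
  refine ⟨⟨h * g⁻¹, mul_mem hh (inv_mem hg)⟩, ?_⟩
  show (h * g⁻¹) a = b
  rw [Equiv.Perm.mul_apply, ← hga, ← hhb]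
  congr 1
  exact Equiv.Perm.inv_eq_iff_eq.2 rfl

/-- A transitive permutation group containing a cycle of prime length `q` with `n < 2 q` is
primitive. -/
theorem isPreprimitive_of_cycle (G : Subgroup (Perm β)) [IsPretransitive G β] {y : Perm β}
    (hy : y ∈ G) (hyc : y.IsCycle) {q : ℕ} (hq : q.Prime) (hys : y.support.card = q)
    (hcard : Fintype.card β < 2 * q) : IsPreprimitive G β := by
  have hyo : orderOf y = q := by rw [hyc.orderOf, hys]
  obtain ⟨a, ha, -⟩ := id hyc
  apply IsPreprimitive.of_isTrivialBlock_base a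
  intro B haB hB
  by_cases hsub : B.Subsingleton
  · exact Or.inl hsub
  right
  rw [Set.not_subsingleton_iff] at hsub
  have hstab : ∀ i : ℕ, (y ^ i) a ∈ B → ∀ c ∈ B, (y ^ i) c ∈ B := by
    intro i hi c hc
    have h1 : (⟨y ^ i, pow_mem hy i⟩ : G) • B = B :=
      (isBlock_iff_smul_eq_of_mem.1 hB) haB hi
    rw [← h1]
    exact Set.smul_mem_smul_set hc
  -- `y` stabilizes `B`
  have hyB : ∀ c ∈ B, y c ∈ B := by
    obtain ⟨b, hbB, hba⟩ : ∃ b ∈ B, b ≠ a := by
      obtain ⟨u, hu, v, hv, huv⟩ := hsub
      by_cases h : u = a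
      · exact ⟨v, hv, fun h' => huv (h.trans h'.symm)⟩
      · exact ⟨u, hu, h⟩
    by_cases hb : y b = b
    · intro c hc
      have h1 : (⟨y, hy⟩ : G) • B = B :=
        (isBlock_iff_smul_eq_of_mem.1 hB) hbB (show (⟨y, hy⟩ : G) • b ∈ B by
          show y b ∈ B
          rw [hb]; exact hbB)
      rw [← h1]
      exact Set.smul_mem_smul_set hc
    · obtain ⟨i, hi⟩ := hyc.exists_pow_eq ha hb
      have hi' : (y ^ (i % q)) a = b := by rw [← hyo, pow_mod_orderOf]; exact hi
      have hiq : 0 < i % q := by
        rcases Nat.eq_zero_or_pos (i % q) with h0 | h0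
        · rw [h0, pow_zero] at hi'
          exact absurd hi'.symm hba
        · exact h0
      have hcop : Nat.Coprime (i % q) q := by
        rw [Nat.coprime_comm, Nat.Prime.coprime_iff_not_dvd hq]
        intro hdvd
        have := Nat.le_of_dvd hiq hdvd
        have := Nat.mod_lt i hq.pos
        omega
      obtain ⟨l, -, hl⟩ := Nat.exists_mul_mod_eq_one_of_coprime hcop hq.one_lt
      have hyl : y = (y ^ (i % q)) ^ l := by
        rw [← pow_mul, ← pow_mod_orderOf, hyo, hl, pow_one]
      have hst := hstab (i % q) (by rw [hi']; exact hbB)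
      have hpow : ∀ n : ℕ, ∀ c ∈ B, ((y ^ (i % q)) ^ n) c ∈ B := by
        intro n
        induction n with
        | zero => intro c hc; simpa using hc
        | succ n ih =>
          intro c hc
          rw [pow_succ, Equiv.Perm.mul_apply]
          exact ih _ (hst c hc)
      intro c hc
      rw [hyl]
      exact hpow l c hc
  have hpowB : ∀ n : ℕ, (y ^ n) a ∈ B := by
    intro n
    induction n with
    | zero => simpa using haB
    | succ n ih =>
      rw [pow_succ', Equiv.Perm.mul_apply]
      exact hyB _ ih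
  have hsupp : (y.support : Set β) ⊆ B := by
    intro c hc
    rw [Finset.mem_coe, Equiv.Perm.mem_support] at hc
    obtain ⟨j, hj⟩ := hyc.exists_pow_eq ha hc
    rw [← hj]
    exact hpowB j
  apply hB.eq_univ_of_card_lt
  have h1 : (y.support : Set β).ncard ≤ B.ncard := Set.ncard_le_ncard hsupp (Set.toFinite B)
  rw [Set.ncard_coe_finset, hys] at h1
  rw [Nat.card_eq_fintype_card]
  omega

end Cfsg.Agent.Helper91.AltGen
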