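/-
Helper91: two elements of prime orders `p < q` of an alternating group of degree `m ≤ 2 p` generate an
alternating group: the generic case (Jordan's theorem on cycles of prime length) and the reduction of the
general statement to three small cases, which enter as hypotheses.
-/
import Cfsg.Agent.Helper91.AltGenA
import Cfsg.Agent.S0713

set_option autoImplicit false

namespace Cfsg.Agent.Helper91.AltGen

open Equiv MulAction
open scoped Pointwise

/-- The case of degree 7: a group containing a 5-cycle and a 7-cycle contains the alternating group. -/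
def Twin7 : Prop :=
  ∀ {α : Type} [Fintype α] [DecidableEq α], Fintype.card α = 7 → ∀ (G : Subgroup (Perm α))
    {x y : Perm α}, x ∈ G → y ∈ G → x.IsCycle → x.support.card = 5 → y.IsCycle → y.support.card = 7 →
    alternatingGroup α ≤ G

/-- The case of degree 13: a group of even permutations containing an 11-cycle and a 13-cycle is the
alternating group. -/
def Twin13 : Prop :=
  ∀ {α : Type} [Fintype α] [DecidableEq α], Fintype.card α = 13 → ∀ (G : Subgroup (Perm α)),
    G ≤ alternatingGroup α → ∀ {x y : Perm α}, x ∈ G → y ∈ G → x.IsCycle → x.support.card = 11 →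
    y.IsCycle → y.support.card = 13 → alternatingGroup α ≤ G

/-- The case of degree 6: a product of two 3-cycles and a 5-cycle generate an alternating group. -/
def Deg6 : Prop :=
  ∀ {α : Type} [Fintype α] [DecidableEq α], Fintype.card α = 6 → ∀ (x y : Perm α),
    x.cycleType = {3, 3} → y.cycleType = {5} →
    ∃ d : ℕ, 5 ≤ d ∧ Nonempty (Subgroup.closure ({x, y} : Set (Perm α)) ≃* alternatingGroup (Fin d))

variable {β : Type} [Fintype β] [DecidableEq β]

theorem closure_pair_le_alt {x y : Perm β} (hx : Perm.sign x = 1) (hy : Perm.sign y = 1) :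
    Subgroup.closure ({x, y} : Set (Perm β)) ≤ alternatingGroup β := by
  rw [Subgroup.closure_le]
  rintro g (rfl | rfl)
  · exact Perm.mem_alternatingGroup.2 hx
  · exact Perm.mem_alternatingGroup.2 hy

/-- The core statement on the union of the supports. -/
theorem core (h7 : Twin7) (h13 : Twin13) (h6 : Deg6)
    {x y : Perm β} {p q : ℕ} (hp : p.Prime) (hq : q.Prime) (hpq : p < q)
    (hxo : orderOf x = p) (hxe : Perm.sign x = 1) (hye : Perm.sign y = 1)
    (hyc : y.IsCycle) (hys : y.support.card = q)
    (hcov : ∀ b, x b ≠ b ∨ y b ≠ b) (hcard : Fintype.card β ≤ 2 * p) (h5 : 5 ≤ Fintype.card β)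
    (hc1 : p = 3 ∨ (p = 5 ∧ q = 7) ∨ (p = 11 ∧ q = 13) ∨ p + 4 ≤ q)
    (hc2 : Fintype.card β = 2 * p → p = 3 ∨ q + 3 ≤ Fintype.card β) :
    ∃ d : ℕ, 5 ≤ d ∧
      Nonempty (Subgroup.closure ({x, y} : Set (Perm β)) ≃* alternatingGroup (Fin d)) := by
  have hxG : x ∈ Subgroup.closure ({x, y} : Set (Perm β)) := Subgroup.subset_closure (by simp)
  have hyG : y ∈ Subgroup.closure ({x, y} : Set (Perm β)) := Subgroup.subset_closure (by simp)
  have hqn : q ≤ Fintype.card β := by rw [← hys]; exact Finset.card_le_univ _
  have htr := isPretransitive_closure hp hxo hyc hys hcov (by omega)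
  have hprim := isPreprimitive_of_cycle (Subgroup.closure ({x, y} : Set (Perm β))) hyG hyc hq hys
    (by omega)
  have hle := closure_pair_le_alt hxe hye
  -- it suffices to show that the alternating group is contained in the closure
  have hfin : alternatingGroup β ≤ Subgroup.closure ({x, y} : Set (Perm β)) →
      ∃ d : ℕ, 5 ≤ d ∧
        Nonempty (Subgroup.closure ({x, y} : Set (Perm β)) ≃* alternatingGroup (Fin d)) := by
    intro hge
    have heq : Subgroup.closure ({x, y} : Set (Perm β)) = alternatingGroup β := le_antisymm hle hge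
    exact ⟨Fintype.card β, h5,
      ⟨(MulEquiv.subgroupCongr heq).trans (Fintype.equivFin β).altCongrHom⟩⟩
  by_cases hxc : x.IsCycle
  · have hxs : x.support.card = p := by rw [← hxc.orderOf]; exact hxo
    apply hfin
    by_cases h3 : p = 3
    · subst h3
      exact Equiv.Perm.alternatingGroup_le_of_isPreprimitive_of_isThreeCycle_mem hprim
        (card_support_eq_three_iff.1 hxs) hxG
    by_cases hgen : p + 3 ≤ Fintype.card β
    · exact Cfsg.Agent.S0713.result _ hprim hp h5 hgen hxc hxs hxG
    · rcases hc1 with h | ⟨rfl, rfl⟩ | ⟨rfl, rfl⟩ | h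
      · exact absurd h h3
      · exact h7 (by omega) _ hxG hyG hxc hxs hyc hys
      · exact h13 (by omega) _ hle hxG hyG hxc hxs hyc hys
      · omega
  · obtain ⟨n, hn⟩ := Equiv.Perm.cycleType_prime_order (σ := x) (by rw [hxo]; exact hp)
    rw [hxo] at hn
    have hn1 : n ≠ 0 := by
      intro h0
      apply hxc
      rw [← Equiv.Perm.card_cycleType_eq_one, hn, h0]
      simp
    have hsum := Equiv.Perm.sum_cycleType_le x
    rw [hn, Multiset.sum_replicate, smul_eq_mul] at hsum
    have hp2 := hp.two_le
    have hn2 : n = 1 := by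
      by_contra hne
      have h3 : 3 ≤ n + 1 := by omega
      have : 3 * p ≤ (n + 1) * p := Nat.mul_le_mul_right p h3
      omega
    subst hn2
    have hcardeq : Fintype.card β = 2 * p := by omega
    rcases hc2 hcardeq with h3 | hq3
    · subst h3
      have hq5 : q = 5 := by
        have h1 : q ≤ 6 := by omega
        have h2 : 3 < q := hpq
        interval_cases q
        · exact absurd hq (by norm_num)
        · rfl
        · exact absurd hq (by norm_num)
      subst hq5
      have hyt : y.cycleType = {5} := by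
        rw [hyc.cycleType, hys]
      exact h6 (by omega) x y (by rw [hn]; rfl) hyt
    · apply hfin
      exact Cfsg.Agent.S0713.result _ hprim hq h5 hq3 hyc hys hyG

theorem apply_mem_iff_of_support_subset {α : Type*} [DecidableEq α] [Fintype α] {f : Perm α}
    {D : Finset α} (h : f.support ⊆ D) (a : α) : f a ∈ D ↔ a ∈ D := by
  by_cases ha : a ∈ f.support
  · exact ⟨fun _ => h ha, fun _ => h (Equiv.Perm.apply_mem_support.2 ha)⟩
  · rw [Equiv.Perm.notMem_support] at ha
    rw [ha]

/-- Two elements of prime orders `p < q` of the alternating group of degree `m ≤ 2 p` generate a group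
isomorphic to an alternating group, given the three small cases. -/
theorem gen_iso (h7 : Twin7) (h13 : Twin13) (h6 : Deg6) {m p q : ℕ} (hp : p.Prime) (hq : q.Prime)
    (h2p : m ≤ 2 * p) (hpq : p < q) (hq5 : 5 ≤ q)
    (hc1 : p = 3 ∨ (p = 5 ∧ q = 7) ∨ (p = 11 ∧ q = 13) ∨ p + 4 ≤ q)
    (hc2 : m = 2 * p → p = 3 ∨ q + 3 ≤ m)
    (x y : alternatingGroup (Fin m)) (hx : orderOf x = p) (hy : orderOf y = q) :
    ∃ d : ℕ, 5 ≤ d ∧ Nonempty (Subgroup.closure ({x, y} : Set (alternatingGroup (Fin m))) ≃*
      alternatingGroup (Fin d)) := by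
  obtain ⟨X, hXdef⟩ : ∃ X : Perm (Fin m), X = (x : Perm (Fin m)) := ⟨_, rfl⟩
  obtain ⟨Y, hYdef⟩ : ∃ Y : Perm (Fin m), Y = (y : Perm (Fin m)) := ⟨_, rfl⟩
  have hXo : orderOf X = p := by rw [hXdef, Subgroup.orderOf_coe]; exact hx
  have hYo : orderOf Y = q := by rw [hYdef, Subgroup.orderOf_coe]; exact hy
  have hXe : Perm.sign X = 1 := by rw [hXdef]; exact Perm.mem_alternatingGroup.1 x.2
  have hYe : Perm.sign Y = 1 := by rw [hYdef]; exact Perm.mem_alternatingGroup.1 y.2
  have hYsm : Y.support.card ≤ m := by
    have := Finset.card_le_univ Y.support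
    rwa [Fintype.card_fin] at this
  have hYc : Y.IsCycle := Equiv.Perm.isCycle_of_prime_order (by rw [hYo]; exact hq) (by rw [hYo]; omega)
  have hYs : Y.support.card = q := by rw [← hYc.orderOf]; exact hYo
  obtain ⟨D, hDdef⟩ : ∃ D : Finset (Fin m), D = X.support ∪ Y.support := ⟨_, rfl⟩
  have hXsub : X.support ⊆ D := by rw [hDdef]; exact Finset.subset_union_left
  have hYsub : Y.support ⊆ D := by rw [hDdef]; exact Finset.subset_union_right
  have hXD := apply_mem_iff_of_support_subset hXsub
  have hYD := apply_mem_iff_of_support_subset hYsub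
  have hX' : Perm.ofSubtype (X.subtypePerm hXD) = X :=
    Equiv.Perm.ofSubtype_subtypePerm hXD (fun a ha => hXsub (Equiv.Perm.mem_support.2 ha))
  have hY' : Perm.ofSubtype (Y.subtypePerm hYD) = Y :=
    Equiv.Perm.ofSubtype_subtypePerm hYD (fun a ha => hYsub (Equiv.Perm.mem_support.2 ha))
  have hinj : Function.Injective (Perm.ofSubtype : Perm {a // a ∈ D} →* Perm (Fin m)) :=
    Equiv.Perm.ofSubtype_injective
  have hXo' : orderOf (X.subtypePerm hXD) = p := by
    rw [← orderOf_injective _ hinj, hX']; exact hXo
  have hXe' : Perm.sign (X.subtypePerm hXD) = 1 := by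
    rw [← Equiv.Perm.sign_ofSubtype, hX']; exact hXe
  have hYe' : Perm.sign (Y.subtypePerm hYD) = 1 := by
    rw [← Equiv.Perm.sign_ofSubtype, hY']; exact hYe
  have hYt' : (Y.subtypePerm hYD).cycleType = Y.cycleType := by
    rw [← Equiv.Perm.cycleType_ofSubtype, hY']
  have hYc' : (Y.subtypePerm hYD).IsCycle := by
    rw [← Equiv.Perm.card_cycleType_eq_one, hYt', Equiv.Perm.card_cycleType_eq_one]; exact hYc
  have hYs' : (Y.subtypePerm hYD).support.card = q := by
    rw [← Equiv.Perm.sum_cycleType, hYt', Equiv.Perm.sum_cycleType]; exact hYs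
  have hcov : ∀ b : {a // a ∈ D}, (X.subtypePerm hXD) b ≠ b ∨ (Y.subtypePerm hYD) b ≠ b := by
    intro b
    have hb : (b : Fin m) ∈ X.support ∪ Y.support := by rw [← hDdef]; exact b.2
    rw [Finset.mem_union, Equiv.Perm.mem_support, Equiv.Perm.mem_support] at hb
    rcases hb with hb | hb
    · left
      intro h
      exact hb (congrArg Subtype.val h)
    · right
      intro h
      exact hb (congrArg Subtype.val h)
  have hcardD : Fintype.card {a // a ∈ D} = D.card := Fintype.card_coe D
  have hDm : D.card ≤ m := by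
    have := Finset.card_le_univ D
    rwa [Fintype.card_fin] at this
  have hqD : q ≤ D.card := by rw [← hYs]; exact Finset.card_le_card hYsub
  obtain ⟨d, hd5, ⟨e⟩⟩ := core h7 h13 h6 hp hq hpq hXo' hXe' hYe' hYc' hYs' hcov
    (by rw [hcardD]; omega) (by rw [hcardD]; omega) hc1
    (by
      rw [hcardD]
      intro h
      have hm : m = 2 * p := by omega
      rcases hc2 hm with h3 | h3
      · exact Or.inl h3
      · exact Or.inr (by omega))
  refine ⟨d, hd5, ⟨?_⟩⟩
  have h1 : (Subgroup.closure ({x, y} : Set (alternatingGroup (Fin m)))).map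
      (alternatingGroup (Fin m)).subtype = Subgroup.closure ({X, Y} : Set (Perm (Fin m))) := by
    rw [MonoidHom.map_closure, Set.image_pair, hXdef, hYdef]
    rfl
  have h2 : (Subgroup.closure ({X.subtypePerm hXD, Y.subtypePerm hYD} : Set (Perm {a // a ∈ D}))).map
      (Perm.ofSubtype : Perm {a // a ∈ D} →* Perm (Fin m)) =
      Subgroup.closure ({X, Y} : Set (Perm (Fin m))) := by
    rw [MonoidHom.map_closure, Set.image_pair, hX', hY']
  exact ((Subgroup.closure ({x, y} : Set (alternatingGroup (Fin m)))).equivMapOfInjective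
      (alternatingGroup (Fin m)).subtype (Subgroup.subtype_injective _)).trans
    ((MulEquiv.subgroupCongr (h1.trans h2.symm)).trans
      (((Subgroup.closure ({X.subtypePerm hXD, Y.subtypePerm hYD} : Set (Perm {a // a ∈ D}))).equivMapOfInjective
        (Perm.ofSubtype : Perm {a // a ∈ D} →* Perm (Fin m)) hinj).symm.trans e))

end Cfsg.Agent.Helper91.AltGen
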