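/-
Helper91: a product of two 3-cycles and a 5-cycle on 6 points generate a group isomorphic to the
alternating group of degree 5 or 6.
-/
import Cfsg.Agent.Helper91.AltGenB
import Cfsg.Agent.Helper41.Order60
import Cfsg.Agent.Helper5.AltEmbed

set_option autoImplicit false

namespace Cfsg.Agent.Helper91.AltGen

open Equiv MulAction
open scoped Pointwise

/-- If a finite group acts faithfully on `n + 1` points and a point stabilizer `S` satisfies
`2 |S| = n!`, then `S` is isomorphic to the alternating group of degree `n` (it acts faithfully on the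
`n` other points). -/
theorem equiv_alt_of_action {A : Type*} [Group A] {X : Type*} [Finite X] [MulAction A X]
    (hinj : Function.Injective (MulAction.toPermHom A X)) (x0 : X) (n : ℕ)
    (hX : Nat.card X = n + 1) (hcard : 2 * Nat.card (MulAction.stabilizer A x0) = n.factorial) :
    Nonempty (MulAction.stabilizer A x0 ≃* alternatingGroup (Fin n)) := by
  have hψ : Function.Injective (MulAction.toPermHom (MulAction.stabilizer A x0)
      (SubMulAction.ofStabilizer A x0)) := by
    rw [injective_iff_map_eq_one]
    intro s hs
    apply Subtype.ext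
    apply hinj
    rw [OneMemClass.coe_one, map_one]
    ext c
    show (s : A) • c = c
    by_cases hc : c = x0
    · rw [hc]
      exact MulAction.mem_stabilizer_iff.1 s.2
    · have h1 := congrArg (fun f : Equiv.Perm (SubMulAction.ofStabilizer A x0) =>
        ((f ⟨c, (SubMulAction.mem_ofStabilizer_iff A _).2 hc⟩ :
          SubMulAction.ofStabilizer A x0) : X)) hs
      exact h1
  have hβ : Nat.card (SubMulAction.ofStabilizer A x0) = n := by
    rw [SubMulAction.nat_card_ofStabilizer_eq, hX]
    rfl
  exact Cfsg.Agent.Helper5.equiv_alternatingGroup_of_injective _ hψ n hβ hcard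

/-- A proper subgroup `K` of index `n + 1` of a finite simple group with `2 |K| = n!` is isomorphic
to the alternating group of degree `n`. -/
theorem equiv_alt_of_index {A : Type*} [Group A] [Finite A] [IsSimpleGroup A] (K : Subgroup A)
    (hK : K ≠ ⊤) (n : ℕ) (hidx : K.index = n + 1) (hcard : 2 * Nat.card K = n.factorial) :
    Nonempty (K ≃* alternatingGroup (Fin n)) := by
  have hinj := Cfsg.Agent.Helper41.toPermHom_injective_of_simple K hK
  have hstab : MulAction.stabilizer A ((1 : A) : A ⧸ K) = K := MulAction.stabilizer_quotient K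
  obtain ⟨e⟩ := equiv_alt_of_action hinj ((1 : A) : A ⧸ K) n
    (by rw [← Subgroup.index_eq_card, hidx]) (by rw [hstab]; exact hcard)
  exact ⟨(MulEquiv.subgroupCongr hstab.symm).trans e⟩

/-- The case of degree 6. -/
theorem deg6 : Deg6 := by
  intro α _ _ hα x y hx hy
  have hxo : orderOf x = 3 := by rw [← Equiv.Perm.lcm_cycleType, hx]; rfl
  have hyc : y.IsCycle := by rw [← Equiv.Perm.card_cycleType_eq_one, hy]; rfl
  have hys : y.support.card = 5 := by rw [← Equiv.Perm.sum_cycleType, hy]; rfl
  have hxs : x.support.card = 6 := by rw [← Equiv.Perm.sum_cycleType, hx]; rfl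
  have hxe : Perm.sign x = 1 := by rw [Equiv.Perm.sign_of_cycleType, hx]; rfl
  have hye : Perm.sign y = 1 := by rw [Equiv.Perm.sign_of_cycleType, hy]; rfl
  have hcov : ∀ b, x b ≠ b ∨ y b ≠ b := by
    intro b
    left
    have h1 : x.support = Finset.univ := Finset.eq_univ_of_card _ (by rw [hxs, hα])
    rw [← Equiv.Perm.mem_support, h1]
    exact Finset.mem_univ b
  have hxH : x ∈ Subgroup.closure ({x, y} : Set (Perm α)) := Subgroup.subset_closure (by simp)
  have hyH : y ∈ Subgroup.closure ({x, y} : Set (Perm α)) := Subgroup.subset_closure (by simp)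
  have htr : IsPretransitive (Subgroup.closure ({x, y} : Set (Perm α))) α :=
    isPretransitive_closure (by norm_num : Nat.Prime 3) hxo hyc hys hcov (by rw [hα]; norm_num)
  have hle := closure_pair_le_alt hxe hye
  generalize Subgroup.closure ({x, y} : Set (Perm α)) = H at hxH hyH htr hle ⊢
  have hne : Nonempty α := by
    rw [← Fintype.card_pos_iff, hα]; norm_num
  obtain ⟨a0⟩ := hne
  have hstabidx : ∀ a : α, (MulAction.stabilizer H a).index = 6 := by
    intro a
    rw [MulAction.index_stabilizer_of_transitive, Nat.card_eq_fintype_card, hα]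
  have h6 : 6 ∣ Nat.card H := by
    have h2 := Subgroup.index_dvd_card (MulAction.stabilizer H a0)
    rwa [hstabidx] at h2
  have h5 : 5 ∣ Nat.card H := by
    have h1 := orderOf_dvd_natCard (⟨y, hyH⟩ : H)
    rwa [Subgroup.orderOf_mk, hyc.orderOf, hys] at h1
  have h30 : 30 ∣ Nat.card H :=
    Nat.Coprime.mul_dvd_of_dvd_of_dvd (by norm_num : Nat.Coprime 6 5) h6 h5
  have hAs : IsSimpleGroup (alternatingGroup α) :=
    alternatingGroup.isSimpleGroup (by rw [Nat.card_eq_fintype_card, hα]; norm_num)
  have hnt : Nontrivial α := Fintype.one_lt_card_iff_nontrivial.mp (by rw [hα]; norm_num)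
  have hAcard : Nat.card (alternatingGroup α) = 360 := by
    have h1 := two_mul_nat_card_alternatingGroup (α := α)
    rw [Nat.card_perm, Nat.card_eq_fintype_card (α := α), hα] at h1
    have h6f : (6 : ℕ).factorial = 720 := by decide
    omega
  have hKcard : Nat.card (H.subgroupOf (alternatingGroup α)) = Nat.card H :=
    Nat.card_congr (Subgroup.subgroupOfEquivOfLe hle).toEquiv
  by_cases hKtop : H.subgroupOf (alternatingGroup α) = ⊤
  · have heq : H = alternatingGroup α :=
      le_antisymm hle (Subgroup.subgroupOf_eq_top.1 hKtop)
    exact ⟨6, by norm_num,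
      ⟨(MulEquiv.subgroupCongr heq).trans (Fintype.equivFinOfCardEq hα).altCongrHom⟩⟩
  · have hdvd := Cfsg.Agent.Helper41.card_dvd_factorial_index_of_simple _ hKtop
    rw [hAcard] at hdvd
    have hmul := Subgroup.card_mul_index (H.subgroupOf (alternatingGroup α))
    rw [hAcard, hKcard] at hmul
    obtain ⟨c, hc⟩ := h30
    generalize (H.subgroupOf (alternatingGroup α)).index = k at hdvd hmul
    have hck : c * k = 12 := by
      rw [hc] at hmul
      nlinarith
    have hk12 : k ≤ 12 := by
      rcases Nat.eq_zero_or_pos c with h0 | h0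
      · rw [h0] at hck; omega
      · nlinarith
    have hk : k = 6 ∨ k = 12 := by
      interval_cases k
      all_goals first
        | omega
        | (exfalso; revert hdvd; decide)
    rcases hk with rfl | rfl
    · have hcardH : Nat.card H = 60 := by omega
      obtain ⟨e⟩ := equiv_alt_of_index (H.subgroupOf (alternatingGroup α)) hKtop 5
        (by
          have hmul' := Subgroup.card_mul_index (H.subgroupOf (alternatingGroup α))
          rw [hAcard, hKcard, hcardH] at hmul'
          omega)
        (by rw [hKcard, hcardH]; decide)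
      exact ⟨5, le_rfl, ⟨(Subgroup.subgroupOfEquivOfLe hle).symm.trans e⟩⟩
    · exfalso
      have hcard30 : Nat.card H = 30 := by omega
      have : Fact (Nat.Prime 2) := ⟨Nat.prime_two⟩
      obtain ⟨τ, hτ⟩ := exists_prime_orderOf_dvd_card' 2
        (show 2 ∣ Nat.card H by rw [hcard30]; norm_num)
      have hτo : orderOf (τ : Perm α) = 2 := by rw [Subgroup.orderOf_coe]; exact hτ
      have hfix : ∃ a, (τ : Perm α) a = a := by
        by_contra hno
        have hsupp : (τ : Perm α).support = Finset.univ := by
          apply Finset.eq_univ_of_forall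
          intro b
          rw [Equiv.Perm.mem_support]
          exact fun h => hno ⟨b, h⟩
        obtain ⟨n, hn⟩ := Equiv.Perm.cycleType_prime_order (σ := (τ : Perm α))
          (by rw [hτo]; exact Nat.prime_two)
        rw [hτo] at hn
        have hsum := Equiv.Perm.sum_cycleType (τ : Perm α)
        rw [hn, hsupp, Multiset.sum_replicate, smul_eq_mul, Finset.card_univ, hα] at hsum
        have hn2 : n = 2 := by omega
        subst hn2
        have hsign := Equiv.Perm.sign_of_cycleType (τ : Perm α)
        rw [hn, Perm.mem_alternatingGroup.1 (hle τ.2)] at hsign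
        exact absurd hsign (by decide)
      obtain ⟨a, ha⟩ := hfix
      have hst : τ ∈ MulAction.stabilizer H a := ha
      have hstcard : Nat.card (MulAction.stabilizer H a) = 5 := by
        have h2 := Subgroup.card_mul_index (MulAction.stabilizer H a)
        rw [hstabidx, hcard30] at h2
        omega
      have h2 := orderOf_dvd_natCard (⟨τ, hst⟩ : MulAction.stabilizer H a)
      rw [Subgroup.orderOf_mk, hτ, hstcard] at h2
      omega

end Cfsg.Agent.Helper91.AltGen
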