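import Mathlib
import Cfsg.Agent.Helper17.GoodSyl

set_option autoImplicit false

namespace Cfsg.Agent.Helper91.GSSL

open Cfsg.Agent.Helper17

variable {F : Type*} [Field F] {n : ℕ}

/-- upper unitriangular -/
def IsUT (M : Matrix (Fin n) (Fin n) F) : Prop :=
  (∀ i, M i i = 1) ∧ ∀ i j : Fin n, j < i → M i j = 0

theorem isUT_one : IsUT (1 : Matrix (Fin n) (Fin n) F) :=
  ⟨fun i => Matrix.one_apply_eq i, fun _ _ h => Matrix.one_apply_ne (ne_of_lt h).symm⟩

theorem isUT_mul {A B : Matrix (Fin n) (Fin n) F} (hA : IsUT A) (hB : IsUT B) :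
    IsUT (A * B) := by
  constructor
  · intro i
    rw [Matrix.mul_apply, Finset.sum_eq_single i]
    · rw [hA.1, hB.1, mul_one]
    · intro k _ hk
      rcases lt_or_gt_of_ne hk with h | h
      · rw [hA.2 i k h, zero_mul]
      · rw [hB.2 k i h, mul_zero]
    · intro h
      exact absurd (Finset.mem_univ _) h
  · intro i j hji
    rw [Matrix.mul_apply]
    apply Finset.sum_eq_zero
    intro k _
    by_cases hk : k < i
    · rw [hA.2 i k hk, zero_mul]
    · rw [hB.2 k j (lt_of_lt_of_le hji (not_lt.1 hk)), mul_zero]

theorem isUT_det {A : Matrix (Fin n) (Fin n) F} (hA : IsUT A) : A.det = 1 := by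
  rw [Matrix.det_of_upperTriangular]
  · exact Finset.prod_eq_one (fun i _ => hA.1 i)
  · intro i j hji
    exact hA.2 i j hji

theorem isUT_transvection (i j : Fin n) (hij : i < j) (c : F) :
    IsUT (Matrix.transvection i j c) := by
  constructor
  · intro a
    have h : ¬ (i = a ∧ j = a) := by
      rintro ⟨rfl, rfl⟩
      exact lt_irrefl _ hij
    simp [Matrix.transvection, Matrix.single_apply, h]
  · intro a b hba
    have h : ¬ (i = a ∧ j = b) := by
      rintro ⟨rfl, rfl⟩
      exact lt_asymm hij hba
    simp [Matrix.transvection, Matrix.single_apply, h, Matrix.one_apply_ne (ne_of_lt hba).symm]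

/-- the unitriangular subgroup of `SL_n(F)` -/
def utSub (F : Type*) [Field F] [Fintype F] (n : ℕ) :
    Subgroup (Matrix.SpecialLinearGroup (Fin n) F) where
  carrier := {A | IsUT A.1}
  mul_mem' := by
    intro A B hA hB
    show IsUT (A * B).1
    rw [Matrix.SpecialLinearGroup.coe_mul]
    exact isUT_mul hA hB
  one_mem' := by
    show IsUT (1 : Matrix.SpecialLinearGroup (Fin n) F).1
    rw [Matrix.SpecialLinearGroup.coe_one]
    exact isUT_one
  inv_mem' := by
    intro A hA
    classical
    have hpow : ∀ k : ℕ, IsUT (A ^ k).1 := by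
      intro k
      induction k with
      | zero =>
        rw [pow_zero, Matrix.SpecialLinearGroup.coe_one]
        exact isUT_one
      | succ k ih =>
        rw [pow_succ, Matrix.SpecialLinearGroup.coe_mul]
        exact isUT_mul ih hA
    have h1 : A⁻¹ = A ^ (orderOf A - 1) := by
      apply inv_eq_of_mul_eq_one_right
      rw [← pow_succ', Nat.sub_add_cancel (orderOf_pos A), pow_orderOf_eq_one]
    show IsUT (A⁻¹).1
    rw [h1]
    exact hpow _

theorem mem_utSub [Fintype F] (A : Matrix.SpecialLinearGroup (Fin n) F) :
    A ∈ utSub F n ↔ IsUT A.1 := Iff.rfl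

/-- index type of the strictly upper entries -/
abbrev UPair (n : ℕ) := {p : Fin n × Fin n // p.1 < p.2}

/-- the unitriangular matrix with given strictly upper entries -/
def utMat (f : UPair n → F) : Matrix (Fin n) (Fin n) F :=
  Matrix.of fun i j => if i = j then 1 else if h : i < j then f ⟨(i, j), h⟩ else 0

theorem isUT_utMat (f : UPair n → F) : IsUT (utMat f) := by
  constructor
  · intro i
    simp [utMat]
  · intro i j hji
    have h1 : i ≠ j := (ne_of_lt hji).symm
    have h2 : ¬ i < j := not_lt.2 hji.le
    simp [utMat, h1, h2]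

/-- unitriangular matrices correspond to their strictly upper entries -/
def utEquiv [Fintype F] : ↥(utSub F n) ≃ (UPair n → F) where
  toFun A := fun p => A.1.1 p.1.1 p.1.2
  invFun f := ⟨⟨utMat f, isUT_det (isUT_utMat f)⟩, isUT_utMat f⟩
  left_inv A := by
    have hA : IsUT A.1.1 := (mem_utSub A.1).1 A.2
    apply Subtype.ext
    apply Subtype.ext
    ext i j
    change utMat (fun p : UPair n => A.1.1 p.1.1 p.1.2) i j = A.1.1 i j
    rcases lt_trichotomy i j with h | h | h
    · simp [utMat, ne_of_lt h, h]
    · subst h
      simp [utMat, hA.1 i]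
    · simp [utMat, (ne_of_lt h).symm, not_lt.2 h.le, hA.2 i j h]
  right_inv f := by
    funext p
    show utMat f p.1.1 p.1.2 = f p
    simp [utMat, ne_of_lt p.2, p.2]

theorem card_UPair (n : ℕ) : Fintype.card (UPair n) = ∑ j : Fin n, (j : ℕ) := by
  classical
  rw [Fintype.card_subtype, Finset.card_filter, Fintype.sum_prod_type_right]
  apply Finset.sum_congr rfl
  intro j _
  rw [← Finset.card_filter, Finset.filter_gt_eq_Iio, Fin.card_Iio]

theorem card_GL_fact [Fintype F] (q : ℕ) (hF : Fintype.card F = q) (n : ℕ) :
    Nat.card (GL (Fin n) F) =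
      q ^ (∑ j : Fin n, (j : ℕ)) * ∏ i : Fin n, (q ^ (n - (i : ℕ)) - 1) := by
  rw [Matrix.card_GL_field, hF]
  have h1 : ∀ i : Fin n, q ^ n - q ^ (i : ℕ) = q ^ (i : ℕ) * (q ^ (n - (i : ℕ)) - 1) := by
    intro i
    rw [Nat.mul_sub, mul_one, ← pow_add, Nat.add_sub_cancel' i.2.le]
  simp_rw [h1]
  rw [Finset.prod_mul_distrib, Finset.prod_pow_eq_pow_sum]

theorem utSub_card [Fintype F] (n : ℕ) :
    Nat.card (utSub F n) = Fintype.card F ^ (∑ j : Fin n, (j : ℕ)) := by
  classical
  rw [Nat.card_congr utEquiv, Nat.card_eq_fintype_card, Fintype.card_fun, card_UPair]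

theorem utSub_index_odd [Fintype F] [CharP F 2] (n : ℕ) : Odd (utSub F n).index := by
  classical
  obtain ⟨f, hp, hq⟩ := FiniteField.card F 2
  have hinj : Function.Injective
      (Matrix.SpecialLinearGroup.toGL : Matrix.SpecialLinearGroup (Fin n) F →* GL (Fin n) F) :=
    Matrix.SpecialLinearGroup.toGL_injective
  have h1 := Subgroup.index_map_of_injective (utSub F n) hinj
  have h2 := ((utSub F n).map Matrix.SpecialLinearGroup.toGL).card_mul_index
  have h3 : Nat.card ((utSub F n).map Matrix.SpecialLinearGroup.toGL) = Nat.card (utSub F n) :=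
    Subgroup.card_map_of_injective hinj
  rw [h3, utSub_card, card_GL_fact (Fintype.card F) rfl n] at h2
  have hqpos : 0 < Fintype.card F ^ (∑ j : Fin n, (j : ℕ)) :=
    Nat.pow_pos Fintype.card_pos
  have h4 := Nat.eq_of_mul_eq_mul_left hqpos h2
  have heven : ∀ k : ℕ, 1 ≤ k → Even (Fintype.card F ^ k) := by
    intro k hk
    rw [hq, ← pow_mul]
    exact (Nat.even_pow.2 ⟨even_two, by
      have hf : 0 < (f : ℕ) := f.pos
      exact (Nat.mul_pos hf hk).ne'⟩)
  have hodd : Odd (∏ i : Fin n, (Fintype.card F ^ (n - (i : ℕ)) - 1)) := by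
    apply Finset.prod_induction _ Odd (fun a b ha hb => ha.mul hb) odd_one
    intro i _
    have hi := i.2
    have hk : 1 ≤ n - (i : ℕ) := by omega
    exact Nat.Even.sub_odd (Nat.one_le_pow _ _ Fintype.card_pos) (heven _ hk) odd_one
  rw [← h4, h1] at hodd
  exact (Nat.odd_mul.1 hodd).1

theorem utSub_isPGroup [Fintype F] [CharP F 2] (n : ℕ) : IsPGroup 2 (utSub F n) := by
  obtain ⟨f, hp, hq⟩ := FiniteField.card F 2
  apply IsPGroup.of_card (n := (f : ℕ) * ∑ j : Fin n, (j : ℕ))
  rw [utSub_card, hq, pow_mul]

/-- the upper transvections in `SL_n(F)` -/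
def utGen (F : Type*) [Field F] (n : ℕ) : Set (Matrix.SpecialLinearGroup (Fin n) F) :=
  {g | ∃ (i j : Fin n) (c : F), i < j ∧ g.1 = Matrix.transvection i j c}

theorem utGen_sq [CharP F 2] (s : Matrix.SpecialLinearGroup (Fin n) F) (hs : s ∈ utGen F n) :
    s ^ 2 = 1 := by
  obtain ⟨i, j, c, hij, hs⟩ := hs
  apply Subtype.ext
  rw [pow_two, Matrix.SpecialLinearGroup.coe_mul, Matrix.SpecialLinearGroup.coe_one, hs,
    Matrix.transvection_mul_transvection_same _ _ (ne_of_lt hij), CharTwo.add_self_eq_zero,
    Matrix.transvection_zero]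

/-- unitriangular matrices are products of upper transvections -/
theorem ut_mem_closure (k : ℕ) : ∀ (m : ℕ) (A : Matrix.SpecialLinearGroup (Fin n) F),
    IsUT A.1 →
    (∀ i j : Fin n, i < j → (k < j.val ∨ (j.val = k ∧ m ≤ i.val)) → A.1 i j = 0) →
    A ∈ Subgroup.closure (utGen F n) := by
  induction k with
  | zero =>
    intro m A hA hZ
    have h1 : A = 1 := by
      apply Subtype.ext
      rw [Matrix.SpecialLinearGroup.coe_one]
      ext i j
      rcases lt_trichotomy i j with h | h | h
      · rw [Matrix.one_apply_ne (ne_of_lt h)]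
        apply hZ i j h
        left
        have h2 : i.val < j.val := h
        omega
      · subst h
        rw [Matrix.one_apply_eq, hA.1]
      · rw [Matrix.one_apply_ne (ne_of_lt h).symm, hA.2 i j h]
    rw [h1]
    exact one_mem _
  | succ k ih =>
    intro m
    induction m with
    | zero =>
      intro A hA hZ
      apply ih k A hA
      intro i j hij h
      apply hZ i j hij
      rcases h with h | ⟨h1, h2⟩
      · by_cases h3 : j.val = k + 1
        · right
          exact ⟨h3, Nat.zero_le _⟩
        · left
          omega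
      · exfalso
        have h3 : i.val < j.val := hij
        omega
    | succ m ihm =>
      intro A hA hZ
      by_cases hv : k + 1 < n ∧ m < k + 1
      · obtain ⟨hk, hm⟩ := hv
        obtain ⟨i₀, hi₀⟩ : ∃ i₀ : Fin n, i₀.val = m := ⟨⟨m, by omega⟩, rfl⟩
        obtain ⟨j₀, hj₀⟩ : ∃ j₀ : Fin n, j₀.val = k + 1 := ⟨⟨k + 1, hk⟩, rfl⟩
        have hij₀ : i₀ < j₀ := by
          show i₀.val < j₀.val
          omega
        have hne : i₀ ≠ j₀ := ne_of_lt hij₀
        obtain ⟨T, hT⟩ : ∃ T : F → Matrix.SpecialLinearGroup (Fin n) F,
            ∀ c, (T c).1 = Matrix.transvection i₀ j₀ c :=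
          ⟨fun c => ⟨Matrix.transvection i₀ j₀ c, Matrix.det_transvection_of_ne _ _ hne c⟩,
            fun _ => rfl⟩
        have hTT : ∀ c, T c * T (-c) = 1 := by
          intro c
          apply Subtype.ext
          rw [Matrix.SpecialLinearGroup.coe_mul, Matrix.SpecialLinearGroup.coe_one, hT, hT,
            Matrix.transvection_mul_transvection_same _ _ hne, add_neg_cancel,
            Matrix.transvection_zero]
        have hrow : ∀ j : Fin n, A.1 j₀ j = if j = j₀ then 1 else 0 := by
          intro j
          rcases lt_trichotomy j j₀ with h | h | h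
          · rw [if_neg (ne_of_lt h), hA.2 j₀ j h]
          · subst h
            rw [if_pos rfl, hA.1]
          · rw [if_neg (ne_of_lt h).symm]
            apply hZ j₀ j h
            left
            have h2 : j₀.val < j.val := h
            omega
        have hA' : T (-(A.1 i₀ j₀)) * A ∈ Subgroup.closure (utGen F n) := by
          apply ihm
          · rw [Matrix.SpecialLinearGroup.coe_mul, hT]
            exact isUT_mul (isUT_transvection i₀ j₀ hij₀ _) hA
          · intro i j hij h
            rw [Matrix.SpecialLinearGroup.coe_mul, hT]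
            by_cases hi : i = i₀
            · subst hi
              rw [Matrix.transvection_mul_apply_same, hrow]
              by_cases hj : j = j₀
              · subst hj
                rw [if_pos rfl]
                ring
              · rw [if_neg hj, mul_zero, add_zero]
                apply hZ i j hij
                rcases h with h | ⟨h1, h2⟩
                · left
                  exact h
                · exfalso
                  apply hj
                  apply Fin.ext
                  omega
            · rw [Matrix.transvection_mul_apply_of_ne _ _ _ _ hi]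
              apply hZ i j hij
              rcases h with h | ⟨h1, h2⟩
              · left
                exact h
              · right
                refine ⟨h1, ?_⟩
                have h3 : i.val ≠ m := fun h3 => hi (Fin.ext (by omega))
                omega
        have hAeq : A = T (A.1 i₀ j₀) * (T (-(A.1 i₀ j₀)) * A) := by
          rw [← mul_assoc, hTT, one_mul]
        rw [hAeq]
        exact mul_mem (Subgroup.subset_closure ⟨i₀, j₀, _, hij₀, hT _⟩) hA'
      · apply ihm A hA
        intro i j hij h
        apply hZ i j hij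
        rcases h with h | ⟨h1, h2⟩
        · left
          exact h
        · right
          refine ⟨h1, ?_⟩
          have h3 : i.val < j.val := hij
          have h4 := j.2
          by_contra h5
          apply hv
          constructor <;> omega

theorem utSub_eq_closure [Fintype F] (n : ℕ) :
    utSub F n = Subgroup.closure (utGen F n) := by
  apply le_antisymm
  · intro A hA
    apply ut_mem_closure n 0 A ((mem_utSub A).1 hA)
    intro i j _ h
    exfalso
    have h4 := j.2
    rcases h with h | ⟨h1, _⟩ <;> omega
  · rw [Subgroup.closure_le]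
    rintro g ⟨i, j, c, hij, hg⟩
    show IsUT g.1
    rw [hg]
    exact isUT_transvection i j hij c

theorem goodSyl2_SL [Fintype F] [CharP F 2] (n : ℕ) :
    GoodSyl2 (Matrix.SpecialLinearGroup (Fin n) F) := by
  refine ⟨utSub F n, utSub_isPGroup n, utSub_index_odd n, ?_⟩
  apply sq_mem_commutator_of_closure (utSub F n) (utGen F n) (utSub_eq_closure n)
  intro s hs
  rw [utGen_sq s hs]
  exact one_mem _

end Cfsg.Agent.Helper91.GSSL
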