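import Cfsg.Agent.Helper17.GoodSyl
import Cfsg.Agent.Helper91.GSSLLib

set_option autoImplicit false

namespace Cfsg.Agent.Helper91

open Cfsg Cfsg.Agent.Helper17

/-- PIECE SL -/
theorem goodSyl2_PSL (F : Type) [Field F] [Fintype F] [CharP F 2] (n : ℕ) (hn : 2 ≤ n) :
    GoodSyl2 (Matrix.ProjectiveSpecialLinearGroup (Fin n) F) :=
  (GSSL.goodSyl2_SL (F := F) n).of_surjective (QuotientGroup.mk' _) (QuotientGroup.mk'_surjective _)

end Cfsg.Agent.Helper91
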