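import Mathlib
import Cfsg.Agent.Helper50.HigDefs

set_option autoImplicit false

namespace Cfsg.Agent.Helper91.HigGI

open Cfsg.Agent.Helper5 Cfsg.Agent.Helper50.Hig

/-- PIECE GI (S3050) -/
theorem secCl_bot_eq_zero {G : Type*} [Group G] (A : Subgroup G)
    (hc : ∀ a ∈ A, ∀ b ∈ A, a * b = b * a) (a : ↥A) (h : secCl A ⊥ a = 0) : a = 1 := by
  have h1 : Abelianization.of (QuotientGroup.mk a : ↥A ⧸ (⊥ : Subgroup G).subgroupOf A) = 1 := h
  have h2 : (QuotientGroup.mk a : ↥A ⧸ (⊥ : Subgroup G).subgroupOf A) ∈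
      commutator (↥A ⧸ (⊥ : Subgroup G).subgroupOf A) := by
    rw [← Abelianization.ker_of]
    exact h1
  have h3 : commutator (↥A ⧸ (⊥ : Subgroup G).subgroupOf A) = ⊥ := by
    rw [commutator_def, eq_bot_iff, Subgroup.commutator_le]
    intro x _ y _
    obtain ⟨x', rfl⟩ := QuotientGroup.mk_surjective x
    obtain ⟨y', rfl⟩ := QuotientGroup.mk_surjective y
    have hxy : x' * y' = y' * x' := Subtype.ext (hc x'.1 x'.2 y'.1 y'.2)
    rw [Subgroup.mem_bot, commutatorElement_def, ← QuotientGroup.mk_mul, ← QuotientGroup.mk_inv,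
      ← QuotientGroup.mk_mul, ← QuotientGroup.mk_inv, ← QuotientGroup.mk_mul, hxy]
    have : y' * x' * x'⁻¹ * y'⁻¹ = 1 := by group
    rw [this]
    rfl
  rw [h3, Subgroup.mem_bot, QuotientGroup.eq_one_iff, Subgroup.mem_subgroupOf,
    Subgroup.mem_bot] at h2
  exact Subtype.ext h2

end Cfsg.Agent.Helper91.HigGI
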