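import Mathlib
import Cfsg.Agent.Helper50.HigDefs

set_option autoImplicit false

namespace Cfsg.Agent.Helper91.HigGP

open Cfsg.Agent.Helper5 Cfsg.Agent.Helper50.Hig

/-- PIECE GP (S3050) -/
theorem secMod_two_pow {G : Type*} [Group G] [Finite G] (A B : Subgroup G) [hB : B.Normal]
    (hA2 : IsPGroup 2 ↥A) : ∃ k : ℕ, (2 : AddMonoid.End (SecMod A B)) ^ k = 0 := by
  haveI : Fact (Nat.Prime 2) := ⟨Nat.prime_two⟩
  obtain ⟨k, hk⟩ := IsPGroup.iff_card.1 hA2
  refine ⟨k, ?_⟩
  ext v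
  obtain ⟨a, rfl⟩ := secCl_surjective A B v
  have hpow : ∀ n : ℕ, secCl A B (a ^ n) = n • secCl A B a := by
    intro n
    induction n with
    | zero => rw [pow_zero, secCl_one, zero_smul]
    | succ n ih => rw [pow_succ, secCl_mul, ih, succ_nsmul]
  have h2k : ((2 : AddMonoid.End (SecMod A B)) ^ k) (secCl A B a) = (2 ^ k) • secCl A B a := by
    have : (2 : AddMonoid.End (SecMod A B)) ^ k = ((2 ^ k : ℕ) : AddMonoid.End (SecMod A B)) := by
      push_cast
      rfl
    rw [this, AddMonoid.End.natCast_apply]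
  rw [h2k, ← hpow, ← hk, pow_card_eq_one', secCl_one]
  rfl

end Cfsg.Agent.Helper91.HigGP
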