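import Cfsg.Agent.Helper63.N14Defs

set_option autoImplicit false

namespace Cfsg.Agent.Helper91.N14

open Cfsg.Agent.Helper63.N14

/-- A4. `[A, Q] = A` for `Q` of prime order `q` and `A` abelian normal: nontrivial elements of
`Q` have no fixed points on `A`. -/
theorem cent_trivial {S : Type*} [Group S] [Finite S] (q : ℕ) (hq : q.Prime) (A Q : Subgroup S)
    (hAN : A.Normal) (hAab : ∀ a ∈ A, ∀ b ∈ A, a * b = b * a) (hcop : (Nat.card A).Coprime q)
    (hQ : Nat.card Q = q) (hcomm : ⁅A, Q⁆ = A) :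
    ∀ g ∈ Q, g ≠ 1 → ∀ a ∈ A, g * a = a * g → a = 1 := by
  intro g hg hg1 a ha hga
  -- `Q` is generated by `g`
  have hzQ : Subgroup.zpowers g = Q := by
    have hle : Subgroup.zpowers g ≤ Q := by
      rw [Subgroup.zpowers_le]
      exact hg
    apply Subgroup.eq_of_le_of_card_ge hle
    have h1 : Nat.card (Subgroup.zpowers g) ∣ q := by
      rw [← hQ]
      exact Subgroup.card_dvd_of_le hle
    rcases (Nat.dvd_prime hq).1 h1 with h2 | h2
    · exfalso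
      rw [Nat.card_zpowers] at h2
      exact hg1 (orderOf_eq_one_iff.1 h2)
    · rw [hQ, h2]
  have hQg : ∀ x ∈ Q, ∃ j : ℕ, g ^ j = x := by
    intro x hx
    rw [← hzQ] at hx
    exact (Submonoid.mem_powers_iff x g).1 (mem_powers_iff_mem_zpowers.2 hx)
  -- the commutator map
  let φ : ↥A →* ↥A :=
    { toFun := fun b => ⟨g * b * g⁻¹ * (b : S)⁻¹, A.mul_mem (hAN.conj_mem b b.2 g) (A.inv_mem b.2)⟩
      map_one' := by
        apply Subtype.ext
        simp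
      map_mul' := by
        intro b c
        apply Subtype.ext
        have h1 : (g * c * g⁻¹ * (c : S)⁻¹) * (b : S)⁻¹ = (b : S)⁻¹ * (g * c * g⁻¹ * (c : S)⁻¹) :=
          hAab _ (A.mul_mem (hAN.conj_mem c c.2 g) (A.inv_mem c.2)) _ (A.inv_mem b.2)
        show g * ((b : S) * (c : S)) * g⁻¹ * ((b : S) * (c : S))⁻¹ =
          (g * b * g⁻¹ * (b : S)⁻¹) * (g * c * g⁻¹ * (c : S)⁻¹)
        calc g * ((b : S) * (c : S)) * g⁻¹ * ((b : S) * (c : S))⁻¹
            = g * b * g⁻¹ * ((g * c * g⁻¹ * (c : S)⁻¹) * (b : S)⁻¹) := by group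
          _ = g * b * g⁻¹ * ((b : S)⁻¹ * (g * c * g⁻¹ * (c : S)⁻¹)) := by rw [h1]
          _ = (g * b * g⁻¹ * (b : S)⁻¹) * (g * c * g⁻¹ * (c : S)⁻¹) := by group }
  have hφ : ∀ b : ↥A, ((φ b : ↥A) : S) = g * b * g⁻¹ * (b : S)⁻¹ := fun b => rfl
  -- the image contains all `⁅g ^ j, b⁆`
  have hP : ∀ j : ℕ, ∀ b ∈ A, g ^ j * b * (g ^ j)⁻¹ * b⁻¹ ∈ (φ.range).map A.subtype := by
    intro j
    induction j with
    | zero =>
      intro b _
      have : g ^ 0 * b * (g ^ 0)⁻¹ * b⁻¹ = 1 := by group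
      rw [this]
      exact Subgroup.one_mem _
    | succ j ih =>
      intro b hb
      have e : g ^ (j + 1) * b * (g ^ (j + 1))⁻¹ * b⁻¹ =
          (g ^ j * (g * b * g⁻¹) * (g ^ j)⁻¹ * (g * b * g⁻¹)⁻¹) * (g * b * g⁻¹ * b⁻¹) := by
        rw [pow_succ]
        group
      rw [e]
      refine Subgroup.mul_mem _ (ih _ (hAN.conj_mem b hb g)) ?_
      exact ⟨φ ⟨b, hb⟩, ⟨⟨b, hb⟩, rfl⟩, rfl⟩
  have hle : A ≤ (φ.range).map A.subtype := by
    have h3 : ⁅A, Q⁆ ≤ (φ.range).map A.subtype := by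
      rw [Subgroup.commutator_le]
      intro b hb x hx
      obtain ⟨j, rfl⟩ := hQg x hx
      have e : b * g ^ j * b⁻¹ * (g ^ j)⁻¹ = (g ^ j * b * (g ^ j)⁻¹ * b⁻¹)⁻¹ := by group
      show b * g ^ j * b⁻¹ * (g ^ j)⁻¹ ∈ _
      rw [e]
      exact Subgroup.inv_mem _ (hP j b hb)
    exact hcomm.ge.trans h3
  have hsurj : Function.Surjective φ := by
    intro b
    obtain ⟨y, ⟨c, hc⟩, hy⟩ := hle b.2
    refine ⟨c, ?_⟩
    rw [hc]
    exact Subtype.ext hy
  have hinj : Function.Injective φ := Finite.injective_iff_surjective.2 hsurj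
  have h1 : φ ⟨a, ha⟩ = φ 1 := by
    rw [map_one]
    apply Subtype.ext
    rw [hφ]
    show g * a * g⁻¹ * a⁻¹ = 1
    rw [hga]
    group
  exact congrArg Subtype.val (hinj h1)

end Cfsg.Agent.Helper91.N14
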