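import Cfsg.Agent.Helper63.N14Defs

set_option autoImplicit false

namespace Cfsg.Agent.Helper91.N14

open Cfsg.Agent.Helper63.N14

/-- D2a. Commutators of elements normalizing `K` centralize `A / K` (cyclic of order `p`). -/
theorem cent_quot_comm {S : Type*} [Group S] [Finite S] (p : ℕ) (hp : p.Prime)
    (A : Subgroup S) (hAN : A.Normal) (hAab : ∀ a ∈ A, ∀ b ∈ A, a * b = b * a)
    (K : Subgroup S) (hK : IsHyp A p K)
    (x t : S) (hx : ∀ k ∈ K, x * k * x⁻¹ ∈ K) (ht : ∀ k ∈ K, t * k * t⁻¹ ∈ K) :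
    ∀ a ∈ A, (x * t * x⁻¹ * t⁻¹) * a * (x * t * x⁻¹ * t⁻¹)⁻¹ * a⁻¹ ∈ K := by
  haveI hAc : IsMulCommutative A := ⟨⟨fun a b => Subtype.ext (hAab a a.2 b b.2)⟩⟩
  haveI hpf : Fact p.Prime := ⟨hp⟩
  haveI hNn : (K.subgroupOf A).Normal := inferInstance
  -- the quotient `A / K` has order `p`
  have hcardN : Nat.card (K.subgroupOf A) = Nat.card K :=
    Nat.card_congr (Subgroup.subgroupOfEquivOfLe hK.1).toEquiv
  have hcardQ : Nat.card (↥A ⧸ K.subgroupOf A) = p := by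
    have h1 := Subgroup.card_eq_card_quotient_mul_card_subgroup (K.subgroupOf A)
    rw [hcardN, ← hK.2] at h1
    have hKpos : 0 < Nat.card K := Nat.card_pos
    have h2 : Nat.card K * p = Nat.card K * Nat.card (↥A ⧸ K.subgroupOf A) := by
      rw [h1, mul_comm]
    exact (Nat.eq_of_mul_eq_mul_left hKpos h2).symm
  haveI hcyc : IsCyclic (↥A ⧸ K.subgroupOf A) := isCyclic_of_prime_card hcardQ
  -- conjugation on `A`
  have hconj : ∀ h : S, (∀ k ∈ K, h * k * h⁻¹ ∈ K) →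
      ∃ m : ℤ, ∀ a : ↥A, ∃ b : ↥A, (b : S) = h * a * h⁻¹ ∧
        (QuotientGroup.mk b : ↥A ⧸ K.subgroupOf A) = (QuotientGroup.mk a) ^ m := by
    intro h hh
    let c : ↥A →* ↥A :=
      { toFun := fun a => ⟨h * a * h⁻¹, hAN.conj_mem a a.2 h⟩
        map_one' := by
          apply Subtype.ext
          simp
        map_mul' := by
          intro a b
          apply Subtype.ext
          show h * ((a : S) * (b : S)) * h⁻¹ = (h * a * h⁻¹) * (h * b * h⁻¹)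
          group }
    have hle : K.subgroupOf A ≤ (K.subgroupOf A).comap c := by
      intro a ha
      rw [Subgroup.mem_comap, Subgroup.mem_subgroupOf]
      rw [Subgroup.mem_subgroupOf] at ha
      exact hh a ha
    obtain ⟨m, hm⟩ := (QuotientGroup.map (K.subgroupOf A) (K.subgroupOf A) c hle).map_cyclic
    refine ⟨m, fun a => ⟨c a, rfl, ?_⟩⟩
    rw [← hm, QuotientGroup.map_mk]
  obtain ⟨m, hm⟩ := hconj x hx
  obtain ⟨n, hn⟩ := hconj t ht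
  -- the two conjugations commute modulo `K`
  have hkey : ∀ b ∈ A, (x * (t * b * t⁻¹) * x⁻¹)⁻¹ * (t * (x * b * x⁻¹) * t⁻¹) ∈ K := by
    intro b hb
    obtain ⟨b1, hb1, hb1'⟩ := hn ⟨b, hb⟩
    obtain ⟨b2, hb2, hb2'⟩ := hm b1
    obtain ⟨b3, hb3, hb3'⟩ := hm ⟨b, hb⟩
    obtain ⟨b4, hb4, hb4'⟩ := hn b3
    have e : (QuotientGroup.mk b2 : ↥A ⧸ K.subgroupOf A) = QuotientGroup.mk b4 := by
      rw [hb2', hb1', hb4', hb3', ← zpow_mul, ← zpow_mul, mul_comm]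
    rw [QuotientGroup.eq, Subgroup.mem_subgroupOf] at e
    have e2 : ((b2⁻¹ * b4 : ↥A) : S) = (x * (t * b * t⁻¹) * x⁻¹)⁻¹ * (t * (x * b * x⁻¹) * t⁻¹) := by
      rw [Subgroup.coe_mul, Subgroup.coe_inv, hb2, hb4, hb1, hb3]
    rw [← e2]
    exact e
  intro a ha
  have hb : (t * x)⁻¹ * a * ((t * x)⁻¹)⁻¹ ∈ A := hAN.conj_mem a ha _
  have h1 := hkey _ hb
  have e1 : t * (x * ((t * x)⁻¹ * a * ((t * x)⁻¹)⁻¹) * x⁻¹) * t⁻¹ = a := by group
  have e2 : x * (t * ((t * x)⁻¹ * a * ((t * x)⁻¹)⁻¹) * t⁻¹) * x⁻¹ =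
      (x * t * x⁻¹ * t⁻¹) * a * (x * t * x⁻¹ * t⁻¹)⁻¹ := by group
  rw [e1, e2] at h1
  have hca : (x * t * x⁻¹ * t⁻¹) * a * (x * t * x⁻¹ * t⁻¹)⁻¹ ∈ A := hAN.conj_mem a ha _
  have e3 : (x * t * x⁻¹ * t⁻¹) * a * (x * t * x⁻¹ * t⁻¹)⁻¹ * a⁻¹ =
      (((x * t * x⁻¹ * t⁻¹) * a * (x * t * x⁻¹ * t⁻¹)⁻¹)⁻¹ * a)⁻¹ := by
    rw [hAab _ hca _ (A.inv_mem ha)]
    group
  rw [e3]
  exact K.inv_mem h1

end Cfsg.Agent.Helper91.N14
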