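import Cfsg.Prelude.Def_Transfer
import Cfsg.Prelude.Def_Solvable
import Cfsg.Agent.Helper63.N15Defs

/-!
# helper91: small library on `IsZ` for the S4415 pieces (c4c, c6, c8)
-/

set_option autoImplicit false

namespace Cfsg.Agent.Helper91.N15Z

open Cfsg.Agent.Helper63.N15

variable {G : Type*} [Group G] [Finite G] {V : Type*} [AddCommGroup V] [Module (ZMod 3) V]
  [Finite V] {ρ : Representation (ZMod 3) G V} {R : Subgroup G} {b q₁ q₂ q₃ : G} {v₁ v₂ v₃ : V}

theorem faith' (c : Cfg ρ R b q₁ q₂ q₃ v₁ v₂ v₃) {x y : G} (h : ∀ v, ρ x v = ρ y v) : x = y := by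
  have h1 : y⁻¹ * x = 1 := by
    apply c.faith
    intro v
    rw [map_mul, Module.End.mul_apply, h v, ← Module.End.mul_apply, ← map_mul, inv_mul_cancel,
      map_one, Module.End.one_apply]
  exact (inv_mul_eq_one.1 h1).symm

theorem isZ_comm (c : Cfg ρ R b q₁ q₂ q₃ v₁ v₂ v₃) {z : G} (hz : IsZ ρ z) (g : G) :
    z * g = g * z := by
  rcases hz with rfl | hz
  · simp
  · apply faith' c
    intro v
    rw [map_mul, map_mul, Module.End.mul_apply, Module.End.mul_apply, hz, hz, map_neg]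

theorem isZ_mul (c : Cfg ρ R b q₁ q₂ q₃ v₁ v₂ v₃) {z z' : G} (hz : IsZ ρ z) (hz' : IsZ ρ z') :
    IsZ ρ (z * z') := by
  rcases hz with rfl | hz
  · rw [one_mul]; exact hz'
  · rcases hz' with rfl | hz'
    · rw [mul_one]; exact Or.inr hz
    · left
      apply c.faith
      intro v
      rw [map_mul, Module.End.mul_apply, hz', hz, neg_neg]

theorem isZ_inv (c : Cfg ρ R b q₁ q₂ q₃ v₁ v₂ v₃) {z : G} (hz : IsZ ρ z) : IsZ ρ z⁻¹ := by
  rcases hz with rfl | hz
  · left; simp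
  · right
    intro v
    have h1 : ρ z (ρ z⁻¹ v) = v := by
      rw [← Module.End.mul_apply, ← map_mul, mul_inv_cancel, map_one, Module.End.one_apply]
    rw [hz] at h1
    exact neg_eq_iff_eq_neg.1 h1

theorem isZ_sq (c : Cfg ρ R b q₁ q₂ q₃ v₁ v₂ v₃) {z : G} (hz : IsZ ρ z) : z * z = 1 := by
  rcases hz with rfl | hz
  · simp
  · apply c.faith
    intro v
    rw [map_mul, Module.End.mul_apply, hz, hz, neg_neg]

theorem isZ_conj (c : Cfg ρ R b q₁ q₂ q₃ v₁ v₂ v₃) {z : G} (hz : IsZ ρ z) (g : G) :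
    g * z * g⁻¹ = z := by
  rw [← isZ_comm c hz g, mul_inv_cancel_right]

/-- in a `ZMod 3`-module, `v = -v` forces `v = 0` -/
theorem eq_zero_of_eq_neg {v : V} (h : v = -v) : v = 0 := by
  have h2 : (2 : ZMod 3) • v = 0 := by
    rw [two_smul]
    nth_rewrite 2 [h]
    exact add_neg_cancel v
  have h3 : v = ((2 : ZMod 3) * 2) • v := by
    rw [show ((2 : ZMod 3) * 2) = 1 from by decide, one_smul]
  rw [mul_smul, h2, smul_zero] at h3
  exact h3

end Cfsg.Agent.Helper91.N15Z
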