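import Cfsg.Prelude.Def_Transfer
import Cfsg.Prelude.Def_Solvable
import Cfsg.Agent.Helper63.N15Defs
import Cfsg.Agent.Helper91.N15Z

/-!
# CALL S4415 piece c4c (helper91)
-/

set_option autoImplicit false

namespace Cfsg.Agent.Helper91.N15

open Cfsg.Agent.Helper63.N15

variable {G : Type*} [Group G] [Finite G] {V : Type*} [AddCommGroup V] [Module (ZMod 3) V]
  [Finite V] {ρ : Representation (ZMod 3) G V} {R : Subgroup G} {b q₁ q₂ q₃ : G} {v₁ v₂ v₃ : V}

/-- C4c. `|V| = 81` in case (C).  Pick `t ∈ T` with `t b ≠ b t`; `x = t b t⁻¹ b⁻¹ ∈ T` is not in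
`Z` (`x = 1` is excluded; if `ρ x = -1` then `x` is central and `(t b t⁻¹)³ = x³ b³ = x ≠ 1`).
By `ZProps`, `x² = 1` or `ρ (x²) = -1` (then `h4a`).  If `x² = 1`: with `u = b t b⁻¹`,
`u' = b u b⁻¹` we have `x = t u⁻¹`, `b x b⁻¹ = u u'⁻¹`, `b² x b⁻² = u' t⁻¹`, so
`x (b x b⁻¹) (b² x b⁻²) = 1`; all three are involutions, hence `x (b x b⁻¹) = b² x b⁻²` and they
commute.  `x` is not central in `T` (`ZProps`), so some `s ∈ T` has `s x s⁻¹ x⁻¹` acting as
`-1`; apply `h4b`. -/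
theorem c4c (c : Cfg ρ R b q₁ q₂ q₃ v₁ v₂ v₃) (htp : TProps R (T2 R))
    (hz : ZProps ρ (T2 R)) (hnc : ¬ ∀ t ∈ T2 R, t * b = b * t)
    (h4a : ∀ t : G, (∀ v : V, ρ ((t * b * t⁻¹ * b⁻¹) * (t * b * t⁻¹ * b⁻¹)) v = -v) →
      Nat.card V = 81)
    (h4b : ∀ x s : G, x * x = 1 → x * (b * x * b⁻¹) = b * b * x * b⁻¹ * b⁻¹ →
      x * (b * x * b⁻¹) = (b * x * b⁻¹) * x → (∀ v : V, ρ (s * x * s⁻¹) v = - ρ x v) →
      Nat.card V = 81) :
    Nat.card V = 81 := by
  have hnc' : ∃ t ∈ T2 R, t * b ≠ b * t := by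
    by_contra hcon
    apply hnc
    intro t ht
    by_contra h
    exact hcon ⟨t, ht, h⟩
  obtain ⟨t, ht, htb⟩ := hnc'
  obtain ⟨x, hxdef⟩ : ∃ x : G, x = t * b * t⁻¹ * b⁻¹ := ⟨_, rfl⟩
  have hTn : (T2 R).Normal := htp.1
  have hxT : x ∈ T2 R := by
    have e : x = t * (b * t⁻¹ * b⁻¹) := by rw [hxdef]; group
    rw [e]
    exact (T2 R).mul_mem ht (hTn.conj_mem t⁻¹ ((T2 R).inv_mem ht) b)
  have hx1 : x ≠ 1 := by
    intro h
    apply htb
    have e : t * b = x * (b * t) := by rw [hxdef]; group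
    rw [e, h, one_mul]
  have hxnZ : ¬ IsZ ρ x := by
    intro hxz
    have hxc := N15Z.isZ_comm c hxz b
    have hxx := N15Z.isZ_sq c hxz
    have e1 : x * b = t * b * t⁻¹ := by rw [hxdef]; group
    have e2 : (t * b * t⁻¹) ^ 3 = 1 := by
      rw [conj_pow, c.b3]; group
    have e3 : (x * b) ^ 3 = x ^ 3 * b ^ 3 := Commute.mul_pow hxc 3
    have e4 : x ^ 3 = x := by
      rw [pow_succ, pow_two, hxx, one_mul]
    rw [e1, e2, e4, c.b3, mul_one] at e3
    exact hx1 e3.symm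
  have hsq : IsZ ρ (x * x) := hz.1 x hxT
  rcases hsq with hsq | hsq
  · obtain ⟨y, hydef⟩ : ∃ y : G, y = b * x * b⁻¹ := ⟨_, rfl⟩
    obtain ⟨w, hwdef⟩ : ∃ w : G, w = b * b * x * b⁻¹ * b⁻¹ := ⟨_, rfl⟩
    have hxyw : x * y * w = 1 := by
      have hb3 : b * b * b = 1 := by
        have := c.b3
        rw [pow_succ, pow_two] at this
        exact this
      have e : x * y * w = t * (b * b * b) * t⁻¹ * (b * b * b)⁻¹ := by
        rw [hwdef, hydef, hxdef]; group
      rw [e, hb3]; group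
    have hww : w * w = 1 := by
      have e : w * w = b * b * (x * x) * b⁻¹ * b⁻¹ := by rw [hwdef]; group
      rw [e, hsq]; group
    have hyy : y * y = 1 := by
      have e : y * y = b * (x * x) * b⁻¹ := by rw [hydef]; group
      rw [e, hsq]; group
    have hwinv : w⁻¹ = w := inv_eq_of_mul_eq_one_left hww
    have hxinv : x⁻¹ = x := inv_eq_of_mul_eq_one_left hsq
    have hyinv : y⁻¹ = y := inv_eq_of_mul_eq_one_left hyy
    have h1 : x * y = w := by
      have := eq_inv_of_mul_eq_one_left hxyw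
      rw [hwinv] at this
      exact this
    have h2 : x * y = y * x := by
      have h3 : (x * y)⁻¹ = x * y := inv_eq_of_mul_eq_one_left (by rw [h1]; exact hww)
      rw [mul_inv_rev, hyinv, hxinv] at h3
      exact h3.symm
    have hs : ∃ s ∈ T2 R, x * s ≠ s * x := by
      by_contra hcon
      apply hxnZ
      apply hz.2.2 x hxT
      intro s hs
      by_contra h
      exact hcon ⟨s, hs, h⟩
    obtain ⟨s, hs, hsx⟩ := hs
    have hcz : IsZ ρ (s * x * s⁻¹ * x⁻¹) := hz.2.1 s hs x hxT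
    have hcz' : ∀ v : V, ρ (s * x * s⁻¹ * x⁻¹) v = -v := by
      rcases hcz with h | h
      · exfalso
        apply hsx
        have e : x * s = (s * x * s⁻¹ * x⁻¹)⁻¹ * (s * x) := by group
        rw [e, h, inv_one, one_mul]
      · exact h
    have h3 : ∀ v : V, ρ (s * x * s⁻¹) v = - ρ x v := by
      intro v
      have e : s * x * s⁻¹ = (s * x * s⁻¹ * x⁻¹) * x := by group
      rw [e, map_mul, Module.End.mul_apply, hcz']
    rw [hydef] at h1 h2
    rw [hwdef] at h1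
    exact h4b x s hsq h1 h2 h3
  · rw [hxdef] at hsq
    exact h4a t hsq

end Cfsg.Agent.Helper91.N15
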