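import Cfsg.Prelude.Def_Transfer
import Cfsg.Prelude.Def_Solvable
import Cfsg.Agent.Helper63.N15Defs
import Cfsg.Agent.Helper91.N15Z

/-!
# CALL S4415 piece c6 (helper91)
-/

set_option autoImplicit false

namespace Cfsg.Agent.Helper91.N15

open Cfsg.Agent.Helper63.N15

variable {G : Type*} [Group G] [Finite G] {V : Type*} [AddCommGroup V] [Module (ZMod 3) V]
  [Finite V] {ρ : Representation (ZMod 3) G V} {R : Subgroup G} {b q₁ q₂ q₃ : G} {v₁ v₂ v₃ : V}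

/-- C6. `R / T` acts faithfully on `T / Z`.  Proof: `C = C_R(T)` is normal in `G`; if it were not
inside `Z`, `hc2` would give a normal `2`-subgroup `M ≤ C`, `M ⊄ Z`; `M ≤ T` (`TProps`), so `M`
is central in `T`, hence in `Z` (`ZProps`): contradiction.  So `C ⊆ Z ∩ R ⊆ T` (`Z ∩ R` is a
normal `2`-subgroup).  If some `z ∈ T` acts as `-1`, PAIR gives `t₀ ∈ T` with `t₀⁻¹ r ∈ C`, so
`r ∈ T`; otherwise the hypothesis says `r ∈ C`. -/
theorem c6 (c : Cfg ρ R b q₁ q₂ q₃ v₁ v₂ v₃)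
    (hc2 : ∀ N : Subgroup G, N.Normal → N ≤ R → (∃ x ∈ N, ¬ IsZ ρ x) →
      ∃ M : Subgroup G, M.Normal ∧ M ≤ N ∧ IsPGroup 2 M ∧ ∃ x ∈ M, ¬ IsZ ρ x)
    (htp : TProps R (T2 R)) (hz : ZProps ρ (T2 R)) (hpair : PairStmt G) :
    ∀ r ∈ R, (∀ t ∈ T2 R, IsZ ρ (r * t * r⁻¹ * t⁻¹)) → r ∈ T2 R := by
  have hTn : (T2 R).Normal := htp.1
  have hTR : T2 R ≤ R := htp.2.1
  have hRn : R.Normal := c.Rn
  -- the centralizer of `T` in `R`
  have hCn : (R ⊓ Subgroup.centralizer (T2 R : Set G)).Normal :=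
    Subgroup.normal_inf_normal R (Subgroup.centralizer (T2 R : Set G))
  have hCZ : ∀ x ∈ R ⊓ Subgroup.centralizer (T2 R : Set G), IsZ ρ x := by
    by_contra hcon
    have hex : ∃ x ∈ R ⊓ Subgroup.centralizer (T2 R : Set G), ¬ IsZ ρ x := by
      by_contra h
      apply hcon
      intro x hx
      by_contra hx'
      exact h ⟨x, hx, hx'⟩
    obtain ⟨M, hMn, hMC, hM2, x, hxM, hxZ⟩ := hc2 _ hCn inf_le_left hex
    have hMT : M ≤ T2 R := htp.2.2.2 M hMn (hMC.trans inf_le_left) hM2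
    apply hxZ
    apply hz.2.2 x (hMT hxM)
    intro s hs
    have hxC : x ∈ Subgroup.centralizer (T2 R : Set G) := (Subgroup.mem_inf.1 (hMC hxM)).2
    rw [Subgroup.mem_centralizer_iff] at hxC
    exact (hxC s hs).symm
  -- `Z ∩ R` is a normal 2-subgroup
  let ZR : Subgroup G :=
    { carrier := {x | x ∈ R ∧ IsZ ρ x}
      mul_mem' := fun {x y} hx hy => ⟨R.mul_mem hx.1 hy.1, N15Z.isZ_mul c hx.2 hy.2⟩
      one_mem' := ⟨R.one_mem, Or.inl rfl⟩
      inv_mem' := fun {x} hx => ⟨R.inv_mem hx.1, N15Z.isZ_inv c hx.2⟩ }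
  have hZRmem : ∀ x : G, x ∈ ZR ↔ x ∈ R ∧ IsZ ρ x := fun x => Iff.rfl
  have hZRn : ZR.Normal := by
    constructor
    intro x hx g
    rw [hZRmem] at hx ⊢
    rw [N15Z.isZ_conj c hx.2 g]
    exact hx
  have hZR2 : IsPGroup 2 ZR := by
    intro x
    refine ⟨1, ?_⟩
    have hx := (hZRmem _).1 x.2
    apply Subtype.ext
    rw [pow_one, pow_two]
    simp only [Subgroup.coe_mul, Subgroup.coe_one]
    exact N15Z.isZ_sq c hx.2
  have hZRT : ZR ≤ T2 R := htp.2.2.2 ZR hZRn (fun x hx => hx.1) hZR2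
  have hCT : ∀ x ∈ R, (∀ t ∈ T2 R, x * t = t * x) → x ∈ T2 R := by
    intro x hxR hx
    apply hZRT
    rw [hZRmem]
    refine ⟨hxR, hCZ x (Subgroup.mem_inf.2 ⟨hxR, ?_⟩)⟩
    rw [Subgroup.mem_centralizer_iff]
    intro t ht
    exact (hx t ht).symm
  intro r hrR hr
  by_cases hzex : ∃ z ∈ T2 R, ∀ v : V, ρ z v = -v
  · obtain ⟨z, hzT, hzv⟩ := hzex
    have hzZ : IsZ ρ z := Or.inr hzv
    have key : ∀ x : G, IsZ ρ x → x = 1 ∨ x = z := by
      intro x hx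
      rcases hx with hx | hx
      · exact Or.inl hx
      · right
        apply N15Z.faith' c
        intro v
        rw [hx, hzv]
    obtain ⟨t₀, ht₀, hcomm⟩ := hpair (T2 R) z hzT (N15Z.isZ_sq c hzZ)
      (fun t _ => N15Z.isZ_comm c hzZ t)
      (fun t ht => key _ (hz.1 t ht))
      (fun s hs t ht => key _ (hz.2.1 s hs t ht))
      (fun t ht hcen => key _ (hz.2.2 t ht hcen))
      r (fun t ht => key _ (hr t ht))
    have h1 : t₀⁻¹ * r ∈ T2 R :=
      hCT _ (R.mul_mem (R.inv_mem (hTR ht₀)) hrR) hcomm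
    have e : r = t₀ * (t₀⁻¹ * r) := by group
    rw [e]
    exact (T2 R).mul_mem ht₀ h1
  · apply hCT r hrR
    intro t ht
    have hmem : r * t * r⁻¹ * t⁻¹ ∈ T2 R :=
      (T2 R).mul_mem (hTn.conj_mem t ht r) ((T2 R).inv_mem ht)
    rcases hr t ht with h | h
    · have e : r * t = (r * t * r⁻¹ * t⁻¹) * (t * r) := by group
      rw [e, h, one_mul]
    · exact absurd ⟨_, hmem, h⟩ hzex

end Cfsg.Agent.Helper91.N15
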