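import Cfsg.Prelude.Def_Transfer
import Cfsg.Prelude.Def_Solvable
import Cfsg.Agent.Helper63.N15Defs
import Cfsg.Agent.Helper91.N15Z

/-!
# CALL S4415 piece c8 (helper91)
-/

set_option autoImplicit false

namespace Cfsg.Agent.Helper91.N15

open Cfsg.Agent.Helper63.N15

variable {G : Type*} [Group G] [Finite G] {V : Type*} [AddCommGroup V] [Module (ZMod 3) V]
  [Finite V] {ρ : Representation (ZMod 3) G V} {R : Subgroup G} {b q₁ q₂ q₃ : G} {v₁ v₂ v₃ : V}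

/-- C8. If `R = T` then `A = {1, q₁, q₂, q₃} · (Z ∩ R)` is a normal subgroup of exponent `2`
inside `R` (normalized by `b`, and by `r ∈ R ≤ T` since `r q r⁻¹ q⁻¹ ∈ Z ∩ R` by `ZProps`; use
`hfq`), so `b` centralizes it by `hC`; but `b q₁ b⁻¹ = q₂ ≠ q₁` (`ρ q₁ v₁ = v₁`,
`ρ q₂ v₁ = -v₁ ≠ v₁`). -/
theorem c8 (c : Cfg ρ R b q₁ q₂ q₃ v₁ v₂ v₃) (hC : HC R b) (hz : ZProps ρ (T2 R))
    (hRT : R ≤ T2 R) (hfq : ∀ g : G, ∃ r ∈ R, g = r ∨ g = r * b ∨ g = r * (b * b)) :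
    False := by
  have h13 : q₁ * q₃ = q₂ := by rw [← c.q12, ← mul_assoc, c.q11, one_mul]
  have h23 : q₂ * q₃ = q₁ := by rw [← c.q21, ← mul_assoc, c.q22, one_mul]
  have h31 : q₃ * q₁ = q₂ := by rw [← c.q21, mul_assoc, c.q11, mul_one]
  have h32 : q₃ * q₂ = q₁ := by rw [← c.q12, mul_assoc, c.q22, mul_one]
  have hQmul : ∀ q q' : G, (q = 1 ∨ q = q₁ ∨ q = q₂ ∨ q = q₃) →
      (q' = 1 ∨ q' = q₁ ∨ q' = q₂ ∨ q' = q₃) →
      (q * q' = 1 ∨ q * q' = q₁ ∨ q * q' = q₂ ∨ q * q' = q₃) := by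
    rintro q q' (rfl | rfl | rfl | rfl) (rfl | rfl | rfl | rfl) <;>
      simp [c.q11, c.q22, c.q33, c.q12, c.q21, h13, h23, h31, h32]
  have hQcomm : ∀ q q' : G, (q = 1 ∨ q = q₁ ∨ q = q₂ ∨ q = q₃) →
      (q' = 1 ∨ q' = q₁ ∨ q' = q₂ ∨ q' = q₃) → q * q' = q' * q := by
    rintro q q' (rfl | rfl | rfl | rfl) (rfl | rfl | rfl | rfl) <;>
      simp [c.q12, c.q21, h13, h23, h31, h32]
  have hQsq : ∀ q : G, (q = 1 ∨ q = q₁ ∨ q = q₂ ∨ q = q₃) → q * q = 1 := by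
    rintro q (rfl | rfl | rfl | rfl) <;> simp [c.q11, c.q22, c.q33]
  have hQR : ∀ q : G, (q = 1 ∨ q = q₁ ∨ q = q₂ ∨ q = q₃) → q ∈ R := by
    rintro q (rfl | rfl | rfl | rfl)
    · exact R.one_mem
    · exact c.q1R
    · exact c.q2R
    · exact c.q3R
  have hQb : ∀ q : G, (q = 1 ∨ q = q₁ ∨ q = q₂ ∨ q = q₃) →
      (b * q * b⁻¹ = 1 ∨ b * q * b⁻¹ = q₁ ∨ b * q * b⁻¹ = q₂ ∨ b * q * b⁻¹ = q₃) := by
    rintro q (rfl | rfl | rfl | rfl)
    · left; group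
    · right; right; left; exact c.bq1
    · right; right; right; exact c.bq2
    · right; left; exact c.bq3
  -- `q` commutes with `x` when `q * x` is in `Z`
  have hcommQ : ∀ q x : G, IsZ ρ (q * x) → q * x = x * q := by
    intro q x hzx
    have h := N15Z.isZ_comm c hzx x
    exact mul_right_cancel (by rw [h, mul_assoc])
  let A : Subgroup G :=
    { carrier := {x | x ∈ R ∧ ∃ q, (q = 1 ∨ q = q₁ ∨ q = q₂ ∨ q = q₃) ∧ IsZ ρ (q * x)}
      mul_mem' := by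
        rintro x y ⟨hx, q, hq, hzx⟩ ⟨hy, q', hq', hzy⟩
        refine ⟨R.mul_mem hx hy, q * q', hQmul q q' hq hq', ?_⟩
        have e1 : (q * q') * (x * y) = q' * (q * x) * y := by
          rw [hQcomm q q' hq hq']; group
        have e2 : q' * (q * x) = (q * x) * q' := (N15Z.isZ_comm c hzx q').symm
        rw [e1, e2, mul_assoc]
        exact N15Z.isZ_mul c hzx hzy
      one_mem' := ⟨R.one_mem, 1, Or.inl rfl, by rw [one_mul]; exact Or.inl rfl⟩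
      inv_mem' := by
        rintro x ⟨hx, q, hq, hzx⟩
        refine ⟨R.inv_mem hx, q, hq, ?_⟩
        have hqx := hcommQ q x hzx
        have hqinv : q⁻¹ = q := inv_eq_of_mul_eq_one_left (hQsq q hq)
        have e3 : x⁻¹ * q = q * x⁻¹ := by
          rw [eq_mul_inv_iff_mul_eq, mul_assoc, hqx, ← mul_assoc, inv_mul_cancel, one_mul]
        have e : q * x⁻¹ = (q * x)⁻¹ := by
          rw [mul_inv_rev, hqinv, e3]
        rw [e]
        exact N15Z.isZ_inv c hzx }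
  have hAmem : ∀ x : G, x ∈ A ↔
      (x ∈ R ∧ ∃ q, (q = 1 ∨ q = q₁ ∨ q = q₂ ∨ q = q₃) ∧ IsZ ρ (q * x)) := fun x => Iff.rfl
  have hAR : A ≤ R := fun x hx => hx.1
  have hAexp : ∀ x ∈ A, x ^ 2 = 1 := by
    rintro x ⟨hx, q, hq, hzx⟩
    have hqx := hcommQ q x hzx
    calc x ^ 2 = x * x := pow_two x
      _ = (x * q) * (q * x) := by rw [mul_assoc, ← mul_assoc q q x, hQsq q hq, one_mul]
      _ = (q * x) * (q * x) := by rw [hqx]
      _ = 1 := N15Z.isZ_sq c hzx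
  have hconjb : ∀ x ∈ A, b * x * b⁻¹ ∈ A := by
    rintro x ⟨hx, q, hq, hzx⟩
    refine ⟨c.Rn.conj_mem x hx b, b * q * b⁻¹, hQb q hq, ?_⟩
    have e : (b * q * b⁻¹) * (b * x * b⁻¹) = b * (q * x) * b⁻¹ := by group
    rw [e, N15Z.isZ_conj c hzx b]
    exact hzx
  have hconjr : ∀ r ∈ R, ∀ x ∈ A, r * x * r⁻¹ ∈ A := by
    rintro r hr x ⟨hx, q, hq, hzx⟩
    refine ⟨c.Rn.conj_mem x hx r, q, hq, ?_⟩
    have hz' : IsZ ρ (r * q * r⁻¹ * q⁻¹) := hz.2.1 r (hRT hr) q (hRT (hQR q hq))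
    have hzc := N15Z.isZ_comm c hzx r⁻¹
    have e : q * (r * x * r⁻¹) = (r * q * r⁻¹ * q⁻¹)⁻¹ * (q * x) := by
      calc q * (r * x * r⁻¹) = q * r * q⁻¹ * ((q * x) * r⁻¹) := by group
        _ = q * r * q⁻¹ * (r⁻¹ * (q * x)) := by rw [hzc]
        _ = (r * q * r⁻¹ * q⁻¹)⁻¹ * (q * x) := by group
    rw [e]
    exact N15Z.isZ_mul c (N15Z.isZ_inv c hz') hzx
  have hAn : A.Normal := by
    refine ⟨fun x hx g => ?_⟩
    obtain ⟨r, hr, hg⟩ := hfq g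
    rcases hg with hg | hg | hg
    · rw [hg]
      exact hconjr r hr x hx
    · have e : r * b * x * (r * b)⁻¹ = r * (b * x * b⁻¹) * r⁻¹ := by group
      rw [hg, e]
      exact hconjr r hr _ (hconjb x hx)
    · have e : r * (b * b) * x * (r * (b * b))⁻¹ = r * (b * (b * x * b⁻¹) * b⁻¹) * r⁻¹ := by
        group
      rw [hg, e]
      exact hconjr r hr _ (hconjb _ (hconjb x hx))
  have hq1A : q₁ ∈ A :=
    ⟨c.q1R, q₁, Or.inr (Or.inl rfl), by rw [c.q11]; exact Or.inl rfl⟩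
  have hcomm := hC A hAn hAR hAexp q₁ hq1A
  have hq12 : q₂ = q₁ := by
    rw [← c.bq1, ← hcomm, mul_inv_cancel_right]
  have h1 := c.s21
  rw [hq12, c.s11] at h1
  exact c.v1 (N15Z.eq_zero_of_eq_neg h1)

end Cfsg.Agent.Helper91.N15
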