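import Cfsg.Prelude.Def_Transfer
import Cfsg.Prelude.Def_Solvable
import Cfsg.Agent.Helper63.N15Defs

/-!
# CALL S4415 piece m4det (helper91)
-/

set_option autoImplicit false

namespace Cfsg.Agent.Helper91.N15

open Cfsg.Agent.Helper63.N15

variable {G : Type*} [Group G] [Finite G] {V : Type*} [AddCommGroup V] [Module (ZMod 3) V]
  [Finite V] {ρ : Representation (ZMod 3) G V} {R : Subgroup G} {b q₁ q₂ q₃ : G} {v₁ v₂ v₃ : V}

/-- determinant of a monomial map in a basis indexed by `Fin 4` -/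
theorem m4det_aux (B : Module.Basis (Fin 4) (ZMod 3) V) (f : V →ₗ[ZMod 3] V)
    (σ : Equiv.Perm (Fin 4)) (a : Fin 4 → ZMod 3) (hf : ∀ j, f (B j) = a j • B (σ j)) :
    LinearMap.det f = ((Equiv.Perm.sign σ : ℤˣ) : ℤ) * ∏ j, a j := by
  rw [← LinearMap.det_toMatrix B]
  have hM : LinearMap.toMatrix B B f = (Matrix.diagonal a).submatrix σ.symm id := by
    ext i j
    rw [LinearMap.toMatrix_apply, hf, map_smul, Module.Basis.repr_self, Matrix.submatrix_apply,
      Matrix.diagonal_apply, Finsupp.smul_apply, Finsupp.single_apply, id]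
    by_cases hij : σ j = i
    · have h2 : σ.symm i = j := by rw [← hij, Equiv.symm_apply_apply]
      rw [if_pos hij, if_pos h2, h2, smul_eq_mul, mul_one]
    · have h2 : ¬ σ.symm i = j := by
        intro h
        apply hij
        rw [← h, Equiv.apply_symm_apply]
      rw [if_neg hij, if_neg h2, smul_zero]
  rw [hM, Matrix.det_permute, Matrix.det_diagonal, Equiv.Perm.sign_symm]

/-- M4det. Determinant of a diagonal / double-transposition monomial map in the basis
`e₁, e₂, e₃, e₄` (build a `Module.Basis (Fin 4)` from `Mono4` and compute the `4 × 4`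
determinant). -/
theorem m4det (ρ : Representation (ZMod 3) G V) (b : G) (e₁ e₂ e₃ e₄ : V)
    (h : Mono4 ρ b e₁ e₂ e₃ e₄) (g : G) (hdet : LinearMap.det (ρ g) = 1) :
    Det4 ρ g e₁ e₂ e₃ e₄ := by
  have hli : LinearIndependent (ZMod 3) ![e₁, e₂, e₃, e₄] := by
    rw [Fintype.linearIndependent_iff]
    intro c hc i
    rw [Fin.sum_univ_four] at hc
    obtain ⟨h1, h2, h3, h4⟩ := h.2.1 _ _ _ _ hc
    fin_cases i <;> assumption
  have hsp : ⊤ ≤ Submodule.span (ZMod 3) (Set.range ![e₁, e₂, e₃, e₄]) := by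
    intro v _
    obtain ⟨c₁, c₂, c₃, c₄, rfl⟩ := h.1 v
    refine Submodule.add_mem _ (Submodule.add_mem _ (Submodule.add_mem _ ?_ ?_) ?_) ?_
    all_goals apply Submodule.smul_mem; apply Submodule.subset_span
    exacts [⟨0, rfl⟩, ⟨1, rfl⟩, ⟨2, rfl⟩, ⟨3, rfl⟩]
  obtain ⟨B, hB⟩ : ∃ B : Module.Basis (Fin 4) (ZMod 3) V, ⇑B = ![e₁, e₂, e₃, e₄] :=
    ⟨Module.Basis.mk hli hsp, Module.Basis.coe_mk hli hsp⟩
  have hB0 : B 0 = e₁ := by rw [hB]; rfl
  have hB1 : B 1 = e₂ := by rw [hB]; rfl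
  have hB2 : B 2 = e₃ := by rw [hB]; rfl
  have hB3 : B 3 = e₄ := by rw [hB]; rfl
  have key : ∀ (σ : Equiv.Perm (Fin 4)) (a : Fin 4 → ZMod 3),
      ((Equiv.Perm.sign σ : ℤˣ) : ℤ) = 1 → (∀ j, ρ g (B j) = a j • B (σ j)) →
      a 0 * a 1 * a 2 * a 3 = 1 := by
    intro σ a hs hf
    have h1 := m4det_aux B (ρ g) σ a hf
    rw [hdet, hs, Fin.prod_univ_four, Int.cast_one, one_mul] at h1
    exact h1.symm
  refine ⟨?_, ?_, ?_, ?_⟩
  · intro ε₁ ε₂ ε₃ ε₄ h1 h2 h3 h4
    refine key 1 ![ε₁, ε₂, ε₃, ε₄] (by simp) ?_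
    intro j
    fin_cases j
    · simpa [hB0] using h1
    · simpa [hB1] using h2
    · simpa [hB2] using h3
    · simpa [hB3] using h4
  · intro α β γ δ h1 h2 h3 h4
    have hσ : ∀ j : Fin 4, (Equiv.swap (0 : Fin 4) 1 * Equiv.swap 2 3 : Equiv.Perm (Fin 4)) j = ![1, 0, 3, 2] j := by decide
    have := key (Equiv.swap 0 1 * Equiv.swap 2 3) ![α, β, γ, δ] (by decide) ?_
    · simpa using this
    intro j
    rw [hσ]
    fin_cases j
    · simpa [hB0, hB1] using h1
    · simpa [hB0, hB1] using h2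
    · simpa [hB2, hB3] using h3
    · simpa [hB2, hB3] using h4
  · intro α β γ δ h1 h2 h3 h4
    have hσ : ∀ j : Fin 4, (Equiv.swap (0 : Fin 4) 2 * Equiv.swap 1 3 : Equiv.Perm (Fin 4)) j = ![2, 3, 0, 1] j := by decide
    have := key (Equiv.swap 0 2 * Equiv.swap 1 3) ![α, γ, β, δ] (by decide) ?_
    · simp at this
      rw [← this]; ring
    intro j
    rw [hσ]
    fin_cases j
    · simpa [hB0, hB2] using h1
    · simpa [hB1, hB3] using h3
    · simpa [hB0, hB2] using h2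
    · simpa [hB1, hB3] using h4
  · intro α β γ δ h1 h2 h3 h4
    have hσ : ∀ j : Fin 4, (Equiv.swap (0 : Fin 4) 3 * Equiv.swap 1 2 : Equiv.Perm (Fin 4)) j = ![3, 2, 1, 0] j := by decide
    have := key (Equiv.swap 0 3 * Equiv.swap 1 2) ![α, γ, δ, β] (by decide) ?_
    · simp at this
      rw [← this]; ring
    intro j
    rw [hσ]
    fin_cases j
    · simpa [hB0, hB3] using h1
    · simpa [hB1, hB2] using h3
    · simpa [hB1, hB2] using h4
    · simpa [hB0, hB3] using h2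

end Cfsg.Agent.Helper91.N15
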