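import Cfsg.Agent.Helper99.RuDefs

namespace Cfsg.Agent.Helper91

open Cfsg.Agent.Helper99 Module

universe u v

/-- PIECE CONJ (pure Mathlib). -/
theorem ru_conj {K : Type*} [Field K] (n : ℕ) (J : GL (Fin n) K) (M : Matrix (Fin n) (Fin n) K)
    (hJ : ∀ i j : Fin n, (J : Matrix (Fin n) (Fin n) K) i j =
      if i = j then 1 else if j.val = i.val + 1 then 1 else 0)
    (h1 : (M - 1) ^ n = 0) (h2 : (M - 1) ^ (n - 1) ≠ 0) :
    ∃ x : GL (Fin n) K, M = ((x * J * x⁻¹ : GL (Fin n) K) : Matrix (Fin n) (Fin n) K) := by
  classical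
  obtain ⟨N, hN⟩ : ∃ N : Matrix (Fin n) (Fin n) K, N = M - 1 := ⟨_, rfl⟩
  rw [← hN] at h1 h2
  have hM : M = N + 1 := by
    rw [hN, sub_add_cancel]
  have hn : 0 < n := by
    by_contra h0
    have h3 : n = 0 := by omega
    subst h3
    exact h2 (Subsingleton.elim _ _)
  obtain ⟨v, hv⟩ : ∃ v : Fin n → K, Matrix.mulVec (N ^ (n - 1)) v ≠ 0 := by
    by_contra hcon
    push_neg at hcon
    apply h2
    ext i j
    have h3 := congrFun (hcon (Pi.single j 1)) i
    rw [Matrix.mulVec_single_one] at h3
    exact h3
  obtain ⟨w, hw⟩ : ∃ w : ℕ → Fin n → K, ∀ k, w k = Matrix.mulVec (N ^ k) v := ⟨_, fun _ => rfl⟩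
  have hwN : ∀ a k, Matrix.mulVec (N ^ a) (w k) = w (a + k) := by
    intro a k
    rw [hw, hw, Matrix.mulVec_mulVec, ← pow_add]
  have hw0 : ∀ k, n ≤ k → w k = 0 := by
    intro k hk
    rw [hw, ← Nat.sub_add_cancel hk, pow_add, h1, mul_zero, Matrix.zero_mulVec]
  have hwn : w (n - 1) ≠ 0 := by
    rw [hw]
    exact hv
  have hli : ∀ c : Fin n → K, ∑ i : Fin n, c i • w (n - 1 - i.val) = 0 → ∀ i, c i = 0 := by
    intro c hc
    have key : ∀ d : ℕ, ∀ i : Fin n, n ≤ i.val + d → c i = 0 := by
      intro d
      induction d with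
      | zero =>
        intro i hi
        exact absurd i.isLt (by omega)
      | succ d ih =>
        intro i hi
        by_cases hid : n ≤ i.val + d
        · exact ih i hid
        · have h3 := congrArg (fun u => Matrix.mulVec (N ^ i.val) u) hc
          simp only [Matrix.mulVec_sum, Matrix.mulVec_smul, Matrix.mulVec_zero, hwN] at h3
          rw [Finset.sum_eq_single i] at h3
          · have e : i.val + (n - 1 - i.val) = n - 1 := by omega
            rw [e] at h3
            exact (smul_eq_zero.1 h3).resolve_right hwn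
          · intro j _ hji
            have hji' : j.val ≠ i.val := fun h => hji (Fin.ext h)
            rcases lt_or_gt_of_ne hji' with hlt | hgt
            · rw [hw0 _ (by omega), smul_zero]
            · rw [ih j (by omega), zero_smul]
          · intro h
            exact absurd (Finset.mem_univ i) h
    intro i
    exact key n i (by omega)
  obtain ⟨P, hP⟩ : ∃ P : Matrix (Fin n) (Fin n) K, ∀ r i, P r i = w (n - 1 - i.val) r :=
    ⟨Matrix.of (fun r (i : Fin n) => w (n - 1 - i.val) r), fun _ _ => rfl⟩
  have hPc : ∀ c : Fin n → K, Matrix.mulVec P c = ∑ i, c i • w (n - 1 - i.val) := by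
    intro c
    ext r
    simp only [Matrix.mulVec, dotProduct, hP, Finset.sum_apply, Pi.smul_apply, smul_eq_mul]
    exact Finset.sum_congr rfl (fun i _ => mul_comm _ _)
  have hdet : P.det ≠ 0 := by
    intro h0
    obtain ⟨c, hc0, hc⟩ := Matrix.exists_mulVec_eq_zero_iff.2 h0
    rw [hPc] at hc
    exact hc0 (funext (hli c hc))
  have hPu : IsUnit P := (Matrix.isUnit_iff_isUnit_det P).2 (isUnit_iff_ne_zero.2 hdet)
  have hMP : M * P = P * (J : Matrix (Fin n) (Fin n) K) := by
    ext r j
    have hL : (M * P) r j = w (n - 1 - j.val) r + w (1 + (n - 1 - j.val)) r := by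
      have h3 : (M * P) r j = (Matrix.mulVec M (w (n - 1 - j.val))) r := by
        simp only [Matrix.mul_apply, Matrix.mulVec, dotProduct, hP]
      have h4 := hwN 1 (n - 1 - j.val)
      rw [pow_one] at h4
      rw [h3, hM, Matrix.add_mulVec, Matrix.one_mulVec, Pi.add_apply, h4, add_comm]
    have hR : (P * (J : Matrix (Fin n) (Fin n) K)) r j =
        w (n - 1 - j.val) r + (if 0 < j.val then w (n - j.val) r else 0) := by
      rw [Matrix.mul_apply]
      have e : ∀ k : Fin n, P r k * (J : Matrix (Fin n) (Fin n) K) k j =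
          (if k = j then w (n - 1 - j.val) r else 0) +
            (if j.val = k.val + 1 then w (n - j.val) r else 0) := by
        intro k
        rw [hJ, hP]
        by_cases hkj : k = j
        · subst hkj
          rw [if_pos rfl, if_pos rfl, if_neg (by omega), mul_one, add_zero]
        · rw [if_neg hkj, if_neg hkj, zero_add]
          by_cases hjk : j.val = k.val + 1
          · rw [if_pos hjk, if_pos hjk, mul_one]
            have e1 : n - 1 - k.val = n - j.val := by omega
            rw [e1]
          · rw [if_neg hjk, if_neg hjk, mul_zero]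
      rw [Finset.sum_congr rfl (fun k _ => e k), Finset.sum_add_distrib, Finset.sum_ite_eq',
        if_pos (Finset.mem_univ _)]
      congr 1
      by_cases hj : 0 < j.val
      · rw [if_pos hj, Finset.sum_eq_single (⟨j.val - 1, by omega⟩ : Fin n)]
        · rw [if_pos]
          show j.val = j.val - 1 + 1
          omega
        · intro k _ hk
          rw [if_neg]
          intro h
          apply hk
          apply Fin.ext
          show k.val = j.val - 1
          omega
        · intro h
          exact absurd (Finset.mem_univ _) h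
      · rw [if_neg hj]
        apply Finset.sum_eq_zero
        intro k _
        rw [if_neg]
        omega
    rw [hL, hR]
    congr 1
    by_cases hj : 0 < j.val
    · rw [if_pos hj]
      have e1 : 1 + (n - 1 - j.val) = n - j.val := by omega
      rw [e1]
    · rw [if_neg hj, hw0 _ (by omega)]
      rfl
  refine ⟨hPu.unit, ?_⟩
  have hinv : P * ((hPu.unit⁻¹ : GL (Fin n) K) : Matrix (Fin n) (Fin n) K) = 1 := by
    have h3 := Units.mul_inv hPu.unit
    rwa [IsUnit.unit_spec] at h3
  rw [Units.val_mul, Units.val_mul, IsUnit.unit_spec, ← hMP, mul_assoc, hinv, mul_one]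

end Cfsg.Agent.Helper91
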