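import Cfsg.Agent.Helper99.RuDefs

namespace Cfsg.Agent.Helper91

open Cfsg.Agent.Helper99 Module

universe u v

variable {K : Type u} [Field K] {X : Type v} [AddCommGroup X] [Module K X]

/-- PIECE DET. -/
theorem ru_det [FiniteDimensional K X] (g : X →ₗ[K] X) (x : X) (φ : Dual K X)
    (h1 : φ x = 1) (h2 : φ (g x) = 1) :
    LinearMap.det (ruSchur g x φ h2) = LinearMap.det g := by
  obtain ⟨H, hH⟩ : ∃ H : X →ₗ[K] X, H = g - (φ ∘ₗ g).smulRight (g x) + φ.smulRight x :=
    ⟨_, rfl⟩
  have hHv : ∀ v, H v = g v - φ (g v) • g x + φ v • x := by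
    intro v
    rw [hH]
    simp
  have hW : LinearMap.ker φ ≤ (LinearMap.ker φ).comap H := by
    intro w hw
    rw [Submodule.mem_comap, LinearMap.mem_ker, hHv]
    rw [LinearMap.mem_ker] at hw
    simp [hw, h2]
  have hres : H.restrict hW = ruSchur g x φ h2 := by
    ext w
    rw [LinearMap.restrict_coe_apply, ruSchur_coe, hHv]
    have h0 : φ (w : X) = 0 := w.2
    rw [h0, zero_smul, add_zero]
  have hQ : (LinearMap.ker φ).mapQ (LinearMap.ker φ) H hW = LinearMap.id := by
    apply LinearMap.ext
    intro q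
    obtain ⟨v, rfl⟩ := Submodule.Quotient.mk_surjective _ q
    rw [Submodule.mapQ_apply, LinearMap.id_apply, Submodule.Quotient.eq, LinearMap.mem_ker, hHv]
    simp [h1, h2]
  have hdetH : LinearMap.det H = LinearMap.det (ruSchur g x φ h2) := by
    rw [LinearMap.det_eq_det_mul_det (LinearMap.ker φ) H hW, hres, hQ, LinearMap.det_id, mul_one]
  have hg : g = LinearMap.transvection φ (g x - x) ∘ₗ H ∘ₗ
      LinearMap.transvection (φ ∘ₗ g - φ) x := by
    ext v
    simp only [LinearMap.comp_apply, LinearMap.transvection.apply, hHv, LinearMap.sub_apply,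
      map_add, map_sub, map_smul, smul_eq_mul, h1, h2]
    module
  rw [← hdetH]
  conv_rhs => rw [hg]
  rw [LinearMap.det_comp, LinearMap.det_comp, LinearMap.transvection.det,
    LinearMap.transvection.det]
  simp [h1, h2]

end Cfsg.Agent.Helper91
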