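import Cfsg.Agent.Helper99.RuDefs
import Cfsg.Agent.Helper91.Su5R

namespace Cfsg.Agent.Helper91

open Cfsg.Agent.Helper99 Module

universe u v

/-- matrix part of TV: `1 + E_(0,N)` is a product of two regular unipotent matrices. -/
theorem rutv_mat {F : Type*} [Field F] (N : ℕ) (hN : 2 ≤ N) :
    ∃ A B : Matrix (Fin (N + 1)) (Fin (N + 1)) F,
      (∀ i j : Fin (N + 1), (A * B) i j =
        (if i = j then 1 else 0) + (if i.val = 0 ∧ j.val = N then 1 else 0)) ∧
      (A - 1) ^ (N + 1) = 0 ∧ (B - 1) ^ (N + 1) = 0 ∧ (A - 1) ^ N ≠ 0 ∧ (B - 1) ^ N ≠ 0 := by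
  classical
  obtain ⟨E, hE⟩ : ∃ E : Matrix (Fin (N + 1)) (Fin (N + 1)) F,
      ∀ a b, E a b = if a.val = 0 ∧ b.val = N then 1 else 0 :=
    ⟨Matrix.of fun a b => if a.val = 0 ∧ b.val = N then 1 else 0, fun _ _ => rfl⟩
  have hreg : ∀ M : Matrix (Fin (N + 1)) (Fin (N + 1)) F,
      (∀ a b : Fin (N + 1), b.val < a.val → M a b = 0) → (∀ a, M a a = 1) →
      (∀ a b : Fin (N + 1), b.val = a.val + 1 → M a b ≠ 0) →
      (M - 1) ^ (N + 1) = 0 ∧ (M - 1) ^ N ≠ 0 := by
    intro M hlow hdiag hs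
    refine ⟨?_, (su5r_regular M hlow hdiag hs).2⟩
    ext a b
    rw [Matrix.zero_apply]
    have hb := b.2
    apply su5r_pow_zero (M - 1) _ (N + 1) a b (by omega)
    intro a b hab
    rw [Matrix.sub_apply]
    by_cases e : b.val = a.val
    · have h3 : a = b := Fin.ext e.symm
      subst h3
      rw [hdiag, Matrix.one_apply_eq, sub_self]
    · rw [hlow a b (by omega), Matrix.one_apply_ne (fun e' => e (by rw [e'])), sub_zero]
  have hA := hreg (Cfsg.Agent.Helper13.ruU N F + E)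
    (by
      intro a b hab
      rw [Matrix.add_apply, Cfsg.Agent.Helper13.ruU_apply, hE, if_neg (by omega),
        if_neg (by omega), add_zero])
    (by
      intro a
      rw [Matrix.add_apply, Cfsg.Agent.Helper13.ruU_apply, hE, if_pos le_rfl,
        if_neg (by omega), add_zero])
    (by
      intro a b hab
      rw [Matrix.add_apply, Cfsg.Agent.Helper13.ruU_apply, hE, if_pos (by omega),
        if_neg (by omega), add_zero]
      exact one_ne_zero)
  have hB := hreg (Cfsg.Agent.Helper13.ruUi N F)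
    (by
      intro a b hab
      rw [Cfsg.Agent.Helper13.ruUi_apply, if_neg (by omega), if_neg (by omega)])
    (by
      intro a
      rw [Cfsg.Agent.Helper13.ruUi_apply, if_pos rfl])
    (by
      intro a b hab
      rw [Cfsg.Agent.Helper13.ruUi_apply, if_neg (by omega), if_pos hab]
      exact neg_ne_zero.2 one_ne_zero)
  refine ⟨Cfsg.Agent.Helper13.ruU N F + E, Cfsg.Agent.Helper13.ruUi N F, ?_, hA.1, hB.1,
    hA.2, hB.2⟩
  intro i j
  rw [add_mul, Cfsg.Agent.Helper13.ruU_mul_ruUi, Matrix.add_apply, Matrix.one_apply,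
    Cfsg.Agent.Helper13.mul_ruUi_entry, hE, hE]
  congr 1
  have hj := j.2
  have h3 : ¬ (i.val = 0 ∧ (Cfsg.Agent.Helper13.rix N (j.val - 1)).val = N) := by
    rw [Cfsg.Agent.Helper13.rix_val]
    omega
  rw [if_neg h3, ite_self, sub_zero]

section
variable {K : Type u} [Field K] {X : Type v} [AddCommGroup X] [Module K X]

/-- an adapted basis for a transvection. -/
theorem rutv_basis [FiniteDimensional K X] (e : X) (β : Dual K X) (he : e ≠ 0) (hβ : β ≠ 0)
    (hβe : β e = 0) :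
    ∃ (k : ℕ) (c : Basis (Fin (k + 2)) K X), c 0 = e ∧
      ∀ i : Fin (k + 2), β (c i) = if i.val = k + 1 then 1 else 0 := by
  classical
  obtain ⟨y₀, hy₀⟩ : ∃ y₀, β y₀ ≠ 0 := by
    by_contra h
    push_neg at h
    exact hβ (LinearMap.ext h)
  obtain ⟨γ₀, hγ₀⟩ : ∃ γ₀ : Dual K X, γ₀ e ≠ 0 := by
    by_contra h
    push_neg at h
    exact he ((Module.forall_dual_apply_eq_zero_iff K e).1 h)
  obtain ⟨γ, hγ⟩ : ∃ γ : Dual K X, γ e = 1 := ⟨(γ₀ e)⁻¹ • γ₀, by simp [hγ₀]⟩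
  obtain ⟨y, hy1, hy2⟩ : ∃ y : X, β y = 1 ∧ γ y = 0 := by
    refine ⟨(β y₀)⁻¹ • y₀ - γ ((β y₀)⁻¹ • y₀) • e, ?_, ?_⟩
    · simp [hβe, hy₀]
    · simp [hγ]
  obtain ⟨N₂, hN₂⟩ : ∃ N₂ : Submodule K X, N₂ = LinearMap.ker β ⊓ LinearMap.ker γ := ⟨_, rfl⟩
  have hN₂m : ∀ z, z ∈ N₂ ↔ β z = 0 ∧ γ z = 0 := by
    intro z
    rw [hN₂, Submodule.mem_inf, LinearMap.mem_ker, LinearMap.mem_ker]
  have hle : N₂ ≤ LinearMap.ker β := by
    rw [hN₂]
    exact inf_le_left
  have heβ : e ∈ LinearMap.ker β := hβe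
  obtain ⟨b₁, hb₁⟩ : ∃ b₁ : Basis (Fin (finrank K N₂ + 1)) K (LinearMap.ker β),
      ((b₁ 0 : LinearMap.ker β) : X) = e := by
    refine ⟨Module.Basis.mkFinConsOfLE e heβ (Module.finBasis K N₂) hle ?_ ?_, ?_⟩
    · intro c x hx h
      have h3 := congrArg γ h
      rw [map_add, map_smul, hγ, ((hN₂m x).1 hx).2, map_zero, add_zero, smul_eq_mul,
        mul_one] at h3
      exact h3
    · intro z hz
      refine ⟨-γ z, (hN₂m _).2 ⟨?_, ?_⟩⟩
      · rw [map_add, map_smul, hβe, LinearMap.mem_ker.1 hz, smul_zero, add_zero]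
      · rw [map_add, map_smul, hγ, smul_eq_mul, mul_one, add_neg_cancel]
    · rw [Module.Basis.coe_mkFinConsOfLE, Fin.cons_zero]
  obtain ⟨b, hbc, hbl⟩ : ∃ b : Basis (Fin (finrank K N₂ + 1 + 1)) K X,
      (∀ i : Fin (finrank K N₂ + 1), b (Fin.castSucc i) = ((b₁ i : LinearMap.ker β) : X)) ∧
        b (Fin.last _) = y := by
    refine ⟨Module.Basis.mkFinSnoc b₁ y ?_ ?_, ?_, ?_⟩
    · intro c x hx h
      have h3 := congrArg β h
      rw [map_add, map_smul, hy1, LinearMap.mem_ker.1 hx, map_zero, add_zero, smul_eq_mul,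
        mul_one] at h3
      exact h3
    · intro z
      refine ⟨-β z, ?_⟩
      rw [LinearMap.mem_ker, map_add, map_smul, hy1, smul_eq_mul, mul_one, add_neg_cancel]
    · intro i
      rw [Module.Basis.coe_mkFinSnoc, Fin.snoc_castSucc]
      rfl
    · rw [Module.Basis.coe_mkFinSnoc, Fin.snoc_last]
  refine ⟨finrank K N₂, b, ?_, ?_⟩
  · have h3 := hbc 0
    rw [hb₁] at h3
    exact h3
  · intro i
    by_cases hi : i.val = finrank K N₂ + 1
    · rw [if_pos hi]
      have h3 : i = Fin.last _ := Fin.ext hi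
      rw [h3, hbl, hy1]
    · rw [if_neg hi]
      have hi2 := i.2
      have h3 : i = Fin.castSucc (⟨i.val, by omega⟩ : Fin (finrank K N₂ + 1)) := Fin.ext rfl
      rw [h3, hbc]
      exact LinearMap.mem_ker.1 (b₁ _).2

/-- PIECE TV. -/
theorem ru_tv [FiniteDimensional K X] (hK : 4 ≤ Cardinal.mk K) (hm : 3 ≤ finrank K X) (e : X)
    (β : Dual K X) (he : e ≠ 0) (hβ : β ≠ 0) (hβe : β e = 0) :
    ∃ u1 u2 : X →ₗ[K] X, (1 + β.smulRight e : X →ₗ[K] X) = u1 ∘ₗ u2 ∧
      (u1 - 1) ^ (finrank K X) = 0 ∧ (u2 - 1) ^ (finrank K X) = 0 ∧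
      (u1 - 1) ^ (finrank K X - 1) ≠ 0 ∧ (u2 - 1) ^ (finrank K X - 1) ≠ 0 := by
  classical
  obtain ⟨k, c, hc0, hcβ⟩ := rutv_basis e β he hβ hβe
  have hfr : finrank K X = k + 2 := by
    rw [Module.finrank_eq_card_basis c, Fintype.card_fin]
  rw [hfr] at hm ⊢
  obtain ⟨A, B, hAB, hA1, hB1, hA2, hB2⟩ := rutv_mat (F := K) (k + 1) (by omega)
  have hΦ : ∀ (Mx : Matrix (Fin (k + 2)) (Fin (k + 2)) K) (n : ℕ),
      (Matrix.toLinAlgEquiv c Mx - 1) ^ n = Matrix.toLinAlgEquiv c ((Mx - 1) ^ n) := by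
    intro Mx n
    rw [map_pow, map_sub, map_one]
  have e1 : k + 2 - 1 = k + 1 := rfl
  rw [e1]
  refine ⟨Matrix.toLinAlgEquiv c A, Matrix.toLinAlgEquiv c B, ?_, ?_, ?_, ?_, ?_⟩
  · rw [← Matrix.toLinAlgEquiv_mul]
    apply c.ext
    intro j
    rw [Matrix.toLinAlgEquiv_self]
    simp only [hAB, add_smul, Finset.sum_add_distrib, ite_smul, one_smul, zero_smul,
      Finset.sum_ite_eq', Finset.mem_univ, if_true]
    rw [LinearMap.add_apply, Module.End.one_apply, LinearMap.smulRight_apply, hcβ]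
    congr 1
    by_cases hj : j.val = k + 1
    · rw [if_pos hj, one_smul, Finset.sum_eq_single (0 : Fin (k + 2))]
      · rw [if_pos ⟨rfl, hj⟩, hc0]
      · intro i _ hi
        rw [if_neg]
        intro h
        exact hi (Fin.ext h.1)
      · intro h
        exact absurd (Finset.mem_univ _) h
    · rw [if_neg hj, zero_smul]
      symm
      apply Finset.sum_eq_zero
      intro i _
      rw [if_neg (fun h => hj h.2)]
  · rw [hΦ]
    exact (congrArg (Matrix.toLinAlgEquiv c) hA1).trans (map_zero _)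
  · rw [hΦ]
    exact (congrArg (Matrix.toLinAlgEquiv c) hB1).trans (map_zero _)
  · rw [hΦ]
    intro h
    exact hA2 ((Matrix.toLinAlgEquiv c).injective (h.trans (map_zero _).symm))
  · rw [hΦ]
    intro h
    exact hB2 ((Matrix.toLinAlgEquiv c).injective (h.trans (map_zero _).symm))

end

end Cfsg.Agent.Helper91
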