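/-
Helper91: PIECE E2b of CALL S5156 (helper85): the hyperfocal subgroup theorem transported to a
realised fusion system.
-/
import Mathlib
import Cfsg.Agent.Helper88.RealNormal
import Cfsg.Agent.Helper86.Hyperfocal
import Cfsg.Agent.S5093
import Cfsg.Agent.Helper84.FusionAut

set_option autoImplicit false
universe u
open Cfsg Cfsg.FusionSystem

namespace Cfsg.Agent.Helper91

variable {Ω : Type*} [Group Ω] {S : Subgroup Ω}

theorem s5156_le_hyp [Finite S] {p : ℕ} [Fact p.Prime] (E : FusionSystem S) {H : Type*} [Group H] [Finite H]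
    (ι : S →* H) (hreal : E.IsRealizedBy ι) (T : Sylow p H) (hT : (T : Subgroup H) = ι.range)
    (s : S) (hs : ι s ∈ pResidual p H) : (s : Ω) ∈ E.hyperfocalSubgroup p := by
  have hle : (groupFusionSystem (T : Subgroup H)).hyperfocalSubgroup p ≤
      Subgroup.map ι ((E.hyperfocalSubgroup p).subgroupOf S) := by
    apply Helper86.hyperfocal_le_of_forall_coprime
    intro P hPT a hco x
    -- the preimage of `P` and the isomorphism induced by `ι`
    have hP₀ : Helper88.pre ι P ≤ S := Helper88.pre_le ι P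
    have hmem : ∀ y : Helper88.pre ι P, (ι.comp (Subgroup.inclusion hP₀)) y ∈ P := by
      intro y
      have h1 := (Helper88.mem_pre.1 y.2).2
      rw [Helper88.iext_apply ι (hP₀ y.2)] at h1
      exact h1
    have hbij : Function.Bijective ((ι.comp (Subgroup.inclusion hP₀)).codRestrict P hmem) := by
      constructor
      · intro y y' hyy
        have h1 : ι ⟨y, hP₀ y.2⟩ = ι ⟨y', hP₀ y'.2⟩ := congrArg Subtype.val hyy
        have h2 : (⟨y, hP₀ y.2⟩ : S) = ⟨y', hP₀ y'.2⟩ := hreal.1 h1
        exact Subtype.ext (congrArg (fun t : S => (t : Ω)) h2)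
      · intro z
        have hz : (z : H) ∈ ι.range := by
          rw [← hT]
          exact hPT z.2
        obtain ⟨t, ht⟩ := hz
        have htm : (t : Ω) ∈ Helper88.pre ι P := by
          rw [Helper88.mem_pre]
          refine ⟨t.2, ?_⟩
          rw [Helper88.iext_apply ι t.2]
          show ι t ∈ P
          rw [ht]
          exact z.2
        refine ⟨⟨t, htm⟩, ?_⟩
        apply Subtype.ext
        show ι ⟨(t : Ω), _⟩ = (z : H)
        rw [← ht]
    obtain ⟨θ, hθ⟩ : ∃ θ : Helper88.pre ι P ≃* P, ∀ y, ((θ y : P) : H) = ι ⟨y, hP₀ y.2⟩ :=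
      ⟨MulEquiv.ofBijective _ hbij, fun y => rfl⟩
    -- the automorphism is a conjugation
    obtain ⟨-, -, g, hg⟩ := Helper84.autGroup_hom (groupFusionSystem (T : Subgroup H)) hPT a.2
    have hg' : ∀ z : P, (((a : MulAut P) z : P) : H) = g * (z : H) * g⁻¹ := hg
    -- the transported automorphism
    obtain ⟨a', ha'⟩ : ∃ a' : MulAut (Helper88.pre ι P), a' = MulAut.congr θ.symm (a : MulAut P) :=
      ⟨_, rfl⟩
    have ha'θ : ∀ y, θ (a' y) = (a : MulAut P) (θ y) := by
      intro y
      rw [ha']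
      show θ (θ.symm ((a : MulAut P) (θ y))) = _
      rw [MulEquiv.apply_symm_apply]
    have hord : orderOf a' = orderOf a := by
      rw [ha', MulEquiv.orderOf_eq, Subgroup.orderOf_coe]
    have ha'E : a' ∈ E.autGroup (Helper88.pre ι P) := by
      rw [Helper84.mem_autGroup_iff E hP₀]
      rw [hreal.2 (Helper88.pre ι P) hP₀ _ (fun y => hP₀ (a' y).2)]
      refine ⟨g, fun y => ?_⟩
      have h1 := hθ (a' y)
      rw [ha'θ, hg', hθ] at h1
      exact h1.symm
    have hres : (⟨a', ha'E⟩ : E.autGroup (Helper88.pre ι P)) ∈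
        pResidual p (E.autGroup (Helper88.pre ι P)) := by
      apply Subgroup.subset_closure
      show (orderOf (⟨a', ha'E⟩ : E.autGroup (Helper88.pre ι P))).Coprime p
      rw [← Subgroup.orderOf_coe]
      show (orderOf a').Coprime p
      rw [hord]
      exact hco
    -- the generator
    have hgen : ((θ.symm x : Helper88.pre ι P) : Ω)⁻¹ * ((a' (θ.symm x) : Helper88.pre ι P) : Ω) ∈
        E.hyperfocalSubgroup p :=
      Subgroup.subset_closure ⟨Helper88.pre ι P, ⟨a', ha'E⟩, θ.symm x, hP₀, hres, rfl⟩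
    refine ⟨(⟨(θ.symm x : Helper88.pre ι P), hP₀ (θ.symm x).2⟩ : S)⁻¹ *
      ⟨(a' (θ.symm x) : Helper88.pre ι P), hP₀ (a' (θ.symm x)).2⟩, ?_, ?_⟩
    · exact hgen
    · rw [map_mul, map_inv, ← hθ, ← hθ, ha'θ, MulEquiv.apply_symm_apply]
  have h1 : ι s ∈ (groupFusionSystem (T : Subgroup H)).hyperfocalSubgroup p := by
    rw [Cfsg.Agent.S5093.result p T]
    refine ⟨?_, hs⟩
    show ι s ∈ (T : Subgroup H)
    rw [hT]
    exact ⟨s, rfl⟩
  obtain ⟨s', hs', hss⟩ := hle h1
  rw [← hreal.1 hss]
  exact hs'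

end Cfsg.Agent.Helper91
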